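import Mathlib

/-!
# Doubly transitive groups of degree `p ^ 2 + 1` with an imprimitive point stabilizer (helper15)

`Sys G p R`: `R a x y` says that `x` and `y` lie in the same block (of size `p`) of a system of
blocks for `G_a` on the points other than `a`, chosen equivariantly.
-/

set_option autoImplicit false
set_option linter.style.haveILetI false
set_option linter.unusedSectionVars false

namespace Cfsg.Agent.H15PSq

open MulAction Subgroup

universe u v

variable {G : Type u} {Ω : Type v} [Group G] [Finite G] [MulAction G Ω]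

theorem card_of_orbit (H : Subgroup G) (a : Ω) (O : Set Ω) (h1 : ∀ h ∈ H, h • a ∈ O)
    (h2 : ∀ y ∈ O, ∃ h ∈ H, h • a = y) :
    Nat.card H = O.ncard * Nat.card (H ⊓ stabilizer G a : Subgroup G) := by
  have e : orbit H a = O := by
    ext y
    constructor
    · rintro ⟨h, rfl⟩
      exact h1 h h.2
    · intro hy
      obtain ⟨h, hh, rfl⟩ := h2 y hy
      exact ⟨⟨h, hh⟩, rfl⟩
  have h3 := Subgroup.card_mul_index (stabilizer H a)
  rw [index_stabilizer, e] at h3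
  have h4 : Nat.card (stabilizer H a) = Nat.card (H ⊓ stabilizer G a : Subgroup G) :=
    Nat.card_congr
      { toFun := fun x => ⟨x.1.1, x.1.2, x.2⟩
        invFun := fun x => ⟨⟨x.1, x.2.1⟩, x.2.2⟩
        left_inv := fun _ => rfl
        right_inv := fun _ => rfl }
  rw [← h3, h4, mul_comm]

theorem ncard_modEq_fixed {p : ℕ} [Fact p.Prime] [Finite Ω] (Q : Subgroup G) (hQ : IsPGroup p Q)
    (A : Set Ω) (hA : ∀ q ∈ Q, ∀ x ∈ A, q • x ∈ A) :
    A.ncard ≡ {x | x ∈ A ∧ ∀ q ∈ Q, q • x = x}.ncard [MOD p] := by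
  let S : SubMulAction Q Ω := { carrier := A, smul_mem' := fun q x hx => hA q q.2 x hx }
  have h := hQ.card_modEq_card_fixedPoints (α := S)
  have e1 : Nat.card S = A.ncard := rfl
  have e2 : Nat.card (fixedPoints Q S) = {x | x ∈ A ∧ ∀ q ∈ Q, q • x = x}.ncard := by
    rw [← Nat.card_coe_set_eq]
    apply Nat.card_congr
    exact
      { toFun := fun x => ⟨x.1.1, x.1.2, fun q hq => congrArg Subtype.val (x.2 ⟨q, hq⟩)⟩
        invFun := fun x => ⟨⟨x.1, x.2.1⟩, fun q => Subtype.ext (x.2.2 q q.2)⟩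
        left_inv := fun _ => rfl
        right_inv := fun _ => rfl }
  rw [e1, e2] at h
  exact h

/-- a `p`-group acting on a set with fewer than `p` elements fixes every element. -/
theorem fixed_of_lt {p : ℕ} [hp : Fact p.Prime] [Finite Ω] (Q : Subgroup G) (hQ : IsPGroup p Q)
    (A : Set Ω) (hA : ∀ q ∈ Q, ∀ x ∈ A, q • x ∈ A) (hlt : A.ncard < p) {x : Ω} (hx : x ∈ A) :
    ∀ q ∈ Q, q • x = x := by
  have h1 := card_of_orbit Q x {y | ∃ q ∈ Q, q • x = y} (fun h hh => ⟨h, hh, rfl⟩)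
    (fun y hy => hy)
  obtain ⟨n, hn⟩ := (IsPGroup.iff_card (p := p) (G := Q)).1 hQ
  have h2 : {y | ∃ q ∈ Q, q • x = y}.ncard ∣ p ^ n := by
    rw [← hn, h1]
    exact dvd_mul_right _ _
  obtain ⟨k, hk, hk2⟩ := (Nat.dvd_prime_pow hp.out).1 h2
  have h3 : {y | ∃ q ∈ Q, q • x = y}.ncard ≤ A.ncard := by
    apply Set.ncard_le_ncard _ A.toFinite
    rintro y ⟨q, hq, rfl⟩
    exact hA q hq x hx
  have h4 : k = 0 := by
    by_contra hk0
    have : p ^ 1 ≤ p ^ k := Nat.pow_le_pow_right hp.out.pos (Nat.one_le_iff_ne_zero.2 hk0)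
    rw [pow_one, ← hk2] at this
    omega
  rw [h4, pow_zero, Set.ncard_eq_one] at hk2
  obtain ⟨z, hz⟩ := hk2
  intro q hq
  have a1 : q • x ∈ ({z} : Set Ω) := hz ▸ ⟨q, hq, rfl⟩
  have a2 : x ∈ ({z} : Set Ω) := hz ▸ ⟨1, one_mem _, one_smul _ _⟩
  rw [Set.mem_singleton_iff] at a1 a2
  rw [a1, a2]

theorem conj_sylow {p : ℕ} [hp : Fact p.Prime] (K Q₁ Q₂ : Subgroup G) (h₁ : Q₁ ≤ K) (h₂ : Q₂ ≤ K)
    (c₁ : Nat.card Q₁ = p ^ (Nat.card K).factorization p)
    (c₂ : Nat.card Q₂ = p ^ (Nat.card K).factorization p) :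
    ∃ k ∈ K, ∀ x, x ∈ Q₁ → k * x * k⁻¹ ∈ Q₂ := by
  have e₁ : Nat.card (Q₁.subgroupOf K) = p ^ (Nat.card K).factorization p := by
    rw [Nat.card_congr (subgroupOfEquivOfLe h₁).toEquiv, c₁]
  have e₂ : Nat.card (Q₂.subgroupOf K) = p ^ (Nat.card K).factorization p := by
    rw [Nat.card_congr (subgroupOfEquivOfLe h₂).toEquiv, c₂]
  obtain ⟨k, hk⟩ := exists_smul_eq K (Sylow.ofCard _ e₁) (Sylow.ofCard _ e₂)
  refine ⟨k, k.2, fun x hx => ?_⟩
  have hx' : (⟨x, h₁ hx⟩ : K) ∈ (Sylow.ofCard _ e₁ : Sylow p K) := by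
    change (⟨x, h₁ hx⟩ : K) ∈ Q₁.subgroupOf K
    exact mem_subgroupOf.2 hx
  have h3 : k * ⟨x, h₁ hx⟩ * k⁻¹ ∈ ((k • (Sylow.ofCard _ e₁ : Sylow p K) : Sylow p K) : Subgroup K) := by
    rw [Sylow.coe_subgroup_smul]
    exact ⟨⟨x, h₁ hx⟩, hx', rfl⟩
  rw [hk] at h3
  have h4 : k * ⟨x, h₁ hx⟩ * k⁻¹ ∈ Q₂.subgroupOf K := h3
  exact mem_subgroupOf.1 h4

/-- doubly transitive of degree `p^2+1`. -/
structure Hyp (G : Type u) (Ω : Type v) [Group G] [MulAction G Ω] (p : ℕ) : Prop where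
  card : Nat.card Ω = p ^ 2 + 1
  two : ∀ a b c d : Ω, a ≠ b → c ≠ d → ∃ g : G, g • a = c ∧ g • b = d

/-- an equivariant system of block systems with blocks of size `p`. -/
structure Sys (G : Type u) {Ω : Type v} [Group G] [MulAction G Ω] (p : ℕ)
    (R : Ω → Ω → Ω → Prop) : Prop where
  equiv : ∀ (g : G) (a x y : Ω), R a x y → R (g • a) (g • x) (g • y)
  refl : ∀ a x : Ω, x ≠ a → R a x x
  symm : ∀ a x y : Ω, R a x y → R a y x
  trans : ∀ a x y z : Ω, R a x y → R a y z → R a x z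
  ne : ∀ a x y : Ω, R a x y → x ≠ a
  card : ∀ a x : Ω, x ≠ a → {y | R a x y}.ncard = p

theorem arith {p e : ℕ} (hp : 2 ≤ p) (he : 0 < e)
    (h : (p + 1) * (p * e) ∣ (p ^ 2 + 1) * (p ^ 2 * e)) : False := by
  have h1 : (p ^ 2 + 1) * (p ^ 2 * e) = ((p ^ 2 + 1) * p) * (p * e) := by ring
  rw [h1] at h
  have h2 : (p + 1) ∣ (p ^ 2 + 1) * p :=
    Nat.dvd_of_mul_dvd_mul_right (Nat.mul_pos (by omega) he) h
  have h3 : (p + 1) ∣ p ^ 2 + 1 := by
    refine Nat.Coprime.dvd_of_dvd_mul_right ?_ h2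
    simp
  have h4 : p ^ 2 + 1 = (p + 1) * (p - 1) + 2 := by
    obtain ⟨q, rfl⟩ : ∃ q, p = q + 1 := ⟨p - 1, by omega⟩
    simp only [Nat.add_sub_cancel]
    ring
  rw [h4] at h3
  have h5 : (p + 1) ∣ 2 := (Nat.dvd_add_right (dvd_mul_right _ _)).1 h3
  have := Nat.le_of_dvd (by norm_num) h5
  omega

section

variable [Finite Ω] {p : ℕ} [hp : Fact p.Prime] (h : Hyp G Ω p)

include h

theorem Hyp.card_compl (a : Ω) : ({a}ᶜ : Set Ω).ncard = p ^ 2 := by
  have h1 := Set.ncard_add_ncard_compl ({a} : Set Ω)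
  rw [Set.ncard_singleton, h.card] at h1
  omega

theorem Hyp.exists_ne (a : Ω) : ∃ b : Ω, b ≠ a := by
  have h1 : ({a}ᶜ : Set Ω).Nonempty := by
    rw [← Set.ncard_pos, h.card_compl]
    exact pow_pos hp.out.pos 2
  exact h1

theorem Hyp.exists_smul (a c : Ω) : ∃ g : G, g • a = c := by
  obtain ⟨b, hb⟩ := h.exists_ne a
  obtain ⟨d, hd⟩ := h.exists_ne c
  obtain ⟨g, hg, -⟩ := h.two a b c d hb.symm hd.symm
  exact ⟨g, hg⟩

theorem Hyp.card_group (a : Ω) : Nat.card G = (p ^ 2 + 1) * Nat.card (stabilizer G a) := by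
  have h1 := card_of_orbit (⊤ : Subgroup G) a Set.univ (fun _ _ => trivial)
    (fun y _ => by
      obtain ⟨g, hg⟩ := h.exists_smul a y
      exact ⟨g, mem_top _, hg⟩)
  rw [Set.ncard_univ, h.card, top_inf_eq, card_top] at h1
  exact h1

theorem Hyp.card_stab {a b : Ω} (hab : b ≠ a) :
    Nat.card (stabilizer G a) = p ^ 2 * Nat.card (stabilizer G a ⊓ stabilizer G b : Subgroup G) := by
  have h1 := card_of_orbit (stabilizer G a) b {a}ᶜ
    (fun g hg => by
      intro hc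
      rw [Set.mem_singleton_iff] at hc
      apply hab
      have h2 : g • b = g • a := by rw [hc]; exact (mem_stabilizer_iff.1 hg).symm
      exact smul_left_cancel g h2)
    (fun y hy => by
      obtain ⟨g, hg1, hg2⟩ := h.two a b a y hab.symm (Ne.symm hy)
      exact ⟨g, hg1, hg2⟩)
  rw [h.card_compl] at h1
  exact h1

theorem Hyp.fix {R : Ω → Ω → Ω → Prop} (hR : Sys G p R) {a x : Ω} (hx : x ≠ a) (g : G)
    (hg : ∀ y, (y = a ∨ R a x y) → (g • y = a ∨ R a x (g • y))) : g • a = a := by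
  by_contra hga
  -- the set stabilizer
  let GX : Subgroup G :=
    { carrier := {g | (∀ y, (y = a ∨ R a x y) ↔ (g • y = a ∨ R a x (g • y)))}
      one_mem' := fun y => by simp
      mul_mem' := fun {g₁ g₂} h₁ h₂ y => by
        rw [mul_smul, ← h₁, ← h₂]
      inv_mem' := fun {g₁} h₁ y => by
        have := h₁ (g₁⁻¹ • y)
        rw [smul_inv_smul] at this
        exact this.symm }
  have hmem : ∀ g : G, g ∈ GX ↔ ∀ y, (y = a ∨ R a x y) ↔ (g • y = a ∨ R a x (g • y)) :=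
    fun _ => Iff.rfl
  have hmem' : ∀ g : G, (∀ y, (y = a ∨ R a x y) → (g • y = a ∨ R a x (g • y))) → g ∈ GX := by
    intro g hg
    rw [hmem]
    let X : Set Ω := {y | y = a ∨ R a x y}
    have h1 : (g • ·) '' X ⊆ X := by
      rintro _ ⟨y, hy, rfl⟩
      exact hg y hy
    have h2 : (g • ·) '' X = X := by
      apply Set.eq_of_subset_of_ncard_le h1 _ X.toFinite
      rw [Set.ncard_image_of_injective _ (MulAction.injective g)]
    intro y
    refine ⟨hg y, fun hy => ?_⟩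
    have h3 : g • y ∈ X := hy
    rw [← h2] at h3
    obtain ⟨z, hz, hzy⟩ := h3
    have : z = y := MulAction.injective g hzy
    rw [← this]
    exact hz
  have hab : ∀ g : G, g • a = a → R a x (g • x) → g ∈ GX := by
    intro g h1 h2
    apply hmem'
    rintro y (rfl | hy)
    · exact Or.inl h1
    · right
      have h3 := hR.equiv g a x y hy
      rw [h1] at h3
      exact hR.trans _ _ _ _ h2 h3
  have hO : ∀ y, R a x y → ∃ g : G, g ∈ GX ⊓ stabilizer G a ∧ g • x = y := by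
    intro y hy
    have hya := hR.ne _ _ _ (hR.symm _ _ _ hy)
    obtain ⟨g, hg1, hg2⟩ := h.two a x a y hx.symm hya.symm
    exact ⟨g, ⟨hab g hg1 (hg2.symm ▸ hy), hg1⟩, hg2⟩
  have c1 := card_of_orbit (GX ⊓ stabilizer G a) x {y | R a x y}
    (fun g hg => by
      have h1 := ((hmem g).1 hg.1 x).1 (Or.inr (hR.refl _ _ hx))
      rcases h1 with h1 | h1
      · exfalso
        apply hx
        have h2 : g • x = g • a := by rw [h1]; exact (mem_stabilizer_iff.1 hg.2).symm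
        exact smul_left_cancel g h2
      · exact h1) (fun y hy => hO y hy)
  rw [hR.card a x hx] at c1
  have e1 : (GX ⊓ stabilizer G a ⊓ stabilizer G x : Subgroup G) = stabilizer G a ⊓ stabilizer G x := by
    apply le_antisymm
    · exact le_inf (inf_le_left.trans inf_le_right) inf_le_right
    · rintro k ⟨hk1, hk2⟩
      refine ⟨⟨hab k hk1 ?_, hk1⟩, hk2⟩
      rw [mem_stabilizer_iff.1 hk2]
      exact hR.refl _ _ hx
  rw [e1] at c1
  have hgX : g ∈ GX := hmem' g hg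
  have hgx : R a x (g • a) := (hg a (Or.inl rfl)).resolve_left hga
  have c2 := card_of_orbit GX a {y | y = a ∨ R a x y}
    (fun k hk => ((hmem k).1 hk a).1 (Or.inl rfl))
    (fun y hy => by
      rcases hy with rfl | hy
      · exact ⟨1, one_mem _, one_smul _ _⟩
      · obtain ⟨k₁, hk₁, hk₁'⟩ := hO _ hgx
        obtain ⟨k₂, hk₂, hk₂'⟩ := hO _ hy
        refine ⟨k₂ * k₁⁻¹ * g, mul_mem (mul_mem hk₂.1 (inv_mem hk₁.1)) hgX, ?_⟩
        rw [mul_smul, ← hk₁', mul_smul, inv_smul_smul, hk₂'])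
  have c3 : {y | y = a ∨ R a x y}.ncard = p + 1 := by
    have : {y | y = a ∨ R a x y} = insert a {y | R a x y} := rfl
    rw [this, Set.ncard_insert_of_notMem _ (Set.toFinite _), hR.card a x hx]
    intro hc
    exact hR.ne _ _ _ (hR.symm _ _ _ hc) rfl
  rw [c3, c1] at c2
  have c4 := h.card_group a
  rw [h.card_stab hx] at c4
  have c5 : Nat.card GX ∣ Nat.card G := Subgroup.card_subgroup_dvd_card GX
  rw [c2, c4] at c5
  exact arith hp.out.two_le Nat.card_pos c5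

end

end Cfsg.Agent.H15PSq
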