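import Cfsg.Agent.H15PSq.CaseB4

/-!
# A normal subgroup of order `p` of `G_a`: the two point stabilizer is abelian (helper15)
-/

set_option autoImplicit false
set_option linter.style.haveILetI false
set_option linter.unusedSectionVars false

namespace Cfsg.Agent.H15PSq

open MulAction Subgroup

universe u v

variable {G : Type u} {Ω : Type v} [Group G] [Finite G] [MulAction G Ω]
variable [Finite Ω] {p : ℕ} [hp : Fact p.Prime]

theorem fam_of (h : Hyp G Ω p) {a : Ω} {U₀ : Subgroup G}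
    (hU : ∀ g : G, g • a = a → ∀ u ∈ U₀, g * u * g⁻¹ ∈ U₀) (hfix : ∀ u ∈ U₀, u • a = a)
    (helt : ∃ x ∈ U₀, ∃ k : ℕ, x ^ p ^ k = 1 ∧ x ≠ 1) :
    ∃ U : Ω → Subgroup G, Fam G p U ∧ U a = U₀ := by
  obtain ⟨U, hUa, hUe⟩ := exists_family h a U₀ hU
  refine ⟨U, ⟨hUe, ?_, ?_⟩, hUa⟩
  · intro γ u hu
    obtain ⟨s, rfl⟩ := h.exists_smul a γ
    have h1 := hUe s⁻¹ _ u hu
    rw [inv_smul_smul, hUa, inv_inv] at h1
    have h2 := hfix _ h1
    rw [mul_smul, mul_smul, inv_smul_eq_iff] at h2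
    exact h2
  · intro γ
    obtain ⟨s, rfl⟩ := h.exists_smul a γ
    obtain ⟨x, hx, k, hk, hx1⟩ := helt
    refine ⟨s * x * s⁻¹, hUe s a x (hUa ▸ hx), k, by rw [conj_pow, hk, mul_one, mul_inv_cancel],
      fun hc => hx1 ?_⟩
    have := congrArg (fun t => s⁻¹ * t * s) hc
    simpa [mul_assoc] using this

theorem cent2 [FaithfulSMul G Ω] (h : Hyp G Ω p) {R : Ω → Ω → Ω → Prop} (hR : Sys G p R) {a b : Ω}
    (hab : b ≠ a) {U₀ : Subgroup G}
    (hU : ∀ g : G, g • a = a → ∀ u ∈ U₀, g * u * g⁻¹ ∈ U₀) (hfix : ∀ u ∈ U₀, u • a = a)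
    (helt : ∃ x ∈ U₀, ∃ k : ℕ, x ^ p ^ k = 1 ∧ x ≠ 1) {s : G} (hs : s • a = b) (c : G)
    (hca : ∀ u ∈ U₀, u * c = c * u)
    (hcb : ∀ u ∈ U₀, (s * u * s⁻¹) * c = c * (s * u * s⁻¹)) : c = 1 := by
  obtain ⟨U, hF, hUa⟩ := fam_of h hU hfix helt
  apply line h hR hF hab c
  · rw [hUa]
    exact hca
  · intro u hu
    have h1 := hF.equiv s⁻¹ _ u hu
    rw [← hs, inv_smul_smul, hUa, inv_inv] at h1
    have h2 := hcb _ h1
    have e : s * (s⁻¹ * u * s) * s⁻¹ = u := by group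
    rwa [e] at h2

/-- the hypotheses of Case A: `x` generates a normal subgroup of order `p` of `G_a`, contained in
the regular group `P`. -/
structure CA (G : Type u) {Ω : Type v} [Group G] [MulAction G Ω] (p : ℕ) (R : Ω → Ω → Ω → Prop)
    (a b : Ω) (P : Subgroup G) (x s : G) : Prop where
  h : Hyp G Ω p
  hR : Sys G p R
  hab : b ≠ a
  hP : RegAt p a P
  hx : x ∈ P
  hxp : x ^ p = 1
  hx1 : x ≠ 1
  norm : ∀ g : G, g • a = a → g * x * g⁻¹ ∈ zpowers x
  hsa : s • a = b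
  hsb : s • b = a

namespace CA

variable {R : Ω → Ω → Ω → Prop} {a b : Ω} {P : Subgroup G} {x s : G}

section

variable (D : CA G p R a b P x s)

include D

theorem ordx : orderOf x = p := orderOf_eq_prime D.hxp D.hx1

theorem norm' {g : G} (hg : g • a = a) {u : G} (hu : u ∈ zpowers x) : g * u * g⁻¹ ∈ zpowers x := by
  obtain ⟨k, rfl⟩ := hu
  have : g * x ^ k * g⁻¹ = (g * x * g⁻¹) ^ k := by rw [conj_zpow]
  change g * x ^ k * g⁻¹ ∈ zpowers x
  rw [this]
  exact zpow_mem (D.norm g hg) k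

theorem fixz {u : G} (hu : u ∈ zpowers x) : u • a = a :=
  D.hP.le u ((zpowers_le.2 D.hx) hu)

theorem commz {u c : G} (hu : u ∈ zpowers x) (hc : x * c = c * x) : u * c = c * u := by
  obtain ⟨k, rfl⟩ := hu
  exact (Commute.zpow_left (show Commute x c from hc) k)

theorem conjz {u : G} (hu : u ∈ zpowers x) : s * u * s⁻¹ ∈ zpowers (s * x * s⁻¹) := by
  obtain ⟨k, rfl⟩ := hu
  refine ⟨k, ?_⟩
  change (s * x * s⁻¹) ^ k = s * x ^ k * s⁻¹
  rw [conj_zpow]

theorem cent [FaithfulSMul G Ω] {c : G} (hc1 : x * c = c * x)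
    (hc2 : (s * x * s⁻¹) * c = c * (s * x * s⁻¹)) : c = 1 := by
  apply cent2 D.h D.hR D.hab (U₀ := zpowers x) (fun g hg u hu => D.norm' hg hu)
    (fun u hu => D.fixz hu) ⟨x, mem_zpowers x, 1, by rw [pow_one]; exact D.hxp, D.hx1⟩ D.hsa c
  · exact fun u hu => D.commz hu hc1
  · intro u hu
    obtain ⟨k, hk⟩ := D.conjz hu
    have hk' : (s * x * s⁻¹) ^ k = s * u * s⁻¹ := hk
    rw [← hk']
    exact Commute.zpow_left (show Commute (s * x * s⁻¹) c from hc2) k

theorem fix_of_comm [FaithfulSMul G Ω] {c : G} (hc : x * c = c * x) : c • a = a := by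
  by_contra hca
  have h1 : x • c • a = c • a := by rw [smul_smul, hc, mul_smul, D.hP.le x D.hx]
  exact D.hx1 (D.hP.free x D.hx _ hca h1)

/-- commutators of elements of `G_a` centralize `x`. -/
theorem comm_x {w v : G} (hw : w • a = a) (hv : v • a = a) :
    x * (w * v * w⁻¹ * v⁻¹) = (w * v * w⁻¹ * v⁻¹) * x := by
  have key : ∀ w : G, w • a = a → ∃ k : ℤ, w * x * w⁻¹ = x ^ k := by
    intro w hw
    obtain ⟨k, hk⟩ := D.norm w hw
    exact ⟨k, hk.symm⟩
  obtain ⟨i, hi⟩ := key w hw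
  obtain ⟨j, hj⟩ := key v hv
  have e1 : (w * v) * x * (w * v)⁻¹ = (v * w) * x * (v * w)⁻¹ := by
    have h1 : (w * v) * x * (w * v)⁻¹ = x ^ (i * j) := by
      calc (w * v) * x * (w * v)⁻¹ = w * (v * x * v⁻¹) * w⁻¹ := by group
        _ = w * x ^ j * w⁻¹ := by rw [hj]
        _ = (w * x * w⁻¹) ^ j := by rw [conj_zpow]
        _ = x ^ (i * j) := by rw [hi, zpow_mul]
    have h2 : (v * w) * x * (v * w)⁻¹ = x ^ (i * j) := by
      calc (v * w) * x * (v * w)⁻¹ = v * (w * x * w⁻¹) * v⁻¹ := by group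
        _ = v * x ^ i * v⁻¹ := by rw [hi]
        _ = (v * x * v⁻¹) ^ i := by rw [conj_zpow]
        _ = x ^ (i * j) := by rw [hj, mul_comm i j, zpow_mul]
    rw [h1, h2]
  have e2 : (w * v * w⁻¹ * v⁻¹) = (w * v) * (v * w)⁻¹ := by group
  rw [e2]
  have e3 : x = (v * w) * ((v * w)⁻¹ * x * (v * w)) * (v * w)⁻¹ := by group
  -- conjugation by `(w v) (v w)⁻¹` fixes `x`
  have e4 : (w * v) * (v * w)⁻¹ * x * ((w * v) * (v * w)⁻¹)⁻¹ = x := by
    -- write `x = (vw) y (vw)⁻¹` with `y ∈ ⟨x⟩`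
    have hvw : (v * w)⁻¹ • a = a := by
      rw [inv_smul_eq_iff, mul_smul, hw, hv]
    obtain ⟨k, hk⟩ := D.norm (v * w)⁻¹ hvw
    rw [inv_inv] at hk
    have hk' : x ^ k = (v * w)⁻¹ * x * (v * w) := hk
    have h5 : x = (v * w) * x ^ k * (v * w)⁻¹ := by rw [hk']; group
    calc (w * v) * (v * w)⁻¹ * x * ((w * v) * (v * w)⁻¹)⁻¹
        = (w * v) * ((v * w)⁻¹ * x * (v * w)) * (w * v)⁻¹ := by group
      _ = (w * v) * x ^ k * (w * v)⁻¹ := by rw [← hk']
      _ = ((w * v) * x * (w * v)⁻¹) ^ k := by rw [conj_zpow]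
      _ = ((v * w) * x * (v * w)⁻¹) ^ k := by rw [e1]
      _ = (v * w) * x ^ k * (v * w)⁻¹ := by rw [conj_zpow]
      _ = x := h5.symm
  rw [mul_inv_eq_iff_eq_mul] at e4
  exact e4.symm

/-- the conjugate data at `b`. -/
theorem swap (hs2 : True) : CA G p R b a (P.map (MulAut.conj s).toMonoidHom) (s * x * s⁻¹) s⁻¹ where
  h := D.h
  hR := D.hR
  hab := D.hab.symm
  hP :=
    { le := by
        rintro _ ⟨g, hg, rfl⟩
        change (s * g * s⁻¹) • b = b
        rw [← D.hsa, smul_smul, inv_mul_cancel_right, mul_smul, D.hP.le g hg]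
      card := by
        rw [← D.hP.card]
        exact (Nat.card_congr (P.equivMapOfInjective _ (MulEquiv.injective _)).toEquiv).symm
      comm := by
        rintro _ ⟨g, hg, rfl⟩ _ ⟨k, hk, rfl⟩
        rw [← map_mul, ← map_mul, D.hP.comm g hg k hk]
      trans := by
        intro y z hy hz
        have hy' : s⁻¹ • y ≠ a := by
          intro hc
          apply hy
          rw [← D.hsa, ← hc, smul_inv_smul]
        have hz' : s⁻¹ • z ≠ a := by
          intro hc
          apply hz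
          rw [← D.hsa, ← hc, smul_inv_smul]
        obtain ⟨g, hg, hgz⟩ := D.hP.trans _ _ hy' hz'
        refine ⟨s * g * s⁻¹, ⟨g, hg, rfl⟩, ?_⟩
        rw [mul_smul, mul_smul, hgz, smul_inv_smul]
      free := by
        rintro _ ⟨g, hg, rfl⟩ y hy hgy
        have hy' : s⁻¹ • y ≠ a := by
          intro hc
          apply hy
          rw [← D.hsa, ← hc, smul_inv_smul]
        change (s * g * s⁻¹) • y = y at hgy
        change s * g * s⁻¹ = 1
        have : g • s⁻¹ • y = s⁻¹ • y := by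
          rw [mul_smul, mul_smul, ← eq_inv_smul_iff] at hgy
          exact hgy
        rw [D.hP.free g hg _ hy' this, mul_one, mul_inv_cancel] }
  hx := ⟨x, D.hx, rfl⟩
  hxp := by rw [conj_pow, D.hxp, mul_one, mul_inv_cancel]
  hx1 := by
    intro hc
    apply D.hx1
    have := congrArg (fun t => s⁻¹ * t * s) hc
    simpa [mul_assoc] using this
  norm := by
    intro g hg
    have h1 : (s⁻¹ * g * s) • a = a := by
      rw [mul_smul, mul_smul, D.hsa, hg, inv_smul_eq_iff, D.hsa]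
    obtain ⟨k, hk⟩ := D.norm _ h1
    refine ⟨k, ?_⟩
    have hk' : x ^ k = s⁻¹ * g * s * x * (s⁻¹ * g * s)⁻¹ := hk
    change (s * x * s⁻¹) ^ k = g * (s * x * s⁻¹) * g⁻¹
    rw [conj_zpow, hk']
    group
  hsa := by rw [inv_smul_eq_iff, D.hsa]
  hsb := by rw [inv_smul_eq_iff, D.hsb]

/-- the two point stabilizer is abelian. -/
theorem abel [FaithfulSMul G Ω] {w v : G} (hw : w • a = a) (hwb : w • b = b) (hv : v • a = a)
    (hvb : v • b = b) : w * v = v * w := by
  have h1 := D.comm_x hw hv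
  have h2 := (D.swap trivial).comm_x hwb hvb
  have h3 := D.cent h1 h2
  have e : w * v = (w * v * w⁻¹ * v⁻¹) * (v * w) := by group
  rw [e, h3, one_mul]

/-- the centralizer of `x` in `G_b` is small. -/
theorem card_cent [FaithfulSMul G Ω] :
    Nat.card (centralizer ({x} : Set G) ⊓ stabilizer G b : Subgroup G) ≤ p - 1 := by
  classical
  let C : Subgroup G := centralizer ({x} : Set G) ⊓ stabilizer G b
  have hCx : ∀ c ∈ C, x * c = c * x := fun c hc =>
    ((mem_centralizer_iff.1 hc.1) x rfl)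
  have hmem : ∀ c : C, c.1 * (s * x * s⁻¹) * c.1⁻¹ ∈ (zpowers (s * x * s⁻¹) : Set G) \ {1} := by
    intro c
    refine ⟨(D.swap trivial).norm c.1 c.2.2, ?_⟩
    intro hc
    rw [Set.mem_singleton_iff] at hc
    apply (D.swap trivial).hx1
    have := congrArg (fun t => c.1⁻¹ * t * c.1) hc
    simpa [mul_assoc] using this
  have hinj : Function.Injective (fun c : C => (⟨_, hmem c⟩ :
      ((zpowers (s * x * s⁻¹) : Set G) \ {1} : Set G))) := by
    intro c d hcd
    have h1 : c.1 * (s * x * s⁻¹) * c.1⁻¹ = d.1 * (s * x * s⁻¹) * d.1⁻¹ := congrArg Subtype.val hcd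
    have h2 : d.1⁻¹ * c.1 = 1 := by
      apply D.cent
      · have h3 := hCx _ (mul_mem (inv_mem d.2) c.2)
        exact h3
      · have h4 : (s * x * s⁻¹) = c.1⁻¹ * (c.1 * (s * x * s⁻¹) * c.1⁻¹) * c.1 := by group
        calc (s * x * s⁻¹) * (d.1⁻¹ * c.1) = d.1⁻¹ * (d.1 * (s * x * s⁻¹) * d.1⁻¹) * c.1 := by group
          _ = d.1⁻¹ * (c.1 * (s * x * s⁻¹) * c.1⁻¹) * c.1 := by rw [h1]
          _ = d.1⁻¹ * c.1 * (s * x * s⁻¹) := by group
    apply Subtype.ext
    rw [inv_mul_eq_one] at h2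
    exact h2.symm
  have h5 := Nat.card_le_card_of_injective _ hinj
  rw [Nat.card_coe_set_eq, Set.ncard_sdiff_singleton_of_mem (one_mem _)] at h5
  have h6 : (zpowers (s * x * s⁻¹) : Set G).ncard = p := by
    rw [← Nat.card_coe_set_eq]
    change Nat.card (zpowers (s * x * s⁻¹)) = p
    rw [Nat.card_zpowers, (D.swap trivial).ordx]
  rw [h6] at h5
  exact h5

/-- `P` is normal in `G_a`. -/
theorem P_norm [FaithfulSMul G Ω] {g y : G} (hg : g • a = a) (hy : y ∈ P) : g * y * g⁻¹ ∈ P := by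
  classical
  let C : Subgroup G := centralizer ({x} : Set G)
  have hCmem : ∀ c, c ∈ C ↔ x * c = c * x := fun c => by
    change c ∈ centralizer ({x} : Set G) ↔ _
    rw [mem_centralizer_iff]
    constructor
    · intro hc
      exact hc x rfl
    · rintro hc _ rfl
      exact hc
  have hPC : P ≤ C := fun y hy => (hCmem y).2 (D.hP.comm x D.hx y hy)
  have hCa : ∀ c ∈ C, c • a = a := fun c hc => D.fix_of_comm ((hCmem c).1 hc)
  have hsm := D.card_cent
  have c1 := card_of_orbit C b {a}ᶜ (fun c hc => smul_ne (hCa c hc) D.hab)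
    (fun y hy => by
      obtain ⟨g, hg, hgy⟩ := D.hP.trans b y D.hab hy
      exact ⟨g, hPC hg, hgy⟩)
  rw [D.h.card_compl] at c1
  have hlt : Nat.card (C ⊓ stabilizer G b : Subgroup G) < p := by
    have := hp.out.pos
    have h2 : Nat.card (C ⊓ stabilizer G b : Subgroup G) ≤ p - 1 := hsm
    omega
  have hnd : ¬ p ∣ Nat.card (C ⊓ stabilizer G b : Subgroup G) := fun hd =>
    absurd (Nat.le_of_dvd Nat.card_pos hd) (by omega)
  have hfac : (Nat.card C).factorization p = 2 := by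
    rw [c1, Nat.factorization_mul (pow_ne_zero _ hp.out.ne_zero) Nat.card_pos.ne',
      Finsupp.add_apply, Nat.factorization_eq_zero_of_not_dvd hnd,
      Nat.Prime.factorization_pow hp.out, Finsupp.single_eq_same]
  have hcard : Nat.card (P.subgroupOf C) = p ^ (Nat.card C).factorization p := by
    rw [Nat.card_congr (subgroupOfEquivOfLe hPC).toEquiv, D.hP.card, hfac]
  let Q : Sylow p C := Sylow.ofCard _ hcard
  have hQ : (Q : Subgroup C) = P.subgroupOf C := rfl
  have hidx : (Q : Subgroup C).index = Nat.card (C ⊓ stabilizer G b : Subgroup G) := by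
    have h1 := Subgroup.card_mul_index (Q : Subgroup C)
    rw [hQ, Nat.card_congr (subgroupOfEquivOfLe hPC).toEquiv, D.hP.card, c1] at h1
    exact Nat.eq_of_mul_eq_mul_left (pow_pos hp.out.pos 2) h1
  have h2 := Q.card_dvd_index
  rw [hidx] at h2
  have h3 := card_sylow_modEq_one p C
  have h4 : Nat.card (Sylow p C) = 1 := by
    have h5 := Nat.le_of_dvd Nat.card_pos h2
    have h6 : Nat.card (Sylow p C) % p = 1 % p := h3
    rw [Nat.mod_eq_of_lt (by omega), Nat.mod_eq_of_lt hp.out.one_lt] at h6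
    exact h6
  haveI : Subsingleton (Sylow p C) := (Nat.card_eq_one_iff_unique.1 h4).1
  -- `g P g⁻¹` is another one
  have hgC : ∀ c ∈ C, g * c * g⁻¹ ∈ C := by
    intro c hc
    rw [hCmem] at hc ⊢
    have hg' : g⁻¹ • a = a := by rw [inv_smul_eq_iff, hg]
    have h7 := D.norm g⁻¹ hg'
    rw [inv_inv] at h7
    have h8 := D.commz h7 hc
    calc x * (g * c * g⁻¹) = g * ((g⁻¹ * x * g) * c) * g⁻¹ := by group
      _ = g * (c * (g⁻¹ * x * g)) * g⁻¹ := by rw [h8]
      _ = (g * c * g⁻¹) * x := by group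
  have hle2 : P.map (MulAut.conj g).toMonoidHom ≤ C := by
    rintro _ ⟨c, hc, rfl⟩
    exact hgC c (hPC hc)
  have hcard2 : Nat.card ((P.map (MulAut.conj g).toMonoidHom).subgroupOf C) =
      p ^ (Nat.card C).factorization p := by
    rw [Nat.card_congr (subgroupOfEquivOfLe hle2).toEquiv, hfac, ← D.hP.card]
    exact (Nat.card_congr (P.equivMapOfInjective _ (MulEquiv.injective _)).toEquiv).symm
  have h9 : (Sylow.ofCard _ hcard2 : Sylow p C) = Q := Subsingleton.elim _ _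
  have h10 : (⟨g * y * g⁻¹, hgC y (hPC hy)⟩ : C) ∈ (Sylow.ofCard _ hcard2 : Sylow p C) := by
    change _ ∈ (P.map (MulAut.conj g).toMonoidHom).subgroupOf C
    rw [mem_subgroupOf]
    exact ⟨y, hy, rfl⟩
  rw [h9] at h10
  exact mem_subgroupOf.1 (show _ ∈ P.subgroupOf C from h10)

end

end CA

end Cfsg.Agent.H15PSq
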