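import Mathlib

/-!
# A lemma on convolution powers of subsets of `ZMod p` (helper15)
-/

set_option autoImplicit false
set_option linter.style.haveILetI false

namespace Cfsg.Agent.H15PSq

open Finset Polynomial

theorem coeff_const {p : ℕ} [hp : Fact p.Prime] {ζ : ℂ} (hζ : IsPrimitiveRoot ζ p) (f : ℕ → ℚ)
    (h : ∑ i ∈ range p, (f i : ℂ) * ζ ^ i = 0) : ∀ i < p, f i = f 0 := by
  let q : ℚ[X] := ∑ i ∈ range p, C (f i) * X ^ i
  have hq : aeval ζ q = 0 := by
    simp only [q, map_sum, map_mul, aeval_C, map_pow, aeval_X]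
    exact h
  have hdvd : cyclotomic p ℚ ∣ q := by
    rw [cyclotomic_eq_minpoly_rat hζ hp.out.pos]
    exact minpoly.dvd ℚ ζ hq
  have hcoeff : ∀ i, q.coeff i = if i < p then f i else 0 := by
    intro i
    simp only [q, finsetSum_coeff, coeff_C_mul, coeff_X_pow]
    simp only [mul_ite, mul_one, mul_zero]
    rw [Finset.sum_ite_eq]
    simp
  have hdeg : q.natDegree ≤ p - 1 := by
    rw [natDegree_le_iff_coeff_eq_zero]
    intro i hi
    rw [hcoeff, if_neg (by omega)]
  obtain ⟨r, hr⟩ := hdvd
  have hcd : (cyclotomic p ℚ).natDegree = p - 1 := by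
    rw [natDegree_cyclotomic, Nat.totient_prime hp.out]
  have hr0 : r.natDegree = 0 := by
    by_cases hq0 : q = 0
    · rw [hq0] at hr
      have : r = 0 := by
        rcases mul_eq_zero.1 hr.symm with h1 | h1
        · exact absurd h1 (cyclotomic_ne_zero p ℚ)
        · exact h1
      rw [this, natDegree_zero]
    · have hrne : r ≠ 0 := by
        rintro rfl
        rw [mul_zero] at hr
        exact hq0 hr
      have h1 := natDegree_mul (cyclotomic_ne_zero p ℚ) hrne
      rw [← hr, hcd] at h1
      omega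
  obtain ⟨c, hc⟩ := natDegree_eq_zero.1 hr0
  have key : ∀ i < p, f i = c := by
    intro i hi
    have h1 := hcoeff i
    rw [if_pos hi, hr, ← hc, mul_comm, coeff_C_mul, cyclotomic_prime, finsetSum_coeff] at h1
    simp only [coeff_X_pow] at h1
    rw [Finset.sum_ite_eq, if_pos (mem_range.2 hi), mul_one] at h1
    exact h1.symm
  intro i hi
  rw [key i hi, key 0 hp.out.pos]

variable {p : ℕ} [hp : Fact p.Prime]

theorem addChar_const (f : ZMod p → ℤ) (h : ∑ d, (f d : ℂ) * ZMod.stdAddChar d = 0) :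
    ∀ d, f d = f 0 := by
  have hprim : IsPrimitiveRoot (ZMod.stdAddChar (1 : ZMod p)) p := by
    rw [IsPrimitiveRoot.iff_def]
    constructor
    · rw [← AddChar.map_nsmul_eq_pow, nsmul_one, ZMod.natCast_self, AddChar.map_zero_eq_one]
    · intro l hl
      rw [← AddChar.map_nsmul_eq_pow, nsmul_one, ← AddChar.map_zero_eq_one (ZMod.stdAddChar (N := p))] at hl
      have := ZMod.injective_stdAddChar hl
      exact (ZMod.natCast_eq_zero_iff l p).1 this
  have h1 : ∑ i ∈ range p, (((f (i : ZMod p) : ℤ) : ℚ) : ℂ) * (ZMod.stdAddChar (1 : ZMod p)) ^ i = 0 := by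
    rw [← h]
    symm
    apply Finset.sum_bij' (fun (d : ZMod p) _ => d.val) (fun (i : ℕ) _ => (i : ZMod p))
    · intro d _
      exact mem_range.2 (ZMod.val_lt d)
    · intro i _
      exact mem_univ _
    · intro d _
      exact ZMod.natCast_zmod_val d
    · intro i hi
      exact ZMod.val_cast_of_lt (mem_range.1 hi)
    · intro d _
      rw [← AddChar.map_nsmul_eq_pow, nsmul_one, ZMod.natCast_zmod_val]
      norm_num
  have h2 := coeff_const hprim (fun i => ((f (i : ZMod p) : ℤ) : ℚ)) h1
  intro d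
  have h3 := h2 d.val (ZMod.val_lt d)
  rw [ZMod.natCast_zmod_val, Nat.cast_zero] at h3
  exact_mod_cast h3

theorem conv_lemma (S : Finset (ZMod p)) (h0 : (0 : ZMod p) ∈ S) (hne : S ≠ univ)
    (t : ZMod p) (ht0 : t ≠ 0) (ht : t ≠ 1) (hts : ∀ s ∈ S, t * s ∈ S) (c : ℕ → ZMod p → ℤ)
    (c0 : ∀ d, c 0 d = if d = 0 then 1 else 0)
    (cs : ∀ m d, c (m + 1) d = ∑ l, c m l * (if d - l ∈ S then 1 else 0))
    (hconst : ∀ d d', d ≠ 0 → d' ≠ 0 → c p d = c p d') : S = {0} := by
  classical
  let ψ : AddChar (ZMod p) ℂ := ZMod.stdAddChar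
  let θ : ZMod p → ℂ := fun j => ∑ s ∈ S, ψ (j * s)
  have hpow : ∀ (j : ZMod p) (m : ℕ), ∑ d, (c m d : ℂ) * ψ (j * d) = θ j ^ m := by
    intro j m
    induction m with
    | zero =>
      rw [pow_zero]
      simp only [c0]
      rw [Finset.sum_eq_single (0 : ZMod p)]
      · simp
      · intro b _ hb
        simp [hb]
      · intro hb
        exact absurd (mem_univ _) hb
    | succ m ih =>
      have : ∀ d, (c (m + 1) d : ℂ) * ψ (j * d) =
          ∑ l, (c m l : ℂ) * ψ (j * l) * ((if d - l ∈ S then 1 else 0) * ψ (j * (d - l))) := by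
        intro d
        rw [cs]
        push_cast
        rw [Finset.sum_mul]
        apply Finset.sum_congr rfl
        intro l _
        have e : ψ (j * d) = ψ (j * l) * ψ (j * (d - l)) := by
          rw [← AddChar.map_add_eq_mul]
          congr 1
          ring
        rw [e]
        ring
      simp only [this]
      rw [Finset.sum_comm]
      rw [pow_succ, ← ih, Finset.sum_mul]
      apply Finset.sum_congr rfl
      intro l _
      rw [← Finset.mul_sum]
      congr 1
      rw [← Equiv.sum_comp (Equiv.addRight l)]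
      simp only [Equiv.coe_addRight, add_sub_cancel_right]
      simp only [ite_mul, one_mul, zero_mul]
      rw [← Finset.sum_filter]
      apply Finset.sum_congr
      · ext s
        simp
      · intro s _
        rfl
  have hsum0 : ∀ j : ZMod p, j ≠ 0 → ∑ d, ψ (j * d) = 0 := by
    intro j hj
    have := AddChar.sum_mulShift j (ZMod.isPrimitive_stdAddChar p)
    rw [if_neg hj, Nat.cast_zero] at this
    rw [← this]
    apply Finset.sum_congr rfl
    intro d _
    rw [mul_comm]
  have hA : ∀ j : ZMod p, j ≠ 0 → θ j ^ p = (c p 0 : ℂ) - (c p 1 : ℂ) := by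
    intro j hj
    rw [← hpow]
    have h1 : ∀ d, (c p d : ℂ) * ψ (j * d) =
        (if d = 0 then ((c p 0 : ℂ) - (c p 1 : ℂ)) else 0) + (c p 1 : ℂ) * ψ (j * d) := by
      intro d
      by_cases hd : d = 0
      · subst hd
        rw [if_pos rfl, mul_zero, AddChar.map_zero_eq_one]
        ring
      · rw [if_neg hd, hconst d 1 hd one_ne_zero, zero_add]
    simp only [h1]
    rw [Finset.sum_add_distrib, ← Finset.mul_sum, hsum0 j hj, mul_zero, add_zero,
      Finset.sum_ite_eq' univ (0 : ZMod p), if_pos (mem_univ _)]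
  -- `θ j` as a sum over all residues
  have hθ : ∀ j : ZMod p, j ≠ 0 → θ j = ∑ d, (if j⁻¹ * d ∈ S then 1 else 0) * ψ d := by
    intro j hj
    rw [← Equiv.sum_comp (Equiv.mulLeft₀ j hj)]
    simp only [Equiv.mulLeft₀_apply]
    have : ∀ s : ZMod p, j⁻¹ * (j * s) = s := fun s => inv_mul_cancel_left₀ hj s
    simp only [this, ite_mul, one_mul, zero_mul]
    rw [← Finset.sum_filter]
    apply Finset.sum_congr
    · ext s
      simp
    · intro s _
      rfl
  have hθ1 : θ 1 ≠ 0 := by
    intro hz
    rw [hθ 1 one_ne_zero] at hz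
    have h1 := addChar_const (p := p) (fun d => if d ∈ S then 1 else 0) (by
      rw [← hz]
      apply Finset.sum_congr rfl
      intro d _
      rw [inv_one, one_mul]
      push_cast
      rfl)
    apply hne
    ext d
    have h2 := h1 d
    simp only [h0, if_true] at h2
    constructor
    · intro _; exact mem_univ _
    · intro _
      by_contra hd
      rw [if_neg hd] at h2
      exact zero_ne_one h2
  have hprim : IsPrimitiveRoot (ψ (1 : ZMod p)) p := by
    rw [IsPrimitiveRoot.iff_def]
    constructor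
    · rw [← AddChar.map_nsmul_eq_pow, nsmul_one, ZMod.natCast_self, AddChar.map_zero_eq_one]
    · intro l hl
      rw [← AddChar.map_nsmul_eq_pow, nsmul_one, ← AddChar.map_zero_eq_one (ZMod.stdAddChar (N := p))] at hl
      have := ZMod.injective_stdAddChar hl
      exact (ZMod.natCast_eq_zero_iff l p).1 this
  have hroot : ∀ j : ZMod p, j ≠ 0 → ∃ m : ZMod p, θ j = ψ m * θ 1 := by
    intro j hj
    have h1 : (θ j / θ 1) ^ p = 1 := by
      have h2 := hA 1 one_ne_zero
      rw [div_pow, hA j hj, ← h2, div_self (pow_ne_zero _ hθ1)]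
    obtain ⟨i, -, hi⟩ := hprim.eq_pow_of_pow_eq_one h1
    refine ⟨(i : ZMod p), ?_⟩
    have h3 : ψ (i : ZMod p) = ψ (1 : ZMod p) ^ i := by
      rw [← AddChar.map_nsmul_eq_pow, nsmul_one]
    rw [h3, hi, div_mul_cancel₀ _ hθ1]
  have hset : ∀ j : ZMod p, j ≠ 0 → ∃ m : ZMod p, ∀ d, j⁻¹ * d ∈ S ↔ d - m ∈ S := by
    intro j hj
    obtain ⟨m, hm⟩ := hroot j hj
    refine ⟨m, ?_⟩
    have h1 : ψ m * θ 1 = ∑ d, (if d - m ∈ S then 1 else 0) * ψ d := by
      rw [hθ 1 one_ne_zero, Finset.mul_sum, ← Equiv.sum_comp (Equiv.addRight m)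
        (fun d => (if d - m ∈ S then (1 : ℂ) else 0) * ψ d)]
      apply Finset.sum_congr rfl
      intro d _
      rw [inv_one, one_mul, Equiv.coe_addRight, add_sub_cancel_right, AddChar.map_add_eq_mul]
      ring
    have h2 := addChar_const (p := p)
      (fun d => (if j⁻¹ * d ∈ S then 1 else 0) - (if d - m ∈ S then 1 else 0)) (by
        have h3 : ∑ d, (if j⁻¹ * d ∈ S then 1 else 0) * ψ d -
            ∑ d, (if d - m ∈ S then 1 else 0) * ψ d = 0 := by
          rw [← hθ j hj, ← h1, hm, sub_self]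
        rw [← Finset.sum_sub_distrib] at h3
        rw [← h3]
        apply Finset.sum_congr rfl
        intro d _
        push_cast
        ring)
    -- the constant is zero
    have h4 : ∑ d : ZMod p, ((if j⁻¹ * d ∈ S then (1 : ℤ) else 0) - (if d - m ∈ S then 1 else 0)) = 0 := by
      rw [Finset.sum_sub_distrib]
      have h5 : ∑ d : ZMod p, (if j⁻¹ * d ∈ S then (1 : ℤ) else 0) = ∑ d : ZMod p, if d ∈ S then 1 else 0 := by
        rw [← Equiv.sum_comp (Equiv.mulLeft₀ j⁻¹ (inv_ne_zero hj)) (fun d => if d ∈ S then (1 : ℤ) else 0)]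
        rfl
      have h6 : ∑ d : ZMod p, (if d - m ∈ S then (1 : ℤ) else 0) = ∑ d : ZMod p, if d ∈ S then 1 else 0 := by
        rw [← Equiv.sum_comp (Equiv.subRight m) (fun d => if d ∈ S then (1 : ℤ) else 0)]
        rfl
      rw [h5, h6, sub_self]
    rw [Finset.sum_congr rfl (fun d _ => h2 d), Finset.sum_const, card_univ, ZMod.card,
      nsmul_eq_mul] at h4
    have h7 := (mul_eq_zero.1 h4).resolve_left (by exact_mod_cast hp.out.ne_zero)
    intro d
    have h8 := h2 d
    rw [h7] at h8
    by_cases h9 : j⁻¹ * d ∈ S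
    · by_cases h10 : d - m ∈ S
      · simp [h9, h10]
      · rw [if_pos h9, if_neg h10] at h8
        norm_num at h8
    · by_cases h10 : d - m ∈ S
      · rw [if_neg h9, if_pos h10] at h8
        norm_num at h8
      · simp [h9, h10]
  have htS : ∀ s, s ∈ S ↔ t * s ∈ S := by
    have h1 : S.image (fun s => t * s) = S := by
      apply Finset.eq_of_subset_of_card_le
      · intro x hx
        obtain ⟨s, hs, rfl⟩ := Finset.mem_image.1 hx
        exact hts s hs
      · rw [Finset.card_image_of_injective _ (mul_right_injective₀ ht0)]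
    intro s
    refine ⟨hts s, fun hs => ?_⟩
    rw [← h1] at hs
    obtain ⟨s', hs', he⟩ := Finset.mem_image.1 hs
    rw [← mul_right_injective₀ ht0 he]
    exact hs'
  have htrans : ∀ δ : ZMod p, (∀ x, x ∈ S ↔ x + δ ∈ S) → δ = 0 := by
    intro δ hδ
    by_contra hδ0
    apply hne
    have h1 : ∀ n : ℕ, (n : ZMod p) * δ ∈ S := by
      intro n
      induction n with
      | zero => simpa using h0
      | succ n ih =>
        have := (hδ _).1 ih
        push_cast
        rw [add_mul, one_mul]
        exact this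
    ext d
    refine ⟨fun _ => mem_univ _, fun _ => ?_⟩
    have := h1 (d * δ⁻¹).val
    rw [ZMod.natCast_zmod_val, inv_mul_cancel_right₀ hδ0] at this
    exact this
  have hinv : ∀ j : ZMod p, j ≠ 0 → ∀ d, j⁻¹ * d ∈ S ↔ d ∈ S := by
    intro j hj
    obtain ⟨m, hm⟩ := hset j hj
    have h1 : ∀ d, d - m ∈ S ↔ d - t⁻¹ * m ∈ S := by
      intro d
      rw [← hm d, htS, show t * (j⁻¹ * d) = j⁻¹ * (t * d) by ring, hm, htS (d - t⁻¹ * m), mul_sub,
        mul_inv_cancel_left₀ ht0]
    have h2 := htrans (m - t⁻¹ * m) (by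
      intro x
      have := h1 (x + m)
      rw [add_sub_cancel_right] at this
      rw [this, add_sub_assoc])
    have h3 : m = 0 := by
      have h4 : (1 - t⁻¹) * m = 0 := by rw [← h2]; ring
      rcases mul_eq_zero.1 h4 with h5 | h5
      · exfalso
        apply ht
        have h6 : t⁻¹ = 1 := (sub_eq_zero.1 h5).symm
        rw [← inv_inv t, h6, inv_one]
      · exact h5
    intro d
    rw [hm d, h3, sub_zero]
  ext s
  rw [Finset.mem_singleton]
  constructor
  · intro hs
    by_contra hs0
    apply hne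
    ext d
    refine ⟨fun _ => mem_univ _, fun _ => ?_⟩
    by_cases hd : d = 0
    · rw [hd]; exact h0
    · have := (hinv (d * s⁻¹) (mul_ne_zero hd (inv_ne_zero hs0)) d).1 (by
        rw [mul_inv, inv_inv, mul_comm d⁻¹ s, mul_assoc, inv_mul_cancel₀ hd, mul_one]
        exact hs)
      exact this
  · rintro rfl
    exact h0

end Cfsg.Agent.H15PSq
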