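import Cfsg.Agent.H15PSq.Line
import Cfsg.Agent.H15PSq.Comb

/-!
# The case of a nonsolvable kernel: an element of `P` commuting with the kernel (helper15)
-/

set_option autoImplicit false
set_option linter.style.haveILetI false
set_option linter.unusedSectionVars false

namespace Cfsg.Agent.H15PSq

open MulAction Subgroup

universe u v

variable {G : Type u} {Ω : Type v} [Group G] [Finite G] [MulAction G Ω]
variable [Finite Ω] {p : ℕ} [hp : Fact p.Prime]

/-- the coordinates. -/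
structure Dat {R : Ω → Ω → Ω → Prop} (hR : Sys G p R) (a b : Ω) (P : Subgroup G)
    (x u f : G) (T : ℕ) : Prop where
  hab : b ≠ a
  hP : RegAt p a P
  hx : x ∈ P
  hxK : x ∈ Ker hR a
  hx1 : x ≠ 1
  hu : u ∈ P
  huK : u ∉ Ker hR a
  hup : u ^ p = 1
  hf : f ∈ Ker hR a
  hfb : f • b = b
  hfu : f * u = u * f
  hT : f * x * f⁻¹ = x ^ T
  hT1 : (T : ZMod p) ≠ 1
  htwo : ∀ c, c ≠ a → ∀ y y' z z', R a c y → R a c y' → R a c z → R a c z' → y ≠ y' → z ≠ z' →
    ∃ k ∈ Ker hR a, k • y = z ∧ k • y' = z'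

/-- powers of `x` indexed by residues. -/
def X (p : ℕ) (x : G) (i : ZMod p) : G := x ^ i.val

section X

variable {x : G} (hx : x ^ p = 1)

include hx

theorem X_natCast (n : ℕ) : X p x (n : ZMod p) = x ^ n := by
  unfold X
  rw [ZMod.val_natCast]
  conv_rhs => rw [← Nat.mod_add_div n p, pow_add, pow_mul, hx, one_pow, mul_one]

theorem X_add (i j : ZMod p) : X p x (i + j) = X p x i * X p x j := by
  conv_lhs => rw [← ZMod.natCast_zmod_val i, ← ZMod.natCast_zmod_val j, ← Nat.cast_add,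
    X_natCast hx, pow_add]
  rfl

theorem X_zero : X p x (0 : ZMod p) = 1 := by
  have := X_natCast hx 0
  rw [Nat.cast_zero, pow_zero] at this
  exact this

theorem X_neg (i : ZMod p) : X p x (-i) = (X p x i)⁻¹ := by
  rw [eq_inv_iff_mul_eq_one, ← X_add hx, neg_add_cancel, X_zero hx]

theorem X_inj (hx1 : x ≠ 1) : Function.Injective (X p x) := by
  intro i j hij
  have h1 : orderOf x = p := orderOf_eq_prime hx hx1
  unfold X at hij
  have h2 := pow_injOn_Iio_orderOf (x := x) (by rw [h1]; exact ZMod.val_lt i)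
    (by rw [h1]; exact ZMod.val_lt j) hij
  exact ZMod.val_injective p h2

end X

namespace Dat

variable {R : Ω → Ω → Ω → Prop} {hR : Sys G p R} {a b : Ω} {P : Subgroup G} {x u f : G} {T : ℕ}

section

variable (D : Dat hR a b P x u f T)

include D

theorem ordx (h : Hyp G Ω p) : x ^ p = 1 := by
  have h1 := card_inf_Ker h hR D.hP
  have h2 : x ∈ (P ⊓ Ker hR a : Subgroup G) := ⟨D.hx, D.hxK⟩
  have h3 := Subgroup.orderOf_dvd_natCard _ h2
  rw [h1] at h3
  exact orderOf_dvd_iff_pow_eq_one.1 h3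

theorem fixa {g : G} (hg : g ∈ P) : g • a = a := D.hP.le g hg

theorem X_mem (i : ZMod p) : X p x i ∈ P ⊓ Ker hR a :=
  ⟨pow_mem D.hx _, pow_mem D.hxK _⟩

theorem exists_X (h : Hyp G Ω p) {g : G} (hg : g ∈ P ⊓ Ker hR a) : ∃ i, g = X p x i := by
  classical
  have hord : orderOf x = p := orderOf_eq_prime (D.ordx h) D.hx1
  have h1 : zpowers x = P ⊓ Ker hR a := by
    apply Subgroup.eq_of_le_of_card_ge
    · rw [zpowers_le]
      exact ⟨D.hx, D.hxK⟩
    · rw [card_inf_Ker h hR D.hP, Nat.card_zpowers, hord]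
  rw [← h1, mem_zpowers_iff] at hg
  obtain ⟨k, hk⟩ := hg
  obtain ⟨n, hn⟩ : ∃ n : ℕ, x ^ n = x ^ k := by
    refine ⟨(k % (orderOf x : ℤ)).toNat, ?_⟩
    rw [← zpow_natCast, Int.toNat_of_nonneg (Int.emod_nonneg _ (by
      rw [hord]
      exact_mod_cast hp.out.ne_zero)), zpow_mod_orderOf]
  refine ⟨(n : ZMod p), ?_⟩
  rw [X_natCast (D.ordx h), hn, hk]

theorem upow_mem (m : ℕ) : u ^ m ∈ P := pow_mem D.hu m

theorem upow_ne (m : ℕ) : u ^ m • b ≠ a := smul_ne (D.fixa (D.upow_mem m)) D.hab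

/-- elements of the block of `u^m b`. -/
theorem block_pt (h : Hyp G Ω p) {m : ℕ} {y : Ω} (hy : R a (u ^ m • b) y) :
    ∃ i, y = X p x i • u ^ m • b := by
  obtain ⟨g, hg, hgK, rfl⟩ := Ker_trans hR D.hP hy
  obtain ⟨i, rfl⟩ := D.exists_X h ⟨hg, hgK⟩
  exact ⟨i, rfl⟩

theorem R_X (m : ℕ) (i : ZMod p) : R a (u ^ m • b) (X p x i • u ^ m • b) :=
  (D.X_mem i).2.2 _ (D.upow_ne m)

theorem X_free {m : ℕ} {i j : ZMod p} (h : Hyp G Ω p)
    (hij : X p x i • u ^ m • b = X p x j • u ^ m • b) : i = j := by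
  apply X_inj (D.ordx h) D.hx1
  have h1 : ((X p x j)⁻¹ * X p x i) • u ^ m • b = u ^ m • b := by
    rw [mul_smul, hij, inv_smul_smul]
  have h2 := D.hP.free _ (mul_mem (inv_mem (D.X_mem j).1) (D.X_mem i).1) _ (D.upow_ne m) h1
  exact (inv_mul_eq_one.1 h2).symm

theorem comm_Xu (i : ZMod p) (m : ℕ) : X p x i * u ^ m = u ^ m * X p x i :=
  D.hP.comm _ (D.X_mem i).1 _ (D.upow_mem m)

theorem conj_u {k : G} (hk : k ∈ Ker hR a) (m : ℕ) : u ^ m * k * (u ^ m)⁻¹ ∈ Ker hR a := by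
  have := Ker_conj hR hk (u ^ m)
  rw [D.fixa (D.upow_mem m)] at this
  exact this

theorem conj_u' {k : G} (hk : k ∈ Ker hR a) (m : ℕ) : (u ^ m)⁻¹ * k * u ^ m ∈ Ker hR a := by
  have := Ker_conj hR hk (u ^ m)⁻¹
  rw [D.fixa (inv_mem (D.upow_mem m)), inv_inv] at this
  exact this

/-- the relation `S`. -/
theorem rel_iff (h : Hyp G Ω p) (m : ℕ) (l j : ZMod p) :
    (∃ k ∈ Ker hR a, k • b = b ∧ k • u • b = X p x (j - l) • u • b) ↔
      ∃ k ∈ Ker hR a, k • u ^ m • b = X p x l • u ^ m • b ∧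
        k • u ^ (m + 1) • b = X p x j • u ^ (m + 1) • b := by
  have hxp := D.ordx h
  constructor
  · rintro ⟨k, hk, hkb, hku⟩
    refine ⟨X p x l * (u ^ m * k * (u ^ m)⁻¹), mul_mem (D.X_mem l).2 (D.conj_u hk m), ?_, ?_⟩
    · rw [mul_smul, smul_smul _ (u ^ m) b, inv_mul_cancel_right, mul_smul (u ^ m) k, hkb]
    · have e1 : (X p x l * (u ^ m * k * (u ^ m)⁻¹)) • u ^ (m + 1) • b =
          X p x l • u ^ m • k • u • b := by
        rw [smul_smul, smul_smul, smul_smul, smul_smul, pow_succ]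
        congr 1
        group
      have e2 : X p x l * (u ^ m * (X p x (j - l) * u)) = X p x j * u ^ (m + 1) := by
        calc X p x l * (u ^ m * (X p x (j - l) * u)) = X p x l * ((u ^ m * X p x (j - l)) * u) := by
              group
          _ = X p x l * ((X p x (j - l) * u ^ m) * u) := by rw [← D.comm_Xu]
          _ = (X p x l * X p x (j - l)) * (u ^ m * u) := by group
          _ = X p x j * u ^ (m + 1) := by
            rw [← X_add hxp, ← pow_succ, show l + (j - l) = j by ring]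
      rw [e1, hku, smul_smul, smul_smul, smul_smul, smul_smul, ← e2]
      congr 1
      group
  · rintro ⟨k, hk, hk1, hk2⟩
    refine ⟨(u ^ m)⁻¹ * (X p x (-l) * k) * u ^ m, D.conj_u' (mul_mem (D.X_mem _).2 hk) m, ?_, ?_⟩
    · rw [mul_smul, mul_smul, mul_smul, hk1, smul_smul (X p x (-l)), ← X_add hxp, neg_add_cancel,
        X_zero hxp, one_smul, inv_smul_smul]
    · rw [mul_smul, mul_smul, mul_smul, smul_smul (u ^ m) u b, ← pow_succ, hk2,
        smul_smul (X p x (-l)), ← X_add hxp, pow_succ, show -l + j = j - l by ring,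
        smul_smul, smul_smul, ← mul_assoc, mul_assoc _ (X p x (j - l)), D.comm_Xu,
        inv_mul_cancel_left, mul_smul]

end

end Dat

end Cfsg.Agent.H15PSq
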