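import Cfsg.Agent.H15PSq.CaseB

/-!
# The case of a nonsolvable kernel: `u` commutes with the kernel (helper15)
-/

set_option autoImplicit false
set_option linter.style.haveILetI false
set_option linter.unusedSectionVars false

namespace Cfsg.Agent.H15PSq

open MulAction Subgroup

universe u v

variable {G : Type u} {Ω : Type v} [Group G] [Finite G] [MulAction G Ω]
variable [Finite Ω] {p : ℕ} [hp : Fact p.Prime]

/-- convolution powers. -/
def cpow (p : ℕ) [NeZero p] (S : Finset (ZMod p)) [DecidablePred (· ∈ S)] : ℕ → ZMod p → ℤ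
  | 0 => fun d => if d = 0 then 1 else 0
  | m + 1 => fun d => ∑ l, cpow p S m l * (if d - l ∈ S then 1 else 0)

namespace Dat

variable {R : Ω → Ω → Ω → Prop} {hR : Sys G p R} {a b : Ω} {P : Subgroup G} {x u f : G} {T : ℕ}
variable (D : Dat hR a b P x u f T)

include D

theorem exists_move (h : Hyp G Ω p) {k : G} (hk : k ∈ Ker hR a) (m : ℕ) (l : ZMod p) :
    ∃ l', k • X p x l • u ^ m • b = X p x l' • u ^ m • b := by
  apply D.block_pt h
  have h1 := D.R_X m l
  have h2 := hk.2 _ (hR.ne _ _ _ (hR.symm _ _ _ h1))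
  exact hR.trans _ _ _ _ h1 h2

open Classical in
theorem invar (h : Hyp G Ω p) (S : Finset (ZMod p))
    (hS : ∀ j, j ∈ S ↔ ∃ k ∈ Ker hR a, k • b = b ∧ k • u • b = X p x j • u • b) (m : ℕ) :
    ∀ k ∈ Ker hR a, ∀ i i' j j' : ZMod p, k • X p x i • b = X p x i' • b →
      k • X p x j • u ^ m • b = X p x j' • u ^ m • b →
      cpow p S m (j - i) = cpow p S m (j' - i') := by
  induction m with
  | zero =>
    intro k hk i i' j j' hi hj
    simp only [pow_zero, one_smul] at hj
    have e : j - i = 0 ↔ j' - i' = 0 := by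
      rw [sub_eq_zero, sub_eq_zero]
      have f0 : ∀ s t : ZMod p, X p x s • b = X p x t • b → s = t := by
        intro s t hst
        exact D.X_free (m := 0) h (by simpa using hst)
      constructor
      · rintro rfl
        rw [hi] at hj
        exact (f0 _ _ hj).symm
      · rintro rfl
        apply f0
        have : k • X p x j • b = k • X p x i • b := by rw [hj, hi]
        exact smul_left_cancel k this
    simp only [cpow]
    by_cases h0 : j - i = 0
    · rw [if_pos h0, if_pos (e.1 h0)]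
    · rw [if_neg h0, if_neg (fun hc => h0 (e.2 hc))]
  | succ m ih =>
    intro k hk i i' j j' hi hj
    choose σ hσ using D.exists_move h hk m
    have hσi : Function.Injective σ := by
      intro l l' hl
      apply D.X_free (m := m) h
      have : k • X p x l • u ^ m • b = k • X p x l' • u ^ m • b := by rw [hσ, hσ, hl]
      exact smul_left_cancel k this
    have hσb : Function.Bijective σ := Finite.injective_iff_bijective.1 hσi
    have hrel : ∀ l, (j - l ∈ S ↔ j' - σ l ∈ S) := by
      intro l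
      rw [hS, hS, D.rel_iff h m, D.rel_iff h m]
      constructor
      · rintro ⟨k₁, hk₁, e1, e2⟩
        refine ⟨k * k₁, mul_mem hk hk₁, ?_, ?_⟩
        · rw [mul_smul, e1, hσ]
        · rw [mul_smul, e2, hj]
      · rintro ⟨k₁, hk₁, e1, e2⟩
        refine ⟨k⁻¹ * k₁, mul_mem (inv_mem hk) hk₁, ?_, ?_⟩
        · rw [mul_smul, e1, ← hσ, inv_smul_smul]
        · rw [mul_smul, e2, ← hj, inv_smul_smul]
    simp only [cpow]
    rw [← Equiv.sum_comp (Equiv.subRight i), ← Equiv.sum_comp (Equiv.subRight i')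
      (fun l => cpow p S m l * (if j' - i' - l ∈ S then 1 else 0))]
    rw [← Equiv.sum_comp (Equiv.ofBijective σ hσb) (fun l =>
      cpow p S m ((Equiv.subRight i') l) * (if j' - i' - (Equiv.subRight i') l ∈ S then 1 else 0))]
    apply Finset.sum_congr rfl
    intro l _
    simp only [Equiv.subRight_apply, Equiv.ofBijective_apply]
    rw [ih k hk i i' l (σ l) hi (hσ l)]
    have e1 : j - i - (l - i) = j - l := by ring
    have e2 : j' - i' - (σ l - i') = j' - σ l := by ring
    rw [e1, e2]
    by_cases hl : j - l ∈ S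
    · rw [if_pos hl, if_pos ((hrel l).1 hl)]
    · rw [if_neg hl, if_neg (fun hc => hl ((hrel l).2 hc))]

theorem T_ne (h : Hyp G Ω p) : (T : ZMod p) ≠ 0 := by
  intro h0
  apply D.hx1
  have h1 := D.hT
  rw [← X_natCast (D.ordx h), h0, X_zero (D.ordx h)] at h1
  have h2 : x = f⁻¹ * (f * x * f⁻¹) * f := by group
  rw [h2, h1]
  group

theorem f_X (h : Hyp G Ω p) (s : ZMod p) : f * X p x s = X p x ((T : ZMod p) * s) * f := by
  have h1 : f * X p x s * f⁻¹ = X p x ((T : ZMod p) * s) := by
    unfold X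
    rw [← conj_pow, D.hT]
    have : ((T : ZMod p) * s) = ((T * s.val : ℕ) : ZMod p) := by
      rw [Nat.cast_mul, ZMod.natCast_zmod_val]
    rw [← pow_mul, ← X_natCast (D.ordx h), this]
    rfl
  rw [← h1]
  group

open Classical in
/-- the stabilizer of `b` in the kernel fixes `u b`. -/
theorem fixes_ub [FaithfulSMul G Ω] (h : Hyp G Ω p) {k : G} (hk : k ∈ Ker hR a) (hkb : k • b = b) :
    k • u • b = u • b := by
  let S : Finset (ZMod p) := Finset.univ.filter
    (fun j => ∃ k ∈ Ker hR a, k • b = b ∧ k • u • b = X p x j • u • b)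
  have hS : ∀ j, j ∈ S ↔ ∃ k ∈ Ker hR a, k • b = b ∧ k • u • b = X p x j • u • b := by
    intro j
    simp [S]
  have hxp := D.ordx h
  have hS0 : S = {0} := by
    apply conv_lemma S ((hS 0).2 ⟨1, one_mem _, one_smul _ _, by
      rw [X_zero hxp]⟩) _ (T : ZMod p) (D.T_ne h) D.hT1 _ (cpow p S)
      (fun d => rfl) (fun m d => rfl)
    · intro d d' hd hd'
      have h2 : ∀ s : ZMod p, s ≠ 0 → b ≠ X p x s • b := by
        intro s hs hc
        apply hs
        apply D.X_free (m := 0) h
        rw [X_zero hxp]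
        simpa using hc.symm
      have hRb : ∀ s : ZMod p, R a b (X p x s • b) := by
        intro s
        have := D.R_X 0 s
        simpa using this
      obtain ⟨k, hk, e1, e2⟩ := D.htwo b D.hab b (X p x d • b) b (X p x d' • b)
        (hR.refl a b D.hab) (hRb d) (hR.refl a b D.hab) (hRb d') (h2 d hd) (h2 d' hd')
      have h3 := D.invar h S hS p k hk 0 0 d d' (by rw [X_zero hxp, one_smul, e1])
        (by rw [D.hup, one_smul, e2])
      rw [sub_zero, sub_zero] at h3
      exact h3
    · -- `S` is not everything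
      intro hSu
      have hall : ∀ j : ZMod p, ∃ k ∈ Ker hR a, k • b = b ∧ k • u • b = X p x j • u • b := by
        intro j
        rw [← hS, hSu]
        exact Finset.mem_univ _
      have hu1 : u • b ≠ a := by simpa using D.upow_ne 1
      have c1 := card_of_orbit (Ker hR a ⊓ stabilizer G b) (u • b) {y | R a (u • b) y}
        (fun g hg => hg.1.2 _ hu1) (fun y hy => by
          have hy' : R a (u ^ 1 • b) y := by rw [pow_one]; exact hy
          obtain ⟨j, hj⟩ := D.block_pt h hy'
          rw [pow_one] at hj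
          obtain ⟨k, hk, e1, e2⟩ := hall j
          exact ⟨k, ⟨hk, e1⟩, by rw [e2, hj]⟩)
      rw [hR.card a _ hu1] at c1
      apply not_dvd_card h hR D.hab
      refine dvd_trans ⟨_, c1⟩ (Subgroup.card_dvd_of_le ?_)
      exact inf_le_inf_right _ (fun g hg => hg.1)
    · intro s hs
      rw [hS] at hs ⊢
      obtain ⟨k, hk, e1, e2⟩ := hs
      refine ⟨f * k * f⁻¹, mul_mem (mul_mem D.hf hk) (inv_mem D.hf), ?_, ?_⟩
      · have : f⁻¹ • b = b := by rw [inv_smul_eq_iff, D.hfb]
        rw [mul_smul, mul_smul, this, e1, D.hfb]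
      · have h1 : f⁻¹ • u • b = u • b := by
          rw [inv_smul_eq_iff, smul_smul, D.hfu, mul_smul, D.hfb]
        rw [mul_smul, mul_smul, h1, e2, smul_smul, D.f_X h, mul_smul, smul_smul f u b, D.hfu,
          mul_smul u f b, D.hfb]
  obtain ⟨j, hj⟩ := D.exists_move h hk 1 0
  rw [pow_one, X_zero hxp, one_smul] at hj
  have : j ∈ S := (hS j).2 ⟨k, hk, hkb, hj⟩
  rw [hS0, Finset.mem_singleton] at this
  rw [hj, this, X_zero hxp, one_smul]

theorem stab_iff [FaithfulSMul G Ω] (h : Hyp G Ω p) {k : G} (hk : k ∈ Ker hR a) :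
    k • b = b ↔ k • u • b = u • b := by
  have e : Ker hR a ⊓ stabilizer G b = Ker hR a ⊓ stabilizer G (u • b) := by
    apply Subgroup.eq_of_le_of_card_ge
    · rintro g ⟨h1, h2⟩
      exact ⟨h1, D.fixes_ub h h1 h2⟩
    · have : (Ker hR a ⊓ stabilizer G (u • b) : Subgroup G) =
          (Ker hR a ⊓ stabilizer G b).map (MulAut.conj u).toMonoidHom := by
        ext g
        constructor
        · rintro ⟨h1, h2⟩
          refine ⟨u⁻¹ * g * u, ⟨?_, ?_⟩, ?_⟩
          · have := D.conj_u' h1 1
            rwa [pow_one] at this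
          · change u⁻¹ * g * u ∈ stabilizer G b
            rw [mem_stabilizer_iff, mul_smul, mul_smul, mem_stabilizer_iff.1 h2, inv_smul_smul]
          · change u * (u⁻¹ * g * u) * u⁻¹ = g
            group
        · rintro ⟨g, ⟨h1, h2⟩, rfl⟩
          refine ⟨?_, ?_⟩
          · have := D.conj_u h1 1
            rwa [pow_one] at this
          · change u * g * u⁻¹ ∈ stabilizer G (u • b)
            rw [mem_stabilizer_iff, smul_smul, inv_mul_cancel_right, mul_smul,
              mem_stabilizer_iff.1 h2]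
      rw [this]
      exact (Nat.card_congr ((Ker hR a ⊓ stabilizer G b).equivMapOfInjective _
        (MulEquiv.injective _)).toEquiv).symm.le
  constructor
  · exact D.fixes_ub h hk
  · intro hku
    have : k ∈ Ker hR a ⊓ stabilizer G (u • b) := ⟨hk, hku⟩
    rw [← e] at this
    exact this.2

theorem stab_iff_succ [FaithfulSMul G Ω] (h : Hyp G Ω p) {k : G} (hk : k ∈ Ker hR a) (m : ℕ) :
    k • u ^ m • b = u ^ m • b ↔ k • u ^ (m + 1) • b = u ^ (m + 1) • b := by
  have h1 := D.stab_iff h (D.conj_u' hk m)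
  rw [mul_smul, mul_smul, inv_smul_eq_iff, mul_smul, mul_smul, inv_smul_eq_iff] at h1
  rw [h1, smul_smul (u ^ m) u b, ← pow_succ]

theorem stab_iff_pow [FaithfulSMul G Ω] (h : Hyp G Ω p) {k : G} (hk : k ∈ Ker hR a) (m : ℕ) :
    k • b = b ↔ k • u ^ m • b = u ^ m • b := by
  induction m with
  | zero => simp
  | succ m ih => rw [ih, D.stab_iff_succ h hk m]

/-- every point is in coordinates. -/
theorem exists_coord (h : Hyp G Ω p) {z : Ω} (hz : z ≠ a) :
    ∃ (i : ZMod p) (m : ℕ), z = X p x i • u ^ m • b := by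
  obtain ⟨g, hg, rfl⟩ := D.hP.trans b z D.hab hz
  have hux : ∀ m : ℕ, u ^ m ∈ Ker hR a → p ∣ m := by
    intro m hm
    by_contra hpm
    apply D.huK
    have h1 : Nat.Coprime p m := (Nat.Prime.coprime_iff_not_dvd hp.out).2 hpm
    have h2 : orderOf u ∣ p := orderOf_dvd_of_pow_eq_one D.hup
    have h3 : (orderOf u).Coprime m := Nat.Coprime.coprime_dvd_left h2 h1
    obtain ⟨n, hn⟩ := exists_pow_eq_self_of_coprime h3.symm
    rw [← hn]
    exact pow_mem hm n
  have hinj : Function.Injective (fun q : ZMod p × ZMod p =>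
      (⟨X p x q.1 * u ^ q.2.val, mul_mem (D.X_mem q.1).1 (D.upow_mem _)⟩ : P)) := by
    rintro ⟨i, m⟩ ⟨j, n⟩ hij
    have h1 : X p x i * u ^ m.val = X p x j * u ^ n.val := congrArg Subtype.val hij
    have key : ∀ i j m n : ZMod p, X p x i * u ^ m.val = X p x j * u ^ n.val → n.val ≤ m.val →
        m = n := by
      intro i j m n h1 hle
      have h2 : u ^ (m.val - n.val) = (X p x i)⁻¹ * X p x j := by
        rw [pow_sub _ hle, eq_inv_mul_iff_mul_eq, ← mul_assoc, h1, mul_inv_cancel_right]
      have h3 := hux _ (h2 ▸ mul_mem (inv_mem (mem_inf.1 (D.X_mem i)).2) (mem_inf.1 (D.X_mem j)).2)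
      have h4 : m.val - n.val = 0 := Nat.eq_zero_of_dvd_of_lt h3
        (lt_of_le_of_lt (Nat.sub_le _ _) (ZMod.val_lt m))
      exact ZMod.val_injective p (by omega)
    have hmn : m = n := by
      rcases le_total n.val m.val with hle | hle
      · exact key _ _ _ _ h1 hle
      · exact (key _ _ _ _ h1.symm hle).symm
    subst hmn
    have h5 : X p x i = X p x j := mul_right_cancel h1
    rw [X_inj (D.ordx h) D.hx1 h5]
  have hsurj : Function.Surjective (fun q : ZMod p × ZMod p =>
      (⟨X p x q.1 * u ^ q.2.val, mul_mem (D.X_mem q.1).1 (D.upow_mem _)⟩ : P)) := by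
    have : Function.Bijective (fun q : ZMod p × ZMod p =>
      (⟨X p x q.1 * u ^ q.2.val, mul_mem (D.X_mem q.1).1 (D.upow_mem _)⟩ : P)) := by
      rw [Nat.bijective_iff_injective_and_card]
      refine ⟨hinj, ?_⟩
      rw [Nat.card_prod, Nat.card_zmod, D.hP.card, sq]
    exact this.2
  obtain ⟨⟨i, m⟩, hq⟩ := hsurj ⟨g, hg⟩
  refine ⟨i, m.val, ?_⟩
  have : X p x i * u ^ m.val = g := congrArg Subtype.val hq
  rw [← this, mul_smul]

/-- `u` centralizes the kernel. -/
theorem u_comm [FaithfulSMul G Ω] (h : Hyp G Ω p) {k : G} (hk : k ∈ Ker hR a) :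
    u * k = k * u := by
  rw [← mul_inv_eq_one, ← mul_inv_eq_one]
  rw [mul_inv_eq_one]
  have key : ∀ z : Ω, (u * k) • z = (k * u) • z := by
    intro z
    by_cases hz : z = a
    · rw [hz, mul_smul, mul_smul, hk.1, D.fixa D.hu, hk.1]
    · obtain ⟨i, m, rfl⟩ := D.exists_coord h hz
      obtain ⟨j, hj⟩ := D.exists_move h hk m i
      have h1 : ((X p x j)⁻¹ * k * X p x i) • u ^ m • b = u ^ m • b := by
        rw [mul_smul, mul_smul, hj, inv_smul_smul]
      have hk' : (X p x j)⁻¹ * k * X p x i ∈ Ker hR a :=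
        mul_mem (mul_mem (inv_mem (mem_inf.1 (D.X_mem j)).2) hk) (mem_inf.1 (D.X_mem i)).2
      have h2 := (D.stab_iff_succ h hk' m).1 h1
      rw [mul_smul, mul_smul, inv_smul_eq_iff] at h2
      have hc : ∀ l : ZMod p, u • X p x l • u ^ m • b = X p x l • u ^ (m + 1) • b := by
        intro l
        rw [smul_smul, smul_smul, smul_smul, pow_succ']
        congr 1
        have := D.comm_Xu l 1
        rw [pow_one] at this
        rw [← this, mul_assoc]
      rw [mul_smul, mul_smul, hj, hc, hc, h2]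
  have h3 : (u * k) = (k * u) := FaithfulSMul.eq_of_smul_eq_smul (α := Ω) key
  rw [h3, mul_inv_cancel]

end Dat

end Cfsg.Agent.H15PSq
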