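import Cfsg.Agent.H15PSq.CaseB2

/-!
# The case of a nonsolvable kernel: contradiction (helper15)
-/

set_option autoImplicit false
set_option linter.style.haveILetI false
set_option linter.unusedSectionVars false

namespace Cfsg.Agent.H15PSq

open MulAction Subgroup

universe u v

variable {G : Type u} {Ω : Type v} [Group G] [Finite G] [MulAction G Ω]
variable [Finite Ω] {p : ℕ} [hp : Fact p.Prime]

namespace Dat

variable {R : Ω → Ω → Ω → Prop} {hR : Sys G p R} {a b : Ω} {P : Subgroup G} {x u f : G} {T : ℕ}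
variable (D : Dat hR a b P x u f T)

include D

theorem trans_stab [FaithfulSMul G Ω] (h : Hyp G Ω p) (m : ℕ) {y y' : Ω}
    (hy : R a (u ^ m • b) y) (hy' : R a (u ^ m • b) y') (hne : y ≠ u ^ m • b)
    (hne' : y' ≠ u ^ m • b) : ∃ d ∈ Ker hR a, d • b = b ∧ d • y = y' := by
  have hc := D.upow_ne m
  obtain ⟨k, hk, e1, e2⟩ := D.htwo _ hc (u ^ m • b) y (u ^ m • b) y' (hR.refl _ _ hc) hy
    (hR.refl _ _ hc) hy' hne.symm hne'.symm
  exact ⟨k, hk, (D.stab_iff_pow h hk m).2 e1, e2⟩

theorem contra_one [FaithfulSMul G Ω] (h : Hyp G Ω p)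
    (hall : ∀ w : G, w • a = a → w • b = b → w ∈ Ker hR a) : False := by
  have hF4 : ∀ γ δ : Ω, δ ≠ γ → ∀ w : G, w • γ = γ → w • δ = δ → w ∈ Ker hR γ := by
    intro γ δ hne w hwγ hwδ
    obtain ⟨g, rfl, rfl⟩ := h.two a b γ δ D.hab.symm hne.symm
    have h1 : g⁻¹ * w * g ∈ Ker hR a := by
      apply hall
      · rw [mul_smul, mul_smul, hwγ, inv_smul_smul]
      · rw [mul_smul, mul_smul, hwδ, inv_smul_smul]
    have h2 := Ker_conj hR h1 g
    have e : g * (g⁻¹ * w * g) * g⁻¹ = w := by group
    rwa [e] at h2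
  let U : Ω → Subgroup G := fun γ => centralizer (Ker hR γ : Set G) ⊓ stabilizer G γ
  have hUmem : ∀ γ w, w ∈ U γ ↔ (∀ k ∈ Ker hR γ, k * w = w * k) ∧ w • γ = γ := by
    intro γ w
    change w ∈ centralizer (Ker hR γ : Set G) ⊓ stabilizer G γ ↔ _
    rw [mem_inf, mem_centralizer_iff, mem_stabilizer_iff]
    rfl
  have hua : u ∈ U a := by
    rw [hUmem]
    exact ⟨fun k hk => (D.u_comm h hk).symm, D.fixa D.hu⟩
  have hUeq : ∀ (g : G) (γ : Ω) (w : G), w ∈ U γ → g * w * g⁻¹ ∈ U (g • γ) := by
    intro g γ w hw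
    rw [hUmem] at hw ⊢
    refine ⟨fun k hk => ?_, ?_⟩
    · have h1 := Ker_conj hR hk g⁻¹
      rw [inv_smul_smul] at h1
      have h2 := hw.1 _ h1
      have e1 : k * (g * w * g⁻¹) = g * (g⁻¹ * k * g⁻¹⁻¹ * w) * g⁻¹ := by group
      have e2 : g * w * g⁻¹ * k = g * (w * (g⁻¹ * k * g⁻¹⁻¹)) * g⁻¹ := by group
      rw [e1, e2, h2]
    · rw [smul_smul, inv_mul_cancel_right, mul_smul, hw.2]
  have hu1 : u ≠ 1 := fun hc => D.huK (hc ▸ one_mem _)
  have hU : Fam G p U :=
    { equiv := hUeq
      fix := fun γ w hw => ((hUmem γ w).1 hw).2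
      elt := fun γ => by
        obtain ⟨s, rfl⟩ := h.exists_smul a γ
        refine ⟨s * u * s⁻¹, hUeq s a u hua, 1, ?_, ?_⟩
        · rw [pow_one, conj_pow, D.hup, mul_one, mul_inv_cancel]
        · intro hc
          apply hu1
          have := congrArg (fun t => s⁻¹ * t * s) hc
          simpa [mul_assoc] using this }
  have hfb : f ∈ Ker hR b := hF4 b a D.hab.symm f D.hfb D.hf.1
  have hf1 : f = 1 := line h hR hU D.hab f
    (fun w hw => ((((hUmem a w).1 hw).1 f D.hf)).symm)
    (fun w hw => ((((hUmem b w).1 hw).1 f hfb)).symm)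
  apply D.hT1
  have h1 := D.hT
  rw [hf1, one_mul, inv_one, mul_one] at h1
  apply X_inj (D.ordx h) D.hx1
  rw [X_natCast (D.ordx h), ← h1]
  have h2 := X_natCast (D.ordx h) 1
  rw [Nat.cast_one, pow_one] at h2
  exact h2.symm

theorem contra [FaithfulSMul G Ω] (h : Hyp G Ω p) : False := by
  have hab := D.hab
  obtain ⟨g, hga, hgb⟩ := h.two a b b a hab.symm hab
  have hg1 : ∀ y, R a b y → R b a (g • y) := by
    intro y hy
    have := hR.equiv g _ _ _ hy
    rwa [hga, hgb] at this
  have hp1 := hp.out.one_lt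
  by_cases hi : ∃ δ, δ ≠ a ∧ R b a δ ∧ R a b δ
  · -- case (i)
    obtain ⟨δ, hδa, hδ1, hδ2⟩ := hi
    have hδb : δ ≠ b := hR.ne _ _ _ (hR.symm _ _ _ hδ1)
    have hb0 : u ^ 0 • b = b := by rw [pow_zero, one_smul]
    have himp1 : ∀ y, y ≠ b → R a b y → R b a y := by
      intro y hyb hy
      obtain ⟨d, hd, e1, e2⟩ := D.trans_stab h 0 (y := δ) (y' := y) (by rw [hb0]; exact hδ2)
        (by rw [hb0]; exact hy) (by rw [hb0]; exact hδb) (by rw [hb0]; exact hyb)
      have := hR.equiv d _ _ _ hδ1
      rw [hd.1, e1, e2] at this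
      exact this
    have hfix := h.fix hR hab g (by
      intro y hy
      rcases hy with rfl | hy
      · right
        rw [hga]
        exact hR.refl _ _ hab
      · by_cases hyb : y = b
        · left
          rw [hyb, hgb]
        · right
          have h1 := hg1 y hy
          have h2 : g • y ≠ a := by
            intro hc
            apply hyb
            have : g • y = g • b := by rw [hc, hgb]
            exact smul_left_cancel g this
          have h3 : g⁻¹ • g • y ≠ b := by rw [inv_smul_smul]; exact hyb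
          -- the reverse inclusion by counting
          have hsub : {y | R a b y} \ {b} ⊆ {y | R b a y} \ {a} := by
            rintro z ⟨hz1, hz2⟩
            refine ⟨himp1 z hz2 hz1, ?_⟩
            exact hR.ne _ _ _ (hR.symm _ _ _ hz1)
          have hc1 : ({y | R a b y} \ {b}).ncard + 1 = p := by
            rw [Set.ncard_sdiff_singleton_add_one (show b ∈ {y | R a b y} from hR.refl _ _ hab)
              (Set.toFinite _), hR.card a b hab]
          have hc2 : ({y | R b a y} \ {a}).ncard + 1 = p := by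
            rw [Set.ncard_sdiff_singleton_add_one
              (show a ∈ {y | R b a y} from hR.refl _ _ hab.symm) (Set.toFinite _),
              hR.card b a hab.symm]
          have heq := Set.eq_of_subset_of_ncard_le hsub (by omega) (Set.toFinite _)
          have h4 : g • y ∈ {y | R b a y} \ {a} := ⟨h1, h2⟩
          rw [← heq] at h4
          exact h4.1)
    rw [hga] at hfix
    exact hab hfix
  push Not at hi
  by_cases hii : ∃ δ, δ ≠ a ∧ R b a δ ∧ ∀ m : ℕ, δ ≠ u ^ m • b
  · obtain ⟨δ, hδa, hδ1, hδ2⟩ := hii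
    obtain ⟨i, m, hδ⟩ := D.exists_coord h hδa
    have hac : R a (u ^ m • b) δ := by
      rw [hδ]
      exact D.R_X m i
    have hm : ¬ p ∣ m := by
      rintro ⟨n, rfl⟩
      apply hi δ hδa hδ1
      rw [pow_mul, D.hup, one_pow, one_smul] at hac
      exact hac
    have hc := D.upow_ne m
    have hsub : {y | R a (u ^ m • b) y} \ {u ^ m • b} ⊆ {y | R b a y} \ {a} := by
      rintro z ⟨hz1, hz2⟩
      obtain ⟨d, hd, e1, e2⟩ := D.trans_stab h m hac hz1 (hδ2 m) hz2
      have := hR.equiv d _ _ _ hδ1
      rw [hd.1, e1, e2] at this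
      exact ⟨this, hR.ne _ _ _ (hR.symm _ _ _ hz1)⟩
    have hc1 : ({y | R a (u ^ m • b) y} \ {u ^ m • b}).ncard + 1 = p := by
      rw [Set.ncard_sdiff_singleton_add_one
        (show u ^ m • b ∈ {y | R a (u ^ m • b) y} from hR.refl _ _ hc)
        (Set.toFinite _), hR.card a _ hc]
    have hc2 : ({y | R b a y} \ {a}).ncard + 1 = p := by
      rw [Set.ncard_sdiff_singleton_add_one
        (show a ∈ {y | R b a y} from hR.refl _ _ hab.symm) (Set.toFinite _),
        hR.card b a hab.symm]
    have heq := Set.eq_of_subset_of_ncard_le hsub (by omega) (Set.toFinite _)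
    have hw1 : ∀ w : G, w • a = a → w • b = b → R a (u ^ m • b) (w • u ^ m • b) := by
      intro w hwa hwb
      have h1 : w • δ ∈ {y | R b a y} \ {a} := by
        refine ⟨?_, smul_ne hwa hδa⟩
        have := hR.equiv w _ _ _ hδ1
        rw [hwa, hwb] at this
        exact this
      rw [← heq] at h1
      have h2 := hR.equiv w _ _ _ hac
      rw [hwa] at h2
      exact hR.trans _ _ _ _ h1.1 (hR.symm _ _ _ h2)
    have hw2 : ∀ w : G, w • a = a → R a b (w • b) → R a (u ^ m • b) (w • u ^ m • b) := by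
      intro w hwa hwb
      obtain ⟨k, hk, hkK, hkb⟩ := Ker_trans hR D.hP hwb
      have h1 := hw1 (k⁻¹ * w) (by rw [mul_smul, hwa, inv_smul_eq_iff, hkK.1])
        (by rw [mul_smul, ← hkb, inv_smul_smul])
      have h2 := hkK.2 _ (hR.ne _ _ _ (hR.symm _ _ _ h1))
      rw [mul_smul, smul_inv_smul] at h2
      rw [mul_smul] at h1
      exact hR.trans _ _ _ _ h1 h2
    have hw3 : ∀ (n : ℕ) (w : G), w • a = a → R a b (w • b) →
        R a (u ^ (m * n) • b) (w • u ^ (m * n) • b) := by
      intro n
      induction n with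
      | zero =>
        intro w hwa hwb
        rw [mul_zero, pow_zero, one_smul]
        exact hwb
      | succ n ih =>
        intro w hwa hwb
        have h1 := ih w hwa hwb
        have hva : u ^ (m * n) • a = a := D.fixa (D.upow_mem _)
        have hva' : (u ^ (m * n))⁻¹ • a = a := D.fixa (inv_mem (D.upow_mem _))
        have h2 := hR.equiv (u ^ (m * n))⁻¹ _ _ _ h1
        rw [hva', inv_smul_smul] at h2
        have h3 := hw2 ((u ^ (m * n))⁻¹ * w * u ^ (m * n))
          (by rw [mul_smul, mul_smul, hva, hwa, hva']) (by rw [mul_smul, mul_smul]; exact h2)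
        have h4 := hR.equiv (u ^ (m * n)) _ _ _ h3
        have e5 : u ^ (m * n) • ((u ^ (m * n))⁻¹ * w * u ^ (m * n)) • u ^ m • b =
            w • u ^ (m * (n + 1)) • b := by
          rw [smul_smul, smul_smul, smul_smul, Nat.mul_succ, pow_add]
          congr 1
          group
        rw [hva, e5, smul_smul, ← pow_add] at h4
        exact h4
    have hw4 : ∀ (l : ℕ) (w : G), w • a = a → R a b (w • b) →
        R a (u ^ l • b) (w • u ^ l • b) := by
      intro l w hwa hwb
      have hcop : Nat.Coprime p m := (Nat.Prime.coprime_iff_not_dvd hp.out).2 hm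
      have h2 : orderOf u ∣ p := orderOf_dvd_of_pow_eq_one D.hup
      have h3 : (orderOf u).Coprime m := Nat.Coprime.coprime_dvd_left h2 hcop
      obtain ⟨n, hn⟩ := exists_pow_eq_self_of_coprime h3.symm
      have h4 := hw3 (n * l) w hwa hwb
      rw [← mul_assoc, pow_mul, pow_mul, hn] at h4
      exact h4
    apply D.contra_one h
    intro w hwa hwb
    refine (mem_Ker hR).2 ⟨hwa, fun z hz => ?_⟩
    obtain ⟨j, l, rfl⟩ := D.exists_coord h hz
    have h1 := D.R_X l j
    have h2 := hR.equiv w _ _ _ h1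
    rw [hwa] at h2
    have h3 := hw4 l w hwa (by rw [hwb]; exact hR.refl _ _ hab)
    exact hR.trans _ _ _ _ (hR.symm _ _ _ h1) (hR.trans _ _ _ _ h3 h2)
  · push Not at hii
    have hu1 : u ≠ 1 := fun hc => D.huK (hc ▸ one_mem _)
    let V : Set Ω := insert a (Set.range (fun m : ZMod p => u ^ m.val • b))
    have hV1 : ∀ m : ℕ, u ^ m • b ∈ V := by
      intro m
      right
      refine ⟨(m : ZMod p), ?_⟩
      change u ^ (m : ZMod p).val • b = u ^ m • b
      have : u ^ (m : ZMod p).val = u ^ m := X_natCast D.hup m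
      rw [this]
    have hV2 : V.ncard ≤ p + 1 := by
      refine (Set.ncard_insert_le _ _).trans ?_
      apply Nat.add_le_add_right
      rw [← Set.image_univ]
      refine (Set.ncard_image_le (Set.toFinite _)).trans ?_
      rw [Set.ncard_univ, Nat.card_zmod]
    have hX : {y | y = b ∨ R b a y} ⊆ V := by
      rintro y (rfl | hy)
      · have := hV1 0
        rwa [pow_zero, one_smul] at this
      · by_cases hya : y = a
        · exact Or.inl hya
        · obtain ⟨m, hm⟩ := hii y hya hy
          rw [hm]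
          exact hV1 m
    have hc3 : {y | y = b ∨ R b a y}.ncard = p + 1 := by
      have : {y | y = b ∨ R b a y} = insert b {y | R b a y} := rfl
      rw [this, Set.ncard_insert_of_notMem _ (Set.toFinite _), hR.card b a hab.symm]
      intro hc
      exact hR.ne _ _ _ (hR.symm _ _ _ hc) rfl
    have heq : {y | y = b ∨ R b a y} = V :=
      Set.eq_of_subset_of_ncard_le hX (by omega) (Set.toFinite _)
    have hfin := h.fix hR hab.symm u (by
      intro y hy
      have h1 : y ∈ V := heq ▸ hy
      have h2 : u • y ∈ V := by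
        rcases h1 with rfl | ⟨m, rfl⟩
        · left
          exact D.fixa D.hu
        · change u • u ^ m.val • b ∈ V
          rw [smul_smul, ← pow_succ']
          exact hV1 _
      rw [← heq] at h2
      exact h2)
    exact hu1 (D.hP.free u D.hu b hab hfin)

end Dat

end Cfsg.Agent.H15PSq
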