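import Cfsg.Agent.H15PSq.CaseB3
import Cfsg.Agent.H12.PrimeDegreeC
import Cfsg.Agent.H74.Retract

/-!
# The elements of order `p` of the kernel form a normal subgroup of `G_a` (helper15)
-/

set_option autoImplicit false
set_option linter.style.haveILetI false
set_option linter.unusedSectionVars false

namespace Cfsg.Agent.H15PSq

open MulAction Subgroup

universe u v

variable {G : Type u} {Ω : Type v} [Group G] [Finite G] [MulAction G Ω]
variable [Finite Ω] {p : ℕ} [hp : Fact p.Prime] [FaithfulSMul G Ω]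

/-- action of the kernel on a block -/
@[reducible] def blockAct {R : Ω → Ω → Ω → Prop} (hR : Sys G p R) (a c : Ω) :
    MulAction (Ker hR a) {y // R a c y} where
  smul k y := ⟨k.1 • y.1, hR.trans _ _ _ _ y.2 (k.2.2 y.1 (hR.ne _ _ _ (hR.symm _ _ _ y.2)))⟩
  one_smul y := Subtype.ext (one_smul G y.1)
  mul_smul k l y := Subtype.ext (mul_smul k.1 l.1 y.1)

theorem dichotomy (h : Hyp G Ω p) {R : Ω → Ω → Ω → Prop} (hR : Sys G p R) {a c : Ω} (hc : c ≠ a) :
    (Group.IsSolvable (Ker hR a) ∧ ∀ x ∈ Ker hR a, ∀ y ∈ Ker hR a, x ^ p = 1 → x ≠ 1 →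
      y ^ p = 1 → y ∈ zpowers x) ∨
    (¬ Group.IsSolvable (Ker hR a) ∧ ∀ y y' z z', R a c y → R a c y' → R a c z → R a c z' →
      y ≠ y' → z ≠ z' → ∃ k ∈ Ker hR a, k • y = z ∧ k • y' = z') := by
  classical
  letI := blockAct hR a c
  haveI : Fintype {y // R a c y} := Fintype.ofFinite _
  obtain ⟨P, hP, -⟩ := exists_reg h hR a
  have hcardα : Fintype.card {y // R a c y} = p := by
    rw [← Nat.card_eq_fintype_card]
    exact hR.card a c hc
  let φ : Ker hR a →* Equiv.Perm {y // R a c y} := MulAction.toPermHom (Ker hR a) {y // R a c y}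
  have hφ : ∀ (k : Ker hR a) (y : {y // R a c y}), ((φ k) y : Ω) = k.1 • y.1 := fun _ _ => rfl
  have hinj : Function.Injective φ := by
    rw [injective_iff_map_eq_one]
    intro k hk
    apply Subtype.ext
    apply Ker_faithful h hR hc k.2
    intro y hy
    have h1 := hφ k ⟨y, hy⟩
    rw [hk] at h1
    exact h1.symm
  haveI htr : IsPretransitive φ.range {y // R a c y} := by
    refine ⟨fun y z => ?_⟩
    obtain ⟨g, hg, hgK, hgz⟩ := Ker_trans hR hP (hR.trans _ _ _ _ (hR.symm _ _ _ y.2) z.2)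
    exact ⟨⟨φ ⟨g, hgK⟩, ⟨g, hgK⟩, rfl⟩, Subtype.ext hgz⟩
  have hsol : Group.IsSolvable φ.range ↔ Group.IsSolvable (Ker hR a) := by
    constructor
    · intro hs
      exact Group.isSolvable_of_isSolvable_injective (f := φ.rangeRestrict)
        (fun x y hxy => hinj (congrArg Subtype.val hxy))
    · intro hs
      exact Group.isSolvable_of_surjective (f := φ.rangeRestrict) φ.rangeRestrict_surjective
  by_cases hs : Group.IsSolvable (Ker hR a)
  · left
    refine ⟨hs, ?_⟩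
    have hs' := hsol.2 hs
    obtain ⟨Q⟩ : Nonempty (Sylow p φ.range) := inferInstance
    haveI hQn := H12.sylow_normal_of_solvable hcardα φ.range hs' Q
    have hQc := (H12.sylow_eq_zpowers hcardα φ.range Q).1
    haveI : Subsingleton (Sylow p φ.range) := by
      letI := Sylow.unique_of_normal Q hQn
      infer_instance
    have hmem : ∀ x (hx : x ∈ Ker hR a), x ^ p = 1 →
        (⟨φ ⟨x, hx⟩, ⟨x, hx⟩, rfl⟩ : φ.range) ∈ (Q : Subgroup φ.range) := by
      intro x hx hxp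
      have h1 : IsPGroup p (zpowers (⟨φ ⟨x, hx⟩, ⟨x, hx⟩, rfl⟩ : φ.range)) := by
        rintro ⟨_, j, rfl⟩
        refine ⟨1, Subtype.ext ?_⟩
        change ((⟨φ ⟨x, hx⟩, ⟨x, hx⟩, rfl⟩ : φ.range) ^ j) ^ p ^ 1 = 1
        have h2 : (⟨φ ⟨x, hx⟩, ⟨x, hx⟩, rfl⟩ : φ.range) ^ p = 1 := by
          apply Subtype.ext
          change (φ ⟨x, hx⟩) ^ p = 1
          rw [← map_pow]
          have : (⟨x, hx⟩ : Ker hR a) ^ p = 1 := Subtype.ext hxp
          rw [this, map_one]
        rw [pow_one, ← zpow_natCast, ← zpow_mul, mul_comm, zpow_mul, zpow_natCast, h2, one_zpow]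
      obtain ⟨Q', hQ'⟩ := h1.exists_le_sylow
      have : Q' = Q := Subsingleton.elim _ _
      rw [← this]
      exact hQ' (mem_zpowers _)
    intro x hx y hy hxp hx1 hyp
    have h1 := hmem x hx hxp
    have h2 := hmem y hy hyp
    have h3 : orderOf (⟨φ ⟨x, hx⟩, ⟨x, hx⟩, rfl⟩ : φ.range) = p := by
      apply orderOf_eq_prime
      · apply Subtype.ext
        change (φ ⟨x, hx⟩) ^ p = 1
        rw [← map_pow]
        have : (⟨x, hx⟩ : Ker hR a) ^ p = 1 := Subtype.ext hxp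
        rw [this, map_one]
      · intro hc'
        apply hx1
        have h4 : φ ⟨x, hx⟩ = 1 := congrArg Subtype.val hc'
        have h5 : (⟨x, hx⟩ : Ker hR a) = 1 := hinj (by rw [h4, map_one])
        exact congrArg Subtype.val h5
    have h4 : zpowers (⟨φ ⟨x, hx⟩, ⟨x, hx⟩, rfl⟩ : φ.range) = (Q : Subgroup φ.range) := by
      apply Subgroup.eq_of_le_of_card_ge
      · rw [zpowers_le]
        exact h1
      · rw [hQc, Nat.card_zpowers, h3]
    rw [← h4, mem_zpowers_iff] at h2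
    obtain ⟨j, hj⟩ := h2
    refine ⟨j, ?_⟩
    have h5 : (φ ⟨x, hx⟩) ^ j = φ ⟨y, hy⟩ := congrArg Subtype.val hj
    rw [← map_zpow] at h5
    exact congrArg Subtype.val (hinj h5)
  · right
    refine ⟨hs, ?_⟩
    have h2 := H12.burnside_prime_degree hcardα φ.range (fun h' => hs (hsol.1 h'))
    intro y y' z z' hy hy' hz hz' hne hne'
    have h2' : ∀ s t s' t' : {y // R a c y}, s ≠ t → s' ≠ t' →
        ∃ g : φ.range, g • s = s' ∧ g • t = t' :=
      fun s t s' t' hst hst' => is_two_pretransitive_iff.1 h2 hst hst'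
    obtain ⟨⟨_, k, rfl⟩, e1, e2⟩ := h2' ⟨y, hy⟩ ⟨y', hy'⟩ ⟨z, hz⟩ ⟨z', hz'⟩
      (fun hc' => hne (congrArg Subtype.val hc')) (fun hc' => hne' (congrArg Subtype.val hc'))
    exact ⟨k.1, k.2, congrArg Subtype.val e1, congrArg Subtype.val e2⟩

/-- `C_K(P_0) = P_0`. -/
theorem cent_in_ker (h : Hyp G Ω p) {R : Ω → Ω → Ω → Prop} (hR : Sys G p R) {a : Ω}
    {P : Subgroup G} (hP : RegAt p a P) {k : G} (hk : k ∈ Ker hR a)
    (hc : ∀ x ∈ P ⊓ Ker hR a, k * x = x * k) : k ∈ P := by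
  obtain ⟨b, hb⟩ := h.exists_ne a
  obtain ⟨g, hg, hgK, hgb⟩ := Ker_trans hR hP (hk.2 b hb)
  have h1 : g⁻¹ * k = 1 := by
    apply Ker_faithful h hR hb (mul_mem (inv_mem hgK) hk)
    intro y hy
    obtain ⟨g', hg', hgK', rfl⟩ := Ker_trans hR hP hy
    have h2 : g⁻¹ * k * g' = g' * (g⁻¹ * k) := by
      rw [mul_assoc, hc g' ⟨hg', hgK'⟩, ← mul_assoc, hP.comm _ (inv_mem hg) _ hg', mul_assoc]
    rw [smul_smul, h2, mul_smul, mul_smul, ← hgb, inv_smul_smul]
  rw [inv_mul_eq_one] at h1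
  rw [← h1]
  exact hg

theorem card_Ker (h : Hyp G Ω p) {R : Ω → Ω → Ω → Prop} (hR : Sys G p R) {a b : Ω} (hb : b ≠ a) :
    Nat.card (Ker hR a) = p * Nat.card (Ker hR a ⊓ stabilizer G b : Subgroup G) ∧
      ¬ p ∣ Nat.card (Ker hR a ⊓ stabilizer G b : Subgroup G) := by
  obtain ⟨P, hP, -⟩ := exists_reg h hR a
  have c1 := card_of_orbit (Ker hR a) b {y | R a b y} (fun g hg => hg.2 b hb)
    (fun y hy => by
      obtain ⟨g, hg, hgK, hgy⟩ := Ker_trans hR hP hy
      exact ⟨g, hgK, hgy⟩)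
  rw [hR.card a b hb] at c1
  refine ⟨c1, fun hd => ?_⟩
  apply not_dvd_card h hR hb
  exact hd.trans (Subgroup.card_dvd_of_le (inf_le_inf_right _ (fun g hg => hg.1)))

/-- if the kernel is not solvable there is a non-centralizing element of `N_K(P_0)`. -/
theorem exists_norm (h : Hyp G Ω p) {R : Ω → Ω → Ω → Prop} (hR : Sys G p R) {a : Ω}
    {P : Subgroup G} (hP : RegAt p a P) (hns : ¬ Group.IsSolvable (Ker hR a)) :
    ∃ f ∈ Ker hR a, (∀ x ∈ P ⊓ Ker hR a, f * x * f⁻¹ ∈ P ⊓ Ker hR a) ∧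
      ∃ x ∈ P ⊓ Ker hR a, f * x * f⁻¹ ≠ x := by
  classical
  by_contra hcon
  push Not at hcon
  apply hns
  obtain ⟨b, hb⟩ := h.exists_ne a
  obtain ⟨c1, c2⟩ := card_Ker h hR hb
  have hle : (P ⊓ Ker hR a : Subgroup G) ≤ Ker hR a := inf_le_right
  have hc0 : Nat.card ((P ⊓ Ker hR a).subgroupOf (Ker hR a)) = p := by
    rw [Nat.card_congr (subgroupOfEquivOfLe hle).toEquiv, card_inf_Ker h hR hP]
  have hfac : (Nat.card (Ker hR a)).factorization p = 1 := by
    rw [c1, Nat.factorization_mul hp.out.ne_zero Nat.card_pos.ne', Finsupp.add_apply,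
      Nat.factorization_eq_zero_of_not_dvd c2, Nat.Prime.factorization_self hp.out]
  have hc1 : Nat.card ((P ⊓ Ker hR a).subgroupOf (Ker hR a)) =
      p ^ (Nat.card (Ker hR a)).factorization p := by
    rw [hc0, hfac, pow_one]
  let Q : Sylow p (Ker hR a) := Sylow.ofCard _ hc1
  have hQ : (Q : Subgroup (Ker hR a)) = (P ⊓ Ker hR a).subgroupOf (Ker hR a) := rfl
  have hNC : Subgroup.normalizer (Q : Set (Ker hR a)) ≤ Subgroup.centralizer (Q : Set (Ker hR a)) := by
    intro f hf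
    rw [mem_centralizer_iff]
    intro x hx
    have hx' : x.1 ∈ (P ⊓ Ker hR a : Subgroup G) := mem_subgroupOf.1 (show x ∈ (P ⊓ Ker hR a).subgroupOf (Ker hR a) from hx)
    have h1 := hcon f.1 f.2 (fun y hy => by
      have hy' : (⟨y, hy.2⟩ : Ker hR a) ∈ (Q : Subgroup (Ker hR a)) := mem_subgroupOf.2 hy
      have h2 := (mem_normalizer_iff.1 hf _).1 hy'
      exact mem_subgroupOf.1 (show _ ∈ (P ⊓ Ker hR a).subgroupOf (Ker hR a) from h2)) x.1 hx'
    apply Subtype.ext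
    change x.1 * f.1 = f.1 * x.1
    rw [← mul_inv_eq_iff_eq_mul.1 h1]
  obtain ⟨π, hπ1, hπ2, hπ3, -, -⟩ := H74.exists_retract Q hNC
  -- the kernel of `π` fixes every point
  have hker : ∀ n : Ker hR a, π n = 1 → n = 1 := by
    intro n hn
    apply Subtype.ext
    apply eq_one_of_fix_all (Ω := Ω)
    intro z
    by_cases hz : z = a
    · rw [hz]
      exact n.2.1
    obtain ⟨g, hg, hgK, hgz⟩ := Ker_trans hR hP (n.2.2 z hz)
    have hgQ : (⟨g, hgK⟩ : Ker hR a) ∈ (Q : Subgroup (Ker hR a)) := mem_subgroupOf.2 ⟨hg, hgK⟩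
    have h1 : ((⟨g, hgK⟩ : Ker hR a)⁻¹ * n).1 • z = z := by
      change (g⁻¹ * n.1) • z = z
      rw [mul_smul, ← hgz, inv_smul_smul]
    have h2 : π ((⟨g, hgK⟩ : Ker hR a)⁻¹ * n) = 1 := by
      apply hπ2
      intro hd
      apply (card_Ker h hR hz).2
      rw [← Subgroup.orderOf_coe] at hd
      refine hd.trans (Subgroup.orderOf_dvd_natCard _ ?_)
      exact ⟨((⟨g, hgK⟩ : Ker hR a)⁻¹ * n).2, h1⟩
    rw [map_mul, hn, mul_one, map_inv, inv_eq_one] at h2
    have h3 := hπ1 ⟨⟨g, hgK⟩, hgQ⟩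
    rw [show ((⟨⟨g, hgK⟩, hgQ⟩ : (Q : Subgroup (Ker hR a))) : Ker hR a) = ⟨g, hgK⟩ from rfl, h2] at h3
    have h4 : g = 1 := by
      have := congrArg (fun t : (Q : Subgroup (Ker hR a)) => ((t : Ker hR a) : G)) h3
      exact this.symm
    rw [← hgz, h4, one_smul]
  have hinj : Function.Injective π := by
    rw [injective_iff_map_eq_one]
    exact hker
  haveI : Group.IsSolvable (Q : Subgroup (Ker hR a)) := by
    apply Group.isSolvable_of_comm
    intro x y
    apply Subtype.ext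
    apply Subtype.ext
    have hx' := mem_subgroupOf.1 (show x.1 ∈ (P ⊓ Ker hR a).subgroupOf (Ker hR a) from x.2)
    have hy' := mem_subgroupOf.1 (show y.1 ∈ (P ⊓ Ker hR a).subgroupOf (Ker hR a) from y.2)
    exact hP.comm _ hx'.1 _ hy'.1
  exact Group.isSolvable_of_isSolvable_injective hinj

theorem ker_solvable (h : Hyp G Ω p) {R : Ω → Ω → Ω → Prop} (hR : Sys G p R) (a : Ω) :
    Group.IsSolvable (Ker hR a) := by
  classical
  by_contra hns
  obtain ⟨P, hP, -⟩ := exists_reg h hR a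
  obtain ⟨b, hb⟩ := h.exists_ne a
  obtain ⟨f', hf', hf'n, x, hx, hfx⟩ := exists_norm h hR hP hns
  have hcard0 := card_inf_Ker h hR hP
  have hxp : x ^ p = 1 := by
    have h3 := Subgroup.orderOf_dvd_natCard _ hx
    rw [hcard0] at h3
    exact orderOf_dvd_iff_pow_eq_one.1 h3
  have hx1 : x ≠ 1 := by
    rintro rfl
    apply hfx
    group
  have hord : orderOf x = p := orderOf_eq_prime hxp hx1
  have hgen : zpowers x = P ⊓ Ker hR a := by
    apply Subgroup.eq_of_le_of_card_ge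
    · rw [zpowers_le]
      exact hx
    · rw [hcard0, Nat.card_zpowers, hord]
  have hpow : ∀ g ∈ P ⊓ Ker hR a, ∃ n : ℕ, g = x ^ n := by
    intro g hg
    rw [← hgen, mem_zpowers_iff] at hg
    obtain ⟨k, hk⟩ := hg
    refine ⟨(k % (orderOf x : ℤ)).toNat, ?_⟩
    rw [← zpow_natCast, Int.toNat_of_nonneg (Int.emod_nonneg _ (by
      rw [hord]
      exact_mod_cast hp.out.ne_zero)), zpow_mod_orderOf, hk]
  -- adjust `f'`
  obtain ⟨g, hg, hgK, hgb⟩ := Ker_trans hR hP (hf'.2 b hb)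
  set f := g⁻¹ * f' with hf
  have hfK : f ∈ Ker hR a := mul_mem (inv_mem hgK) hf'
  have hfb : f • b = b := by rw [hf, mul_smul, ← hgb, inv_smul_smul]
  have hfconj : ∀ y ∈ P ⊓ Ker hR a, f * y * f⁻¹ = f' * y * f'⁻¹ := by
    intro y hy
    have h1 := (hf'n y hy).1
    have h2 := hP.comm _ (inv_mem hg) _ h1
    rw [hf]
    calc g⁻¹ * f' * y * (g⁻¹ * f')⁻¹ = g⁻¹ * (f' * y * f'⁻¹) * g := by group
      _ = f' * y * f'⁻¹ := by rw [h2, inv_mul_cancel_right]
  have hfn : ∀ y ∈ P ⊓ Ker hR a, f * y * f⁻¹ ∈ P ⊓ Ker hR a := by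
    intro y hy
    rw [hfconj y hy]
    exact hf'n y hy
  obtain ⟨T, hT⟩ := hpow _ (hfn x hx)
  have hT1 : (T : ZMod p) ≠ 1 := by
    intro hc
    apply hfx
    rw [← hfconj x hx, hT, ← X_natCast hxp, hc]
    have h2 := X_natCast hxp 1
    rw [Nat.cast_one, pow_one] at h2
    exact h2
  have hfX : ∀ s : ZMod p, f * X p x s * f⁻¹ = X p x ((T : ZMod p) * s) := by
    intro s
    unfold X
    rw [← conj_pow, hT]
    have : ((T : ZMod p) * s) = ((T * s.val : ℕ) : ZMod p) := by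
      rw [Nat.cast_mul, ZMod.natCast_zmod_val]
    rw [← pow_mul, ← X_natCast hxp, this]
    rfl
  -- choose `u₀`
  have hne : ∃ u₀ ∈ P, u₀ ∉ Ker hR a := by
    by_contra hcon
    push Not at hcon
    have h1 : P ⊓ Ker hR a = P := inf_eq_left.2 hcon
    rw [h1, hP.card] at hcard0
    have := hp.out.one_lt
    nlinarith
  obtain ⟨u₀, hu₀, hu₀K⟩ := hne
  have hk₀ : u₀⁻¹ * (f * u₀ * f⁻¹) ∈ P ⊓ Ker hR a := by
    have h1 : u₀⁻¹ * (f * u₀ * f⁻¹) ∈ Ker hR a := by
      have h2 := Ker_conj hR hfK u₀⁻¹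
      rw [hP.le _ (inv_mem hu₀), inv_inv] at h2
      have h3 := mul_mem h2 (inv_mem hfK)
      have e : u₀⁻¹ * f * u₀ * f⁻¹ = u₀⁻¹ * (f * u₀ * f⁻¹) := by group
      rwa [e] at h3
    refine ⟨cent_in_ker h hR hP h1 ?_, h1⟩
    intro y hy
    -- `y = f y' f⁻¹`
    obtain ⟨y', hy', rfl⟩ : ∃ y' ∈ P ⊓ Ker hR a, y = f * y' * f⁻¹ := by
      have h2 : (P ⊓ Ker hR a).map (MulAut.conj f).toMonoidHom = P ⊓ Ker hR a := by
        apply Subgroup.eq_of_le_of_card_ge
        · rintro _ ⟨z, hz, rfl⟩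
          exact hfn z hz
        · exact (Nat.card_congr ((P ⊓ Ker hR a).equivMapOfInjective _
            (MulEquiv.injective _)).toEquiv).le
      rw [← h2] at hy
      obtain ⟨z, hz, hzy⟩ := hy
      exact ⟨z, hz, hzy.symm⟩
    have e1 : (f * u₀ * f⁻¹) * (f * y' * f⁻¹) = (f * y' * f⁻¹) * (f * u₀ * f⁻¹) := by
      calc (f * u₀ * f⁻¹) * (f * y' * f⁻¹) = f * (u₀ * y') * f⁻¹ := by group
        _ = f * (y' * u₀) * f⁻¹ := by rw [hP.comm _ hu₀ _ hy'.1]
        _ = (f * y' * f⁻¹) * (f * u₀ * f⁻¹) := by group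
    rw [mul_assoc, e1, ← mul_assoc, ← mul_assoc, hP.comm _ (inv_mem hu₀) _ (hfn y' hy').1]
    group
  obtain ⟨s, hs⟩ := hpow _ hk₀
  have hfu₀ : f * u₀ * f⁻¹ = u₀ * X p x (s : ZMod p) := by
    rw [X_natCast hxp, ← hs]
    group
  -- solve `s + T r = r`
  set r : ZMod p := (s : ZMod p) * (1 - (T : ZMod p))⁻¹ with hr
  have hr' : (s : ZMod p) + (T : ZMod p) * r = r := by
    have h1 : (1 - (T : ZMod p)) ≠ 0 := sub_ne_zero.2 (Ne.symm hT1)
    have h2 : r * (1 - (T : ZMod p)) = (s : ZMod p) := by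
      rw [hr, mul_assoc, inv_mul_cancel₀ h1, mul_one]
    rw [← h2]
    ring
  set u := u₀ * X p x r with hu
  have hXP : ∀ i, X p x i ∈ P ⊓ Ker hR a := fun i => ⟨pow_mem hx.1 _, pow_mem hx.2 _⟩
  have huP : u ∈ P := mul_mem hu₀ (hXP r).1
  have huK : u ∉ Ker hR a := by
    intro hc
    apply hu₀K
    have := mul_mem hc (inv_mem (mem_inf.1 (hXP r)).2)
    rwa [hu, mul_inv_cancel_right] at this
  have hfu' : f * u * f⁻¹ = u := by
    calc f * u * f⁻¹ = (f * u₀ * f⁻¹) * (f * X p x r * f⁻¹) := by rw [hu]; group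
      _ = u₀ * (X p x (s : ZMod p) * X p x ((T : ZMod p) * r)) := by
        rw [hfu₀, hfX, mul_assoc]
      _ = u := by rw [← X_add hxp, hr']
  have hfu : f * u = u * f := by
    calc f * u = (f * u * f⁻¹) * f := by group
      _ = u * f := by rw [hfu']
  have hup : u ^ p = 1 := by
    have h1 : u ^ p ∈ P ⊓ Ker hR a := by
      have hidx : ((P ⊓ Ker hR a).subgroupOf P).index = p := by
        have h2 := Subgroup.card_mul_index ((P ⊓ Ker hR a).subgroupOf P)
        rw [Nat.card_congr (subgroupOfEquivOfLe (inf_le_left : P ⊓ Ker hR a ≤ P)).toEquiv, hcard0,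
          hP.card, sq] at h2
        exact Nat.eq_of_mul_eq_mul_left hp.out.pos h2
      haveI : ((P ⊓ Ker hR a).subgroupOf P).Normal := by
        refine ⟨fun n hn g => ?_⟩
        have e : g * n * g⁻¹ = n := by
          apply Subtype.ext
          change g.1 * n.1 * g.1⁻¹ = n.1
          rw [hP.comm _ g.2 _ n.2, mul_inv_cancel_right]
        rw [e]
        exact hn
      have h3 := Subgroup.pow_index_mem ((P ⊓ Ker hR a).subgroupOf P) ⟨u, huP⟩
      rw [hidx] at h3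
      exact mem_subgroupOf.1 h3
    obtain ⟨m, hm⟩ := hpow _ h1
    have h2 : f * u ^ p * f⁻¹ = u ^ p := by rw [← conj_pow, hfu']
    rw [hm, ← X_natCast hxp, hfX] at h2
    have h3 := X_inj hxp hx1 h2
    have h4 : ((T : ZMod p) - 1) * (m : ZMod p) = 0 := by
      rw [sub_mul, h3, one_mul, sub_self]
    rcases mul_eq_zero.1 h4 with h5 | h5
    · exact absurd (sub_eq_zero.1 h5) hT1
    · rw [hm, ← X_natCast hxp, h5, X_zero hxp]
  have D : Dat hR a b P x u f T :=
    { hab := hb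
      hP := hP
      hx := hx.1
      hxK := hx.2
      hx1 := hx1
      hu := huP
      huK := huK
      hup := hup
      hf := hfK
      hfb := hfb
      hfu := hfu
      hT := hT
      hT1 := hT1
      htwo := fun c hc => by
        rcases dichotomy h hR hc with h1 | h1
        · exact absurd h1.1 hns
        · exact h1.2 }
  exact D.contra h

/-- `P ⊓ K` is normal in `G_a`. -/
theorem norm_P0 (h : Hyp G Ω p) {R : Ω → Ω → Ω → Prop} (hR : Sys G p R) {a : Ω}
    {P : Subgroup G} (hP : RegAt p a P) {g : G} (hg : g • a = a) {x : G}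
    (hx : x ∈ P ⊓ Ker hR a) : g * x * g⁻¹ ∈ P ⊓ Ker hR a := by
  obtain ⟨b, hb⟩ := h.exists_ne a
  have hcard0 := card_inf_Ker h hR hP
  rcases dichotomy h hR hb with ⟨-, h1⟩ | ⟨h1, -⟩
  · by_cases hx1 : x = 1
    · rw [hx1, mul_one, mul_inv_cancel]
      exact one_mem _
    have hxp : x ^ p = 1 := by
      have h3 := Subgroup.orderOf_dvd_natCard _ hx
      rw [hcard0] at h3
      exact orderOf_dvd_iff_pow_eq_one.1 h3
    have h2 := Ker_conj hR hx.2 g
    rw [hg] at h2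
    have h3 := h1 x hx.2 _ h2 hxp hx1 (by rw [conj_pow, hxp, mul_one, mul_inv_cancel])
    exact (zpowers_le.2 hx) h3
  · exact absurd (ker_solvable h hR a) h1

end Cfsg.Agent.H15PSq
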