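import Cfsg.Agent.H15PSq.Induct

/-!
# From non-maximal two point stabilizers to block systems (helper15)
-/

set_option autoImplicit false
set_option linter.style.haveILetI false
set_option linter.unusedSectionVars false

namespace Cfsg.Agent.H15PSq

open MulAction Subgroup

universe u v

variable {G : Type u} {Ω : Type v} [Group G] [Finite G] [MulAction G Ω]
variable [Finite Ω] {p : ℕ} [hp : Fact p.Prime]

theorem exists_sys (h : Hyp G Ω p) {a b : Ω} (hab : b ≠ a) {K : Subgroup G}
    (h1 : stabilizer G a ⊓ stabilizer G b < K) (h2 : K < stabilizer G a) :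
    ∃ R : Ω → Ω → Ω → Prop, Sys G p R := by
  have hKa : ∀ k ∈ K, k • a = a := fun k hk => h2.le hk
  have hEK : ∀ e : G, e • a = a → e • b = b → e ∈ K := fun e h3 h4 => h1.le ⟨h3, h4⟩
  -- the orbit of `b` under `K`
  have c1 := card_of_orbit K b {y | ∃ k ∈ K, k • b = y} (fun k hk => ⟨k, hk, rfl⟩) (fun y hy => hy)
  have e1 : (K ⊓ stabilizer G b : Subgroup G) = stabilizer G a ⊓ stabilizer G b := by
    apply le_antisymm
    · exact le_inf (inf_le_left.trans h2.le) inf_le_right
    · exact le_inf h1.le inf_le_right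
  rw [e1] at c1
  have c2 := h.card_stab hab
  have hc : {y | ∃ k ∈ K, k • b = y}.ncard = p := by
    have hpos : 0 < Nat.card (stabilizer G a ⊓ stabilizer G b : Subgroup G) := Nat.card_pos
    have c3 : {y | ∃ k ∈ K, k • b = y}.ncard ∣ p ^ 2 := by
      have c4 := Subgroup.card_dvd_of_le h2.le
      rw [c1, c2] at c4
      exact Nat.dvd_of_mul_dvd_mul_right hpos c4
    obtain ⟨j, hj, hj2⟩ := (Nat.dvd_prime_pow hp.out).1 c3
    rcases j with _ | _ | _ | j
    · exfalso
      rw [pow_zero] at hj2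
      rw [hj2, one_mul] at c1
      apply h1.ne
      exact Subgroup.eq_of_le_of_card_ge h1.le c1.le
    · rw [hj2, zero_add, pow_one]
    · exfalso
      rw [zero_add, one_add_one_eq_two] at hj2
      rw [hj2] at c1
      apply h2.ne
      exact Subgroup.eq_of_le_of_card_ge h2.le (by rw [c1, c2])
    · omega
  have hkey : ∀ (g g' k k' : G), g • a = g' • a → k ∈ K → k' ∈ K → g • k • b = g' • k' • b →
      g'⁻¹ * g ∈ K := by
    intro g g' k k' hg hk hk' hb
    have h3 : k'⁻¹ * (g'⁻¹ * g) * k ∈ K := by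
      apply hEK
      · rw [mul_smul, hKa k hk, mul_smul, mul_smul, hg, inv_smul_smul, inv_smul_eq_iff, hKa k' hk']
      · rw [mul_smul, mul_smul, mul_smul, hb, inv_smul_smul, inv_smul_smul]
    have h4 : g'⁻¹ * g = k' * (k'⁻¹ * (g'⁻¹ * g) * k) * k⁻¹ := by group
    rw [h4]
    exact mul_mem (mul_mem hk' h3) (inv_mem hk)
  refine ⟨fun γ x y => ∃ g : G, g • a = γ ∧ (∃ k ∈ K, g • k • b = x) ∧ ∃ k ∈ K, g • k • b = y,
    ?_⟩
  exact
    { equiv := by
        rintro g _ _ _ ⟨g', rfl, ⟨k, hk, rfl⟩, ⟨k', hk', rfl⟩⟩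
        exact ⟨g * g', mul_smul _ _ _, ⟨k, hk, mul_smul _ _ _⟩, ⟨k', hk', mul_smul _ _ _⟩⟩
      refl := by
        intro γ x hx
        obtain ⟨g, hg1, hg2⟩ := h.two a b γ x hab.symm hx.symm
        exact ⟨g, hg1, ⟨1, one_mem _, by rw [one_smul, hg2]⟩, ⟨1, one_mem _, by rw [one_smul, hg2]⟩⟩
      symm := by
        rintro γ x y ⟨g, hg, h3, h4⟩
        exact ⟨g, hg, h4, h3⟩
      trans := by
        rintro γ x y z ⟨g, hg, h3, ⟨k, hk, hky⟩⟩ ⟨g', hg', ⟨k', hk', hky'⟩, ⟨k'', hk'', hkz⟩⟩
        refine ⟨g, hg, h3, ⟨g⁻¹ * g' * k'', ?_, ?_⟩⟩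
        · have h5 := hkey g' g k' k (by rw [hg, hg']) hk' hk (by rw [hky, hky'])
          exact mul_mem h5 hk''
        · rw [mul_smul, mul_smul, smul_inv_smul, hkz]
      ne := by
        rintro _ _ y ⟨g, rfl, ⟨k, hk, rfl⟩, -⟩ hc
        have h3 := smul_left_cancel g hc
        exact smul_ne (hKa k hk) hab h3
      card := by
        intro γ x hx
        obtain ⟨g, hg1, hg2⟩ := h.two a b γ x hab.symm hx.symm
        have e2 : {y | ∃ g : G, g • a = γ ∧ (∃ k ∈ K, g • k • b = x) ∧ ∃ k ∈ K, g • k • b = y} =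
            (g • ·) '' {y | ∃ k ∈ K, k • b = y} := by
          ext y
          constructor
          · rintro ⟨g', hg', ⟨k, hk, hkx⟩, ⟨k', hk', hky⟩⟩
            refine ⟨g⁻¹ • y, ⟨g⁻¹ * g' * k', ?_, ?_⟩, smul_inv_smul _ _⟩
            · have h5 := hkey g' g k 1 (by rw [hg1, hg']) hk (one_mem _)
                (by rw [hkx, one_smul, hg2])
              exact mul_mem h5 hk'
            · rw [mul_smul, mul_smul, hky]
          · rintro ⟨_, ⟨k, hk, rfl⟩, rfl⟩
            exact ⟨g, hg1, ⟨1, one_mem _, by rw [one_smul, hg2]⟩, ⟨k, hk, rfl⟩⟩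
        rw [e2, Set.ncard_image_of_injective _ (MulAction.injective g), hc] }

theorem prim_or (h : Hyp G Ω p) (hno : ∀ R : Ω → Ω → Ω → Prop, ¬ Sys G p R) (a : Ω) :
    IsPreprimitive (stabilizer G a) (SubMulAction.ofStabilizer G a) := by
  have htr : ∀ x y : SubMulAction.ofStabilizer G a, ∃ g : stabilizer G a, g • x = y := by
    rintro ⟨x, hx⟩ ⟨y, hy⟩
    rw [SubMulAction.mem_ofStabilizer_iff] at hx hy
    obtain ⟨g, hg1, hg2⟩ := h.two a x a y hx.symm hy.symm
    exact ⟨⟨g, hg1⟩, Subtype.ext hg2⟩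
  haveI : IsPretransitive (stabilizer G a) (SubMulAction.ofStabilizer G a) := ⟨htr⟩
  haveI : Nontrivial (SubMulAction.ofStabilizer G a) := by
    have h1 : Nat.card (SubMulAction.ofStabilizer G a) = p ^ 2 := by
      rw [SubMulAction.nat_card_ofStabilizer_eq, h.card, Nat.add_sub_cancel]
    haveI : Finite (SubMulAction.ofStabilizer G a) := inferInstance
    rw [← Finite.one_lt_card_iff_nontrivial, h1]
    exact Nat.one_lt_pow two_ne_zero hp.out.one_lt
  obtain ⟨⟨b, hb⟩, ⟨c, hc⟩, hbc⟩ := exists_pair_ne (SubMulAction.ofStabilizer G a)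
  have hb' : b ≠ a := hb
  rw [← isCoatom_stabilizer_iff_preprimitive (stabilizer G a)
    (⟨b, hb⟩ : SubMulAction.ofStabilizer G a)]
  have hmem : ∀ g : stabilizer G a,
      g ∈ stabilizer (stabilizer G a) (⟨b, hb⟩ : SubMulAction.ofStabilizer G a) ↔ g.1 • b = b := by
    intro g
    rw [mem_stabilizer_iff]
    constructor
    · intro h1
      exact congrArg Subtype.val h1
    · intro h1
      exact Subtype.ext h1
  constructor
  · intro htop
    obtain ⟨g, hg⟩ := htr ⟨b, hb⟩ ⟨c, hc⟩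
    have h1 : g ∈ stabilizer (stabilizer G a) (⟨b, hb⟩ : SubMulAction.ofStabilizer G a) :=
      htop ▸ mem_top g
    rw [mem_stabilizer_iff, hg] at h1
    exact hbc h1.symm
  · intro K hK
    by_contra hKt
    have h2 : stabilizer G a ⊓ stabilizer G b < K.map (stabilizer G a).subtype := by
      refine lt_of_le_of_ne ?_ ?_
      · rintro g ⟨hga, hgb⟩
        exact ⟨⟨g, hga⟩, hK.le ((hmem _).2 hgb), rfl⟩
      · intro hc
        apply hK.ne
        apply le_antisymm hK.le
        intro k hk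
        rw [hmem]
        have h3 : k.1 ∈ stabilizer G a ⊓ stabilizer G b := by
          rw [hc]
          exact ⟨k, hk, rfl⟩
        exact h3.2
    have h3 : K.map (stabilizer G a).subtype < stabilizer G a := by
      refine lt_of_le_of_ne ?_ ?_
      · rintro _ ⟨k, -, rfl⟩
        exact k.2
      · intro hc
        apply hKt
        rw [eq_top_iff]
        intro g _
        have h4 : g.1 ∈ K.map (stabilizer G a).subtype := by
          rw [hc]
          exact g.2
        obtain ⟨k, hk, hkg⟩ := h4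
        have : k = g := Subtype.ext hkg
        rw [← this]
        exact hk
    obtain ⟨R, hR⟩ := exists_sys h hb' h2 h3
    exact hno R hR

end Cfsg.Agent.H15PSq
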