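import Cfsg.Agent.H15PSq.Simple2

/-!
# The induction (helper15)
-/

set_option autoImplicit false
set_option linter.style.haveILetI false
set_option linter.unusedSectionVars false

namespace Cfsg.Agent.H15PSq

open MulAction Subgroup

universe u v

variable {G : Type u} {Ω : Type v} [Group G] [Finite G] [MulAction G Ω]
variable [Finite Ω] {p : ℕ} [hp : Fact p.Prime]

/-- normal subgroups of doubly transitive groups are transitive. -/
theorem normal_trans [FaithfulSMul G Ω] (h : Hyp G Ω p) {N : Subgroup G} (hN : N.Normal)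
    {n : G} (hn : n ∈ N) (hn1 : n ≠ 1) (c d : Ω) : ∃ n ∈ N, n • c = d := by
  by_cases hcd : c = d
  · exact ⟨1, one_mem _, by rw [one_smul, hcd]⟩
  · have h1 : ∃ z : Ω, n • z ≠ z := by
      by_contra hcon
      push Not at hcon
      exact hn1 (eq_one_of_fix_all (Ω := Ω) hcon)
    obtain ⟨z, hz⟩ := h1
    obtain ⟨g, hg1, hg2⟩ := h.two z (n • z) c d (Ne.symm hz) hcd
    refine ⟨g * n * g⁻¹, hN.conj_mem n hn g, ?_⟩
    rw [mul_smul, mul_smul, ← hg1, inv_smul_smul, hg2]

theorem two_of (h : Hyp G Ω p) {a : Ω} {P : Subgroup G} (hP : RegAt p a P) {H : Subgroup G}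
    (hPH : P ≤ H) (ht : ∀ c d : Ω, ∃ n ∈ H, n • c = d) : Hyp H Ω p := by
  obtain ⟨b, hb⟩ := h.exists_ne a
  have key : ∀ c d : Ω, c ≠ d → ∃ k ∈ H, k • a = c ∧ k • b = d := by
    intro c d hcd
    obtain ⟨k₁, hk₁, hk₁'⟩ := ht a c
    have h1 : k₁⁻¹ • d ≠ a := by
      intro hc
      apply hcd
      rw [inv_smul_eq_iff] at hc
      rw [← hk₁', hc]
    obtain ⟨y, hy, hyb⟩ := hP.trans b _ hb h1
    refine ⟨k₁ * y, mul_mem hk₁ (hPH hy), ?_, ?_⟩
    · rw [mul_smul, hP.le y hy, hk₁']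
    · rw [mul_smul, hyb, smul_inv_smul]
  refine ⟨h.card, ?_⟩
  intro c d c' d' hcd hcd'
  obtain ⟨k, hk, hk1, hk2⟩ := key c d hcd
  obtain ⟨k', hk', hk1', hk2'⟩ := key c' d' hcd'
  refine ⟨⟨k' * k⁻¹, mul_mem hk' (inv_mem hk)⟩, ?_, ?_⟩
  · change (k' * k⁻¹) • c = c'
    rw [mul_smul, ← hk1, inv_smul_smul, hk1']
  · change (k' * k⁻¹) • d = d'
    rw [mul_smul, ← hk2, inv_smul_smul, hk2']

theorem sys_sub {R : Ω → Ω → Ω → Prop} (hR : Sys G p R) (H : Subgroup G) : Sys H p R where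
  equiv := fun g a x y hxy => hR.equiv g.1 a x y hxy
  refl := hR.refl
  symm := hR.symm
  trans := hR.trans
  ne := hR.ne
  card := hR.card

theorem exists_CA [FaithfulSMul G Ω] (h : Hyp G Ω p) {R : Ω → Ω → Ω → Prop} (hR : Sys G p R) :
    ∃ (a b : Ω) (P : Subgroup G) (x s : G), CA G p R a b P x s := by
  have hne : Nonempty Ω := by
    have : 0 < Nat.card Ω := by rw [h.card]; omega
    exact (Nat.card_pos_iff.1 this).1
  obtain ⟨a⟩ := hne
  obtain ⟨b, hb⟩ := h.exists_ne a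
  obtain ⟨P, hP, -⟩ := exists_reg h hR a
  have hcard := card_inf_Ker h hR hP
  have h1 : ∃ x ∈ (P ⊓ Ker hR a : Subgroup G), x ≠ 1 := by
    by_contra hcon
    push Not at hcon
    have h2 : (P ⊓ Ker hR a : Subgroup G) = ⊥ := by
      rw [eq_bot_iff]
      intro x hx
      exact mem_bot.2 (hcon x hx)
    rw [h2, Subgroup.card_bot] at hcard
    exact hp.out.one_lt.ne hcard
  obtain ⟨x, hx, hx1⟩ := h1
  have hxp : x ^ p = 1 := by
    have h3 := Subgroup.orderOf_dvd_natCard _ hx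
    rw [hcard] at h3
    exact orderOf_dvd_iff_pow_eq_one.1 h3
  obtain ⟨s, hs1, hs2⟩ := h.two a b b a hb.symm hb
  refine ⟨a, b, P, x, s, ⟨h, hR, hb, hP, hx.1, hxp, hx1, ?_, hs1, hs2⟩⟩
  intro g hg
  have h2 := norm_P0 h hR hP hg hx
  have h3 : zpowers x = (P ⊓ Ker hR a : Subgroup G) := by
    apply Subgroup.eq_of_le_of_card_ge
    · rw [zpowers_le]
      exact hx
    · rw [hcard, Nat.card_zpowers, orderOf_eq_prime hxp hx1]
  rw [h3]
  exact h2

namespace CA

variable [FaithfulSMul G Ω]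

variable {R : Ω → Ω → Ω → Prop} {a b : Ω} {P : Subgroup G} {x s : G}

variable (D : CA G p R a b P x s)

include D

/-- the case `p = 2`. -/
theorem card_of_two (h2 : p = 2) : Nat.card G = 20 := by
  subst h2
  have h1 : (stabilizer G a ⊓ stabilizer G b : Subgroup G) ≤
      centralizer ({x} : Set G) ⊓ stabilizer G b := by
    rintro g ⟨hga, hgb⟩
    refine ⟨?_, hgb⟩
    change g ∈ centralizer ({x} : Set G)
    rw [mem_centralizer_iff]
    intro x' hx'
    rw [Set.mem_singleton_iff] at hx'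
    rw [hx']
    obtain ⟨k, hk⟩ := D.norm g hga
    have hk' : x ^ k = g * x * g⁻¹ := hk
    have hx2 : x * x = 1 := by rw [← pow_two, D.hxp]
    have h3 : g * x * g⁻¹ = x := by
      rcases Int.even_or_odd k with ⟨j, hj⟩ | ⟨j, hj⟩
      · exfalso
        apply D.hx1
        rw [hj, zpow_add, ← (Commute.refl x).mul_zpow, hx2, one_zpow] at hk'
        have := congrArg (fun t => g⁻¹ * t * g) hk'
        simpa [mul_assoc] using this.symm
      · rw [← hk', hj, zpow_add, zpow_one, two_mul, zpow_add, ← (Commute.refl x).mul_zpow, hx2,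
          one_zpow, one_mul]
    rw [mul_inv_eq_iff_eq_mul] at h3
    exact h3.symm
  have h3 := D.card_cent
  have h4 : Nat.card (stabilizer G a ⊓ stabilizer G b : Subgroup G) ≤ 1 :=
    (Nat.le_of_dvd Nat.card_pos (Subgroup.card_dvd_of_le h1)).trans h3
  have h5 : Nat.card (stabilizer G a ⊓ stabilizer G b : Subgroup G) = 1 :=
    le_antisymm h4 Nat.card_pos
  rw [D.h.card_group a, D.h.card_stab D.hab, h5]
  norm_num

/-- the case of a trivial two point stabilizer. -/
theorem no_E (hodd : p ≠ 2) (hE : ∀ e : G, e • a = a → e • b = b → e = 1) : False := by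
  classical
  haveI : Fintype Ω := Fintype.ofFinite Ω
  haveI : Fact (Nat.Prime 2) := ⟨Nat.prime_two⟩
  -- an involution has no fixed points
  have hfpf : ∀ t : G, t * t = 1 → t ≠ 1 → ∀ z : Ω, t • z ≠ z := by
    intro t ht ht1 c hc
    obtain ⟨d, hd, htd⟩ := exists_fix_two D.h hodd ht hc
    obtain ⟨g, hg1, hg2⟩ := D.h.two c d a b hd.symm D.hab.symm
    apply ht1
    have h1 : g * t * g⁻¹ = 1 := by
      apply hE
      · rw [mul_smul, mul_smul, ← hg1, inv_smul_smul, hc]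
      · rw [mul_smul, mul_smul, ← hg2, inv_smul_smul, htd]
    have : t = g⁻¹ * (g * t * g⁻¹) * g := by group
    rw [this, h1]
    group
  let f : G →* ℤˣ := (Equiv.Perm.sign (α := Ω)).comp (MulAction.toPermHom G Ω)
  have hfx : f x = 1 := by
    obtain ⟨m, hm⟩ := hp.out.odd_of_ne_two hodd
    have h1 : f x ^ p = 1 := by rw [← map_pow, D.hxp, map_one]
    rw [hm, pow_succ, pow_mul, Int.units_sq, one_pow, one_mul] at h1
    exact h1
  have hA : f.ker.Normal := inferInstance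
  have htr := fun c d : Ω => normal_trans D.h hA (show x ∈ f.ker from hfx) D.hx1 c d
  have c1 := card_of_orbit f.ker a Set.univ (fun _ _ => trivial) (fun y _ => htr a y)
  rw [Set.ncard_univ, D.h.card] at c1
  obtain ⟨m, hm⟩ := hp.out.odd_of_ne_two hodd
  have h2 : 2 ∣ Nat.card f.ker := by
    rw [c1]
    apply dvd_mul_of_dvd_left
    rw [hm]
    exact ⟨2 * (m ^ 2 + m) + 1, by ring⟩
  obtain ⟨t, ht⟩ := exists_prime_orderOf_dvd_card' 2 h2
  have ht' : orderOf t.1 = 2 := by rw [Subgroup.orderOf_coe, ht]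
  have ht2 : t.1 * t.1 = 1 := by rw [← pow_two, ← ht', pow_orderOf_eq_one]
  have ht1 : t.1 ≠ 1 := by
    intro hc
    rw [hc, orderOf_one] at ht'
    norm_num at ht'
  have h4 := sign_fpf D.h hodd ht2 (hfpf t.1 ht2 ht1)
  have h5 : f t.1 = 1 := t.2
  change Equiv.Perm.sign (MulAction.toPermHom G Ω t.1) = 1 at h5
  rw [h4] at h5
  exact absurd h5 (by decide)

/-- a normal subgroup meets `P` non trivially. -/
theorem inf_ne (hodd : p ≠ 2) {N : Subgroup G} (hN : N.Normal) {n : G} (hn : n ∈ N)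
    (hn1 : n ≠ 1) (hNP : ∀ y ∈ P, y ∈ N → y = 1) : False := by
  have hNa : ∀ c ∈ N, c • a = a → c = 1 := by
    intro c hc hca
    have h1 : ∀ y ∈ P, y * c = c * y := by
      intro y hy
      have h2 : y * c * y⁻¹ * c⁻¹ = 1 := by
        apply hNP
        · have h3 : y * (c * y⁻¹ * c⁻¹) ∈ P := mul_mem hy (D.P_norm hca (inv_mem hy))
          have h4 : y * c * y⁻¹ * c⁻¹ = y * (c * y⁻¹ * c⁻¹) := by group
          rw [h4]
          exact h3
        · exact mul_mem (hN.conj_mem c hc y) (inv_mem hc)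
      have h5 : y * c = (y * c * y⁻¹ * c⁻¹) * (c * y) := by group
      rw [h5, h2, one_mul]
    obtain ⟨y, hy, e, he1, he2, hce⟩ := D.decomp hca
    have he : e = 1 := by
      apply eq_one_of_fix_all (Ω := Ω)
      intro z
      by_cases hz : z = a
      · rw [hz, he1]
      · obtain ⟨w, hw, rfl⟩ := D.hP.trans b z D.hab hz
        have h6 : e = y⁻¹ * c := by rw [hce]; group
        have h7 : e * w = w * e := by
          rw [h6, mul_assoc, ← h1 w hw, ← mul_assoc, D.hP.comm _ (inv_mem hy) w hw, mul_assoc]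
        rw [smul_smul, h7, mul_smul, he2]
    rw [he, mul_one] at hce
    rw [hce]
    rw [hce] at hc
    exact hNP y hy hc
  -- all non identity elements of `N` are conjugate
  have hconj : ∀ n₁ ∈ N, ∀ n₂ ∈ N, n₁ ≠ 1 → n₂ ≠ 1 → ∃ g : G, g * n₁ * g⁻¹ = n₂ := by
    intro n₁ h₁ n₂ h₂ h₁' h₂'
    have e1 : n₁ • a ≠ a := fun hc => h₁' (hNa n₁ h₁ hc)
    have e2 : n₂ • a ≠ a := fun hc => h₂' (hNa n₂ h₂ hc)
    obtain ⟨g, hg1, hg2⟩ := D.h.two a (n₁ • a) a (n₂ • a) e1.symm e2.symm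
    refine ⟨g, ?_⟩
    have h3 : n₂⁻¹ * (g * n₁ * g⁻¹) = 1 := by
      apply hNa _ (mul_mem (inv_mem h₂) (hN.conj_mem n₁ h₁ g))
      have h4 : g⁻¹ • a = a := by rw [inv_smul_eq_iff, hg1]
      rw [mul_smul, mul_smul, mul_smul, h4, hg2, inv_smul_smul]
    rw [inv_mul_eq_one] at h3
    exact h3.symm
  have htr := fun c d : Ω => normal_trans D.h hN hn hn1 c d
  have c1 := card_of_orbit N a Set.univ (fun _ _ => trivial) (fun y _ => htr a y)
  have c2 : Nat.card (N ⊓ stabilizer G a : Subgroup G) = 1 := by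
    rw [Subgroup.card_eq_one, eq_bot_iff]
    rintro k ⟨hk1, hk2⟩
    exact mem_bot.2 (hNa k hk1 hk2)
  rw [Set.ncard_univ, D.h.card, c2, mul_one] at c1
  haveI : Fact (Nat.Prime 2) := ⟨Nat.prime_two⟩
  obtain ⟨m, hm⟩ := hp.out.odd_of_ne_two hodd
  have h2 : 2 ∣ Nat.card N := by
    rw [c1, hm]
    exact ⟨2 * (m ^ 2 + m) + 1, by ring⟩
  obtain ⟨t, ht⟩ := exists_prime_orderOf_dvd_card' 2 h2
  have ht' : orderOf t.1 = 2 := by rw [Subgroup.orderOf_coe, ht]
  have ht2 : t.1 * t.1 = 1 := by rw [← pow_two, ← ht', pow_orderOf_eq_one]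
  have ht1 : t.1 ≠ 1 := by
    intro hc
    rw [hc, orderOf_one] at ht'
    norm_num at ht'
  have h3 : IsPGroup 2 N := by
    intro w
    refine ⟨1, ?_⟩
    by_cases hw : w = 1
    · rw [hw, one_pow]
    · obtain ⟨g, hg⟩ := hconj t.1 t.2 w.1 w.2 ht1 (fun hc => hw (Subtype.ext hc))
      apply Subtype.ext
      change w.1 ^ 2 ^ 1 = 1
      rw [← hg, pow_one, conj_pow, pow_two, ht2, mul_one, mul_inv_cancel]
  obtain ⟨k, hk⟩ := (IsPGroup.iff_card (p := 2) (G := N)).1 h3
  rw [c1] at hk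
  have hp3 : 3 ≤ p := by
    have := hp.out.two_le
    omega
  rcases k with _ | _ | k
  · rw [pow_zero] at hk
    have : 0 < p ^ 2 := by positivity
    omega
  · rw [zero_add, pow_one] at hk
    have : 1 < p ^ 2 := by nlinarith
    omega
  · rw [hm, pow_add] at hk
    have h5 : (2 * m + 1) ^ 2 + 1 = 4 * (m ^ 2 + m) + 2 := by ring
    rw [h5] at hk
    omega

/-- a `G_a`-invariant element of `P` outside of a subgroup `Q` of `P` with `[G_ab, P] ≤ Q`. -/
theorem exists_central (Q : Subgroup G) (hQ : ∃ y ∈ P, y ∉ Q)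
    (hQe : ∀ e y, e • a = a → e • b = b → y ∈ P → e * y * e⁻¹ * y⁻¹ ∈ Q) :
    ∃ w ∈ P, w ≠ 1 ∧ ∀ g : G, g • a = a → g * w = w * g := by
  classical
  obtain ⟨y, hy, hyQ⟩ := hQ
  haveI : Fintype (stabilizer G a ⊓ stabilizer G b : Subgroup G) := Fintype.ofFinite _
  letI : CommGroup P :=
    { (inferInstance : Group P) with
      mul_comm := fun u v => Subtype.ext (D.hP.comm u u.2 v v.2) }
  let φ (g : G) (hg : g • a = a) : P →* P :=
    { toFun := fun u => ⟨g * u * g⁻¹, D.P_norm hg u.2⟩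
      map_one' := Subtype.ext (by simp)
      map_mul' := fun u v => Subtype.ext (by
        change g * (u.1 * v.1) * g⁻¹ = (g * u.1 * g⁻¹) * (g * v.1 * g⁻¹)
        group) }
  let f (e : (stabilizer G a ⊓ stabilizer G b : Subgroup G)) : P :=
    ⟨e.1 * y * e.1⁻¹, D.P_norm e.2.1 hy⟩
  let w : P := ∏ e, f e
  have hw1 : ∀ k : (stabilizer G a ⊓ stabilizer G b : Subgroup G), φ k.1 k.2.1 w = w := by
    intro k
    change φ k.1 k.2.1 (∏ e, f e) = ∏ e, f e
    rw [map_prod]
    apply Fintype.prod_equiv (Equiv.mulLeft k)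
    intro e
    apply Subtype.ext
    change k.1 * (e.1 * y * e.1⁻¹) * k.1⁻¹ = (k.1 * e.1) * y * (k.1 * e.1)⁻¹
    group
  have hw2 : (∏ e : (stabilizer G a ⊓ stabilizer G b : Subgroup G), (f e * (⟨y, hy⟩ : P)⁻¹)) ∈
      Q.subgroupOf P := by
    apply Subgroup.prod_mem
    intro e _
    exact mem_subgroupOf.2 (hQe e.1 y e.2.1 e.2.2 hy)
  rw [Finset.prod_mul_distrib, Finset.prod_const, Finset.card_univ] at hw2
  refine ⟨w.1, w.2, ?_, ?_⟩
  · intro hc
    have hc' : w = 1 := Subtype.ext hc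
    change w * _ ∈ _ at hw2
    rw [hc', one_mul, inv_pow] at hw2
    have h1 : y ^ Fintype.card (stabilizer G a ⊓ stabilizer G b : Subgroup G) ∈ Q := by
      have := mem_subgroupOf.1 (inv_mem hw2)
      simpa using this
    apply hyQ
    have h2 : Nat.Coprime (Fintype.card (stabilizer G a ⊓ stabilizer G b : Subgroup G))
        (orderOf y) := by
      have h3 : orderOf y ∣ p ^ 2 := by
        rw [← D.hP.card]
        exact Subgroup.orderOf_dvd_natCard _ hy
      refine Nat.Coprime.coprime_dvd_right h3 ?_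
      apply Nat.Coprime.pow_right
      rw [Nat.coprime_comm, Nat.Prime.coprime_iff_not_dvd hp.out, ← Nat.card_eq_fintype_card]
      exact not_dvd_card D.h D.hR D.hab
    obtain ⟨m, hm⟩ := exists_pow_eq_self_of_coprime h2
    rw [← hm]
    exact pow_mem h1 m
  · intro g hg
    obtain ⟨z, hz, e, he1, he2, rfl⟩ := D.decomp hg
    have h1 : e * w.1 * e⁻¹ = w.1 := congrArg Subtype.val (hw1 ⟨e, he1, he2⟩)
    rw [mul_inv_eq_iff_eq_mul] at h1
    rw [mul_assoc, h1, ← mul_assoc, D.hP.comm z hz w.1 w.2, mul_assoc]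

theorem step (hodd : p ≠ 2) (IH : ∀ H : Subgroup G, H ≠ ⊤ → ¬ Hyp H Ω p) : False := by
  classical
  by_cases hsimp : ∀ N : Subgroup G, N.Normal → N = ⊥ ∨ N = ⊤
  · haveI : Nontrivial G := ⟨⟨x, 1, D.hx1⟩⟩
    haveI : IsSimpleGroup G := { eq_bot_or_eq_top_of_normal := hsimp }
    exact D.no_simple hodd
  push Not at hsimp
  obtain ⟨N, hN, hN1, hN2⟩ := hsimp
  obtain ⟨n, hn, hn1⟩ : ∃ n ∈ N, n ≠ 1 := by
    by_contra hcon
    push Not at hcon
    exact hN1 ((Subgroup.eq_bot_iff_forall N).2 hcon)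
  have htr := fun c d : Ω => normal_trans D.h hN hn hn1 c d
  have h1 : ¬ P ≤ N := fun hc => IH N hN2 (two_of D.h D.hP hc htr)
  have h2 : N ⊔ P = ⊤ := by
    by_contra hc
    apply IH _ hc (two_of D.h D.hP le_sup_right ?_)
    intro c d
    obtain ⟨k, hk, hk'⟩ := htr c d
    exact ⟨k, (le_sup_left : N ≤ N ⊔ P) hk, hk'⟩
  -- the two point stabilizer lies in `N`
  have h3 : ∀ e : G, e • a = a → e • b = b → e ∈ N := by
    intro e hea heb
    have h4 : e ^ p ^ 2 ∈ N := by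
      have h5 : ∀ g : G, ∃ y ∈ P, QuotientGroup.mk' N g = QuotientGroup.mk' N y := by
        intro g
        have h6 : g ∈ N ⊔ P := h2 ▸ mem_top g
        rw [← SetLike.mem_coe, Subgroup.normal_mul] at h6
        obtain ⟨k, hk, y, hy, rfl⟩ := h6
        refine ⟨y, hy, ?_⟩
        have h7 : QuotientGroup.mk' N k = 1 := (QuotientGroup.eq_one_iff _).2 hk
        change QuotientGroup.mk' N (k * y) = _
        rw [map_mul, h7, one_mul]
      obtain ⟨y, hy, hye⟩ := h5 e
      have h8 : y ^ p ^ 2 = 1 := by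
        have h9 := Subgroup.orderOf_dvd_natCard _ hy
        rw [D.hP.card] at h9
        exact orderOf_dvd_iff_pow_eq_one.1 h9
      have h10 : QuotientGroup.mk' N (e ^ p ^ 2) = 1 := by
        rw [map_pow, hye, ← map_pow, h8, map_one]
      exact (QuotientGroup.eq_one_iff _).1 h10
    have h5 : Nat.Coprime (p ^ 2) (orderOf e) := by
      apply Nat.Coprime.pow_left
      rw [Nat.Prime.coprime_iff_not_dvd hp.out]
      intro hd
      exact not_dvd_card D.h D.hR D.hab (hd.trans (Subgroup.orderOf_dvd_natCard _ ⟨hea, heb⟩))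
    obtain ⟨m, hm⟩ := exists_pow_eq_self_of_coprime h5
    rw [← hm]
    exact pow_mem h4 m
  obtain ⟨w, hw, hw1, hwc⟩ := D.exists_central N (by
    by_contra hcon
    push Not at hcon
    exact h1 hcon) (by
    intro e y hea heb hy
    have h4 := h3 e hea heb
    have h5 := mul_mem h4 (hN.conj_mem _ (inv_mem h4) y)
    have h6 : e * y * e⁻¹ * y⁻¹ = e * (y * e⁻¹ * y⁻¹) := by group
    rw [h6]
    exact h5)
  apply D.no_E hodd
  intro e hea heb
  let U₀ : Subgroup G := stabilizer G a ⊓ centralizer (stabilizer G a : Set G)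
  have hU : ∀ u, u ∈ U₀ ↔ u • a = a ∧ ∀ g : G, g • a = a → g * u = u * g := by
    intro u
    change u ∈ stabilizer G a ⊓ centralizer (stabilizer G a : Set G) ↔ _
    rw [mem_inf, mem_centralizer_iff]
    exact Iff.rfl
  apply cent2 D.h D.hR D.hab (U₀ := U₀) _ (fun u hu => ((hU u).1 hu).1) _ D.hsa e
  · intro u hu
    exact (((hU u).1 hu).2 e hea).symm
  · intro u hu
    have h4 : (s⁻¹ * e * s) • a = a := by
      rw [mul_smul, mul_smul, D.hsa, heb, inv_smul_eq_iff, D.hsa]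
    have h5 := ((hU u).1 hu).2 _ h4
    calc (s * u * s⁻¹) * e = s * (u * (s⁻¹ * e * s)) * s⁻¹ := by group
      _ = s * ((s⁻¹ * e * s) * u) * s⁻¹ := by rw [h5]
      _ = e * (s * u * s⁻¹) := by group
  · intro g hg u hu
    rw [hU] at hu ⊢
    have h4 : g * u * g⁻¹ = u := by rw [hu.2 g hg, mul_inv_cancel_right]
    rw [h4]
    exact hu
  · refine ⟨w, (hU w).2 ⟨D.hP.le w hw, hwc⟩, 2, ?_, hw1⟩
    have h9 := Subgroup.orderOf_dvd_natCard _ hw
    rw [D.hP.card] at h9
    exact orderOf_dvd_iff_pow_eq_one.1 h9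

end CA

theorem no_odd (hodd : p ≠ 2) (R : Ω → Ω → Ω → Prop) : ∀ (n : ℕ) (G : Type u) [Group G] [Finite G]
    [MulAction G Ω] [FaithfulSMul G Ω], Nat.card G = n → Hyp G Ω p → Sys G p R → False := by
  intro n
  induction n using Nat.strong_induction_on with
  | _ n ih =>
    intro G _ _ _ _ hn h hR
    obtain ⟨a, b, P, x, s, D⟩ := exists_CA h hR
    apply D.step hodd
    intro H hH hyp
    refine ih (Nat.card H) ?_ H rfl hyp (sys_sub hR H)
    rw [← hn]
    apply lt_of_le_of_ne (Subgroup.card_le_card_group H)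
    intro hc
    exact hH (Subgroup.eq_top_of_card_eq H hc)

end Cfsg.Agent.H15PSq
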