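import Cfsg.Agent.H15PSq.Reg

/-!
# The kernel on the blocks, the line lemma (helper15)
-/

set_option autoImplicit false
set_option linter.style.haveILetI false
set_option linter.unusedSectionVars false

namespace Cfsg.Agent.H15PSq

open MulAction Subgroup

universe u v

variable {G : Type u} {Ω : Type v} [Group G] [Finite G] [MulAction G Ω]
variable [Finite Ω] {p : ℕ} [hp : Fact p.Prime]

theorem smul_ne {a x : Ω} {g : G} (hga : g • a = a) (hx : x ≠ a) : g • x ≠ a := by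
  intro hc
  apply hx
  have h2 : g • x = g • a := by rw [hc, hga]
  exact smul_left_cancel g h2

/-- a regular abelian subgroup of order `p^2` of `G_a`. -/
structure RegAt (p : ℕ) (a : Ω) (P : Subgroup G) : Prop where
  le : ∀ g ∈ P, g • a = a
  card : Nat.card P = p ^ 2
  comm : ∀ x ∈ P, ∀ y ∈ P, x * y = y * x
  trans : ∀ x y : Ω, x ≠ a → y ≠ a → ∃ g ∈ P, g • x = y
  free : ∀ g ∈ P, ∀ x : Ω, x ≠ a → g • x = x → g = 1

section faithful

variable [FaithfulSMul G Ω]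

theorem exists_reg (h : Hyp G Ω p) {R : Ω → Ω → Ω → Prop} (hR : Sys G p R) (a : Ω) :
    ∃ P : Subgroup G, RegAt p a P ∧ SylAt p a P := by
  obtain ⟨P, hP⟩ := exists_sylAt (G := G) (p := p) a
  have key : ∀ x, x ≠ a → Nat.card (P ⊓ stabilizer G x : Subgroup G) = 1 := by
    intro x hx
    rw [(hP.trans h hx).2]
    have := not_dvd_card h hR hx
    rw [Nat.factorization_eq_zero_of_not_dvd this, pow_zero]
  have hfree : ∀ g ∈ P, ∀ x : Ω, x ≠ a → g • x = x → g = 1 := by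
    intro g hg x hx hgx
    have h1 := key x hx
    rw [Subgroup.card_eq_one] at h1
    have h2 : g ∈ (P ⊓ stabilizer G x : Subgroup G) := ⟨hg, hgx⟩
    rw [h1] at h2
    exact mem_bot.1 h2
  obtain ⟨b, hb⟩ := h.exists_ne a
  have hcard : Nat.card P = p ^ 2 := by
    rw [hP.card, factorization_stab h hb,
      Nat.factorization_eq_zero_of_not_dvd (not_dvd_card h hR hb)]
  refine ⟨P, ⟨fun g hg => hP.le hg, hcard, ?_, ?_, hfree⟩, hP⟩
  · intro x hx y hy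
    have := IsPGroup.commutative_of_card_eq_prime_sq hcard ⟨x, hx⟩ ⟨y, hy⟩
    exact congrArg Subtype.val this
  · intro x y hx hy
    exact (hP.trans h hx).1 y hy

theorem pelt (h : Hyp G Ω p) {R : Ω → Ω → Ω → Prop} (hR : Sys G p R) {g : G} {k : ℕ}
    (hg : g ^ p ^ k = 1) {a b : Ω} (hab : b ≠ a) (ha : g • a = a) (hb : g • b = b) : g = 1 := by
  have h1 := not_dvd_card h hR hab
  have h2 : g ∈ (stabilizer G a ⊓ stabilizer G b : Subgroup G) := ⟨ha, hb⟩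
  have h3 : orderOf g ∣ Nat.card (stabilizer G a ⊓ stabilizer G b : Subgroup G) :=
    Subgroup.orderOf_dvd_natCard _ h2
  have h4 : orderOf g ∣ p ^ k := orderOf_dvd_of_pow_eq_one hg
  have h5 : Nat.Coprime (p ^ k) (Nat.card (stabilizer G a ⊓ stabilizer G b : Subgroup G)) :=
    Nat.Coprime.pow_left _ ((Nat.Prime.coprime_iff_not_dvd hp.out).2 h1)
  exact orderOf_eq_one_iff.1 (Nat.dvd_one.1 (h5 ▸ Nat.dvd_gcd h4 h3))

end faithful

/-- the kernel of `G_a` on the blocks. -/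
def Ker {R : Ω → Ω → Ω → Prop} (hR : Sys G p R) (a : Ω) : Subgroup G where
  carrier := {g | g • a = a ∧ ∀ x, x ≠ a → R a x (g • x)}
  one_mem' := ⟨one_smul _ _, fun x hx => by rw [one_smul]; exact hR.refl a x hx⟩
  mul_mem' := fun {g₁ g₂} h₁ h₂ => ⟨by rw [mul_smul, h₂.1, h₁.1], fun x hx => by
    rw [mul_smul]
    exact hR.trans _ _ _ _ (h₂.2 x hx) (h₁.2 _ (smul_ne h₂.1 hx))⟩
  inv_mem' := fun {g} hg => by
    have h1 : g⁻¹ • a = a := by rw [inv_smul_eq_iff, hg.1]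
    refine ⟨h1, fun x hx => ?_⟩
    have := hg.2 (g⁻¹ • x) (smul_ne h1 hx)
    rw [smul_inv_smul] at this
    exact hR.symm _ _ _ this

theorem mem_Ker {R : Ω → Ω → Ω → Prop} (hR : Sys G p R) {a : Ω} {g : G} :
    g ∈ Ker hR a ↔ g • a = a ∧ ∀ x, x ≠ a → R a x (g • x) := Iff.rfl

theorem Ker_conj {R : Ω → Ω → Ω → Prop} (hR : Sys G p R) {a : Ω} {k : G} (hk : k ∈ Ker hR a)
    (g : G) : g * k * g⁻¹ ∈ Ker hR (g • a) := by
  rw [mem_Ker] at hk ⊢
  constructor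
  · rw [smul_smul, inv_mul_cancel_right, mul_smul, hk.1]
  · intro x hx
    have h1 : g⁻¹ • x ≠ a := by
      intro hc
      apply hx
      rw [← hc, smul_inv_smul]
    have h2 := hR.equiv g _ _ _ (hk.2 _ h1)
    rw [smul_inv_smul] at h2
    rw [mul_smul, mul_smul]
    exact h2

theorem mem_Ker_of_reg {R : Ω → Ω → Ω → Prop} (hR : Sys G p R) {a : Ω} {P : Subgroup G}
    (hP : RegAt p a P) {g : G} (hg : g ∈ P) {x : Ω} (hx : x ≠ a) (hgx : R a x (g • x)) :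
    g ∈ Ker hR a := by
  refine (mem_Ker hR).2 ⟨hP.le g hg, fun z hz => ?_⟩
  obtain ⟨u, hu, rfl⟩ := hP.trans x z hx hz
  have := hR.equiv u _ _ _ hgx
  rw [hP.le u hu, smul_smul, hP.comm u hu g hg, mul_smul] at this
  exact this

theorem Ker_trans {R : Ω → Ω → Ω → Prop} (hR : Sys G p R) {a : Ω} {P : Subgroup G}
    (hP : RegAt p a P) {x y : Ω} (hxy : R a x y) : ∃ g ∈ P, g ∈ Ker hR a ∧ g • x = y := by
  have hx := hR.ne _ _ _ hxy
  have hy := hR.ne _ _ _ (hR.symm _ _ _ hxy)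
  obtain ⟨g, hg, rfl⟩ := hP.trans x y hx hy
  exact ⟨g, hg, mem_Ker_of_reg hR hP hg hx hxy, rfl⟩

theorem card_inf_Ker (h : Hyp G Ω p) {R : Ω → Ω → Ω → Prop} (hR : Sys G p R) {a : Ω}
    {P : Subgroup G} (hP : RegAt p a P) : Nat.card (P ⊓ Ker hR a : Subgroup G) = p := by
  obtain ⟨b, hb⟩ := h.exists_ne a
  have c1 := card_of_orbit (P ⊓ Ker hR a) b {y | R a b y} (fun g hg => hg.2.2 b hb)
    (fun y hy => by
      obtain ⟨g, hg, hg2, hg3⟩ := Ker_trans hR hP hy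
      exact ⟨g, ⟨hg, hg2⟩, hg3⟩)
  have h2 : Nat.card (P ⊓ Ker hR a ⊓ stabilizer G b : Subgroup G) = 1 := by
    rw [Subgroup.card_eq_one, eq_bot_iff]
    intro g hg
    exact mem_bot.2 (hP.free g hg.1.1 b hb hg.2)
  rw [h2, mul_one, hR.card a b hb] at c1
  exact c1

theorem pow_mul_norm {N : Subgroup G} {g : G} (hg : ∀ n ∈ N, g⁻¹ * n * g ∈ N) {n : G} (hn : n ∈ N)
    (m : ℕ) : ∃ n' ∈ N, (g * n) ^ m = g ^ m * n' := by
  induction m with
  | zero => exact ⟨1, one_mem _, by simp⟩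
  | succ m ih =>
    obtain ⟨n', hn', he⟩ := ih
    refine ⟨(g⁻¹ * n' * g) * n, mul_mem (hg n' hn') hn, ?_⟩
    rw [pow_succ, he, pow_succ]
    group

theorem Ker_faithful [FaithfulSMul G Ω] (h : Hyp G Ω p) {R : Ω → Ω → Ω → Prop} (hR : Sys G p R)
    {a x : Ω} (hx : x ≠ a) {n : G} (hn : n ∈ Ker hR a) (hnx : ∀ y, R a x y → n • y = y) :
    n = 1 := by
  obtain ⟨P, hP, -⟩ := exists_reg h hR a
  let N : Subgroup G :=
    { carrier := {g | g ∈ Ker hR a ∧ ∀ y, R a x y → g • y = y}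
      one_mem' := ⟨one_mem _, fun y _ => one_smul _ _⟩
      mul_mem' := fun {g₁ g₂} h₁ h₂ => ⟨mul_mem h₁.1 h₂.1, fun y hy => by
        rw [mul_smul, h₂.2 y hy, h₁.2 y hy]⟩
      inv_mem' := fun {g} hg => ⟨inv_mem hg.1, fun y hy => by
        rw [inv_smul_eq_iff, hg.2 y hy]⟩ }
  apply eq_one_of_fix_all (Ω := Ω)
  intro z
  by_cases hz : z = a
  · rw [hz]
    exact hn.1
  obtain ⟨g, hg, hgK, hgz⟩ := Ker_trans hR hP (hn.2 z hz)
  have hw1 : (g⁻¹ * n) • z = z := by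
    rw [mul_smul, ← hgz, inv_smul_smul]
  have hw2 : (g⁻¹ * n) • a = a := by
    rw [mul_smul, hn.1, inv_smul_eq_iff, hP.le g hg]
  set m := Nat.card (stabilizer G a ⊓ stabilizer G z : Subgroup G) with hm
  have hw3 : (g⁻¹ * n) ^ m = 1 := by
    have h2 : g⁻¹ * n ∈ (stabilizer G a ⊓ stabilizer G z : Subgroup G) := ⟨hw2, hw1⟩
    exact orderOf_dvd_iff_pow_eq_one.1 (Subgroup.orderOf_dvd_natCard _ h2)
  have hnorm : ∀ n' ∈ N, (g⁻¹)⁻¹ * n' * g⁻¹ ∈ N := by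
    rintro n' ⟨h1, h2⟩
    rw [inv_inv]
    refine ⟨mul_mem (mul_mem hgK h1) (inv_mem hgK), fun y hy => ?_⟩
    have h3 : R a x (g⁻¹ • y) := by
      have h4 := (inv_mem hgK).2 y (hR.ne _ _ _ (hR.symm _ _ _ hy))
      exact hR.trans _ _ _ _ hy h4
    rw [mul_smul, mul_smul, h2 _ h3, smul_inv_smul]
  obtain ⟨n', hn', he⟩ := pow_mul_norm hnorm (N := N) (n := n) ⟨hn, hnx⟩ m
  rw [hw3] at he
  have h5 : g ^ m = n' := by
    rw [inv_pow] at he
    have := congrArg (fun t => g ^ m * t) he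
    simpa using this
  have h6 : g ^ m = 1 := by
    apply hP.free _ (pow_mem hg m) x hx
    rw [h5]
    exact hn'.2 x (hR.refl a x hx)
  have h7 : g ^ p ^ 2 = 1 := by
    rw [← hP.card]
    exact orderOf_dvd_iff_pow_eq_one.1 (Subgroup.orderOf_dvd_natCard _ hg)
  have h8 : Nat.Coprime (p ^ 2) m :=
    Nat.Coprime.pow_left _ ((Nat.Prime.coprime_iff_not_dvd hp.out).2 (not_dvd_card h hR hz))
  have h9 : g = 1 := by
    rw [← orderOf_eq_one_iff]
    exact Nat.dvd_one.1 (h8 ▸ Nat.dvd_gcd (orderOf_dvd_of_pow_eq_one h7)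
      (orderOf_dvd_of_pow_eq_one h6))
  rw [← hgz, h9, one_smul]

theorem exists_family (h : Hyp G Ω p) (a : Ω) (U₀ : Subgroup G)
    (hU : ∀ g : G, g • a = a → ∀ u ∈ U₀, g * u * g⁻¹ ∈ U₀) :
    ∃ U : Ω → Subgroup G, U a = U₀ ∧ ∀ (g : G) (γ : Ω) (u : G), u ∈ U γ → g * u * g⁻¹ ∈ U (g • γ) := by
  choose s hs using fun γ => h.exists_smul a γ
  refine ⟨fun γ => U₀.comap (MulAut.conj (s γ)⁻¹).toMonoidHom, ?_, ?_⟩
  · ext u
    have hsa : (s a)⁻¹ • a = a := by rw [inv_smul_eq_iff, hs a]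
    rw [mem_comap]
    change (s a)⁻¹ * u * ((s a)⁻¹)⁻¹ ∈ U₀ ↔ u ∈ U₀
    constructor
    · intro hu
      have := hU _ (hs a) _ hu
      have e : s a * ((s a)⁻¹ * u * ((s a)⁻¹)⁻¹) * (s a)⁻¹ = u := by group
      rwa [e] at this
    · intro hu
      exact hU _ hsa u hu
  · intro g γ u hu
    change (s (g • γ))⁻¹ * (g * u * g⁻¹) * ((s (g • γ))⁻¹)⁻¹ ∈ U₀
    change (s γ)⁻¹ * u * ((s γ)⁻¹)⁻¹ ∈ U₀ at hu
    have ht : ((s (g • γ))⁻¹ * g * s γ) • a = a := by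
      rw [mul_smul, mul_smul, hs γ, inv_smul_eq_iff, hs (g • γ)]
    have := hU _ ht _ hu
    have e : ((s (g • γ))⁻¹ * g * s γ) * ((s γ)⁻¹ * u * ((s γ)⁻¹)⁻¹) * ((s (g • γ))⁻¹ * g * s γ)⁻¹ =
      (s (g • γ))⁻¹ * (g * u * g⁻¹) * ((s (g • γ))⁻¹)⁻¹ := by group
    rwa [e] at this

/-- the orbit of `y` under a subgroup. -/
def orb (L : Subgroup G) (y : Ω) : Set Ω := {z | ∃ l ∈ L, l • y = z}

theorem orb_smul {L : Subgroup G} {y z : Ω} (hz : z ∈ orb L y) {l : G} (hl : l ∈ L) :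
    l • z ∈ orb L y := by
  obtain ⟨k, hk, rfl⟩ := hz
  exact ⟨l * k, mul_mem hl hk, mul_smul _ _ _⟩

theorem orb_mod {L : Subgroup G} {a : Ω} {x : G} (hxL : x ∈ L) {k : ℕ} (hxp : x ^ p ^ k = 1)
    (hxa : x • a = a) (hx : ∀ z, x • z = z → z = a) (y : Ω) :
    (a ∈ orb L y → (orb L y).ncard ≡ 1 [MOD p]) ∧ (a ∉ orb L y → (orb L y).ncard ≡ 0 [MOD p]) := by
  have hQ : IsPGroup p (zpowers x) := by
    rintro ⟨_, j, rfl⟩
    refine ⟨k, Subtype.ext ?_⟩
    change (x ^ j) ^ p ^ k = 1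
    rw [← zpow_natCast, ← zpow_mul, mul_comm, zpow_mul, zpow_natCast, hxp, one_zpow]
  have h1 := ncard_modEq_fixed (zpowers x) hQ (orb L y) (by
    intro q hq z hz
    have : q ∈ L := (zpowers_le.2 hxL) hq
    exact orb_smul hz this)
  constructor
  · intro ha
    have e : {z | z ∈ orb L y ∧ ∀ q ∈ zpowers x, q • z = z} = {a} := by
      ext z
      rw [Set.mem_singleton_iff]
      constructor
      · rintro ⟨-, hz⟩
        exact hx z (hz x (mem_zpowers x))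
      · rintro rfl
        refine ⟨ha, ?_⟩
        rintro _ ⟨j, rfl⟩
        exact zpow_smul_eq_iff_minimalPeriod_dvd.2 (by
          have : Function.minimalPeriod (x • ·) z = 1 := Function.minimalPeriod_eq_one_iff_isFixedPt.2 hxa
          rw [this]
          exact one_dvd _)
    rw [e, Set.ncard_singleton] at h1
    exact h1
  · intro ha
    have e : {z | z ∈ orb L y ∧ ∀ q ∈ zpowers x, q • z = z} = ∅ := by
      ext z
      simp only [Set.mem_empty_iff_false, iff_false]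
      rintro ⟨hz1, hz⟩
      have := hx z (hz x (mem_zpowers x))
      rw [this] at hz1
      exact ha hz1
    rw [e, Set.ncard_empty] at h1
    exact h1

end Cfsg.Agent.H15PSq
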