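import Cfsg.Agent.H15PSq.Ker

/-!
# The line lemma (helper15)
-/

set_option autoImplicit false
set_option linter.style.haveILetI false
set_option linter.unusedSectionVars false

namespace Cfsg.Agent.H15PSq

open MulAction Subgroup

universe u v

variable {G : Type u} {Ω : Type v} [Group G] [Finite G] [MulAction G Ω]
variable [Finite Ω] {p : ℕ} [hp : Fact p.Prime]

/-- an equivariant family of subgroups of the point stabilizers, containing `p`-elements. -/
structure Fam (G : Type u) {Ω : Type v} [Group G] [MulAction G Ω] (p : ℕ) (U : Ω → Subgroup G) :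
    Prop where
  equiv : ∀ (g : G) (γ : Ω) (u : G), u ∈ U γ → g * u * g⁻¹ ∈ U (g • γ)
  fix : ∀ (γ : Ω), ∀ u ∈ U γ, u • γ = γ
  elt : ∀ γ : Ω, ∃ x ∈ U γ, ∃ k : ℕ, x ^ p ^ k = 1 ∧ x ≠ 1

variable {U : Ω → Subgroup G}

theorem Fam.conj_sup (hU : Fam G p U) (g : G) (γ δ : Ω) :
    ∀ u ∈ U γ ⊔ U δ, g * u * g⁻¹ ∈ U (g • γ) ⊔ U (g • δ) := by
  have h1 : (U γ ⊔ U δ).map (MulAut.conj g).toMonoidHom ≤ U (g • γ) ⊔ U (g • δ) := by
    rw [Subgroup.map_sup]
    apply sup_le
    · rintro _ ⟨u, hu, rfl⟩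
      exact (le_sup_left : U (g • γ) ≤ U (g • γ) ⊔ U (g • δ)) (hU.equiv g γ u hu)
    · rintro _ ⟨u, hu, rfl⟩
      exact (le_sup_right : U (g • δ) ≤ U (g • γ) ⊔ U (g • δ)) (hU.equiv g δ u hu)
  intro u hu
  exact h1 ⟨u, hu, rfl⟩

theorem Fam.mem_sup_iff (hU : Fam G p U) (g : G) (γ δ : Ω) (u : G) :
    u ∈ U γ ⊔ U δ ↔ g * u * g⁻¹ ∈ U (g • γ) ⊔ U (g • δ) := by
  constructor
  · exact hU.conj_sup g γ δ u
  · intro hu
    have := hU.conj_sup g⁻¹ _ _ _ hu
    rw [inv_smul_smul, inv_smul_smul] at this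
    have e : g⁻¹ * (g * u * g⁻¹) * g⁻¹⁻¹ = u := by group
    rwa [e] at this

variable [FaithfulSMul G Ω]

theorem line (h : Hyp G Ω p) {R : Ω → Ω → Ω → Prop} (hR : Sys G p R) (hU : Fam G p U) {a b : Ω}
    (hab : b ≠ a) (c : G) (hca : ∀ u ∈ U a, u * c = c * u) (hcb : ∀ u ∈ U b, u * c = c * u) :
    c = 1 := by
  -- elements fixing only one point
  have helt : ∀ γ : Ω, ∃ x ∈ U γ, ∃ k : ℕ, x ^ p ^ k = 1 ∧ ∀ z, x • z = z → z = γ := by
    intro γ
    obtain ⟨x, hx, k, hk, hx1⟩ := hU.elt γ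
    refine ⟨x, hx, k, hk, fun z hz => ?_⟩
    by_contra hzγ
    exact hx1 (pelt h hR hk hzγ (hU.fix γ x hx) hz)
  -- (B)
  have hB : ∀ γ δ : Ω, δ ∈ orb (U γ ⊔ U δ) γ := by
    intro γ δ
    by_contra hcon
    obtain ⟨x, hx, k, hk, hx1⟩ := helt γ
    obtain ⟨y, hy, l, hl, hy1⟩ := helt δ
    have h1 := (orb_mod (L := U γ ⊔ U δ) ((le_sup_left : U γ ≤ _) hx) hk (hU.fix γ x hx) hx1 δ).2
      (by
        rintro ⟨m, hm, hm2⟩
        apply hcon
        exact ⟨m⁻¹, inv_mem hm, by rw [inv_smul_eq_iff, hm2]⟩)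
    have h2 := (orb_mod (L := U γ ⊔ U δ) ((le_sup_right : U δ ≤ _) hy) hl (hU.fix δ y hy) hy1 δ).1
      ⟨1, one_mem _, one_smul _ _⟩
    have h3 : (1 : ℕ) ≡ 0 [MOD p] := h2.symm.trans h1
    have h4 := (Nat.modEq_zero_iff_dvd).1 h3
    exact hp.out.one_lt.ne' (Nat.dvd_one.1 h4)
  have hself : ∀ (L : Subgroup G) (γ : Ω), γ ∈ orb L γ := fun L γ => ⟨1, one_mem _, one_smul _ _⟩
  -- (C)
  have hC : ∀ a b γ : Ω, γ ∈ orb (U a ⊔ U b) a → U γ ≤ U a ⊔ U b := by
    rintro a b _ ⟨l, hl, rfl⟩ u hu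
    have h1 := hU.equiv l⁻¹ _ u hu
    rw [inv_smul_smul] at h1
    have h2 : l * (l⁻¹ * u * l⁻¹⁻¹) * l⁻¹ = u := by group
    rw [← h2]
    exact mul_mem (mul_mem hl ((le_sup_left : U a ≤ _) h1)) (inv_mem hl)
  have hcard : ∀ (g : G) (γ δ : Ω), Nat.card (U (g • γ) ⊔ U (g • δ) : Subgroup G) =
      Nat.card (U γ ⊔ U δ : Subgroup G) := by
    intro g γ δ
    have : (U (g • γ) ⊔ U (g • δ) : Subgroup G) = (U γ ⊔ U δ).map (MulAut.conj g).toMonoidHom := by
      apply le_antisymm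
      · intro u hu
        refine ⟨g⁻¹ * u * g, ?_, ?_⟩
        · change g⁻¹ * u * g ∈ U γ ⊔ U δ
          rw [hU.mem_sup_iff g]
          have e : g * (g⁻¹ * u * g) * g⁻¹ = u := by group
          rw [e]
          exact hu
        · change g * (g⁻¹ * u * g) * g⁻¹ = u
          group
      · rintro _ ⟨u, hu, rfl⟩
        exact hU.conj_sup g γ δ u hu
    rw [this]
    exact (Nat.card_congr ((U γ ⊔ U δ).equivMapOfInjective _ (MulEquiv.injective _)).toEquiv).symm
  -- (D)
  have hD : ∀ a b : Ω, b ≠ a → ∀ γ δ, γ ∈ orb (U a ⊔ U b) a → δ ∈ orb (U a ⊔ U b) a → δ ≠ γ →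
      U γ ⊔ U δ = U a ⊔ U b := by
    intro a b hab γ δ hγ hδ hne
    apply Subgroup.eq_of_le_of_card_ge
    · exact sup_le (hC a b γ hγ) (hC a b δ hδ)
    · obtain ⟨g, hg1, hg2⟩ := h.two a b γ δ hab.symm hne.symm
      rw [← hg1, ← hg2, hcard]
  -- the classes
  let R' : Ω → Ω → Ω → Prop := fun a x y => x ≠ a ∧ y ≠ a ∧ U a ⊔ U x = U a ⊔ U y
  have hR'set : ∀ a x, x ≠ a → {y | R' a x y} = orb (U a ⊔ U x) a \ {a} := by
    intro a x hx
    ext y
    constructor
    · rintro ⟨-, h2, h3⟩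
      refine ⟨?_, h2⟩
      rw [h3]
      exact hB a y
    · rintro ⟨h1, h2⟩
      exact ⟨hx, h2, (hD a x hx a y (hself _ _) h1 h2).symm⟩
  have hR'eq : ∀ (g : G) (a x y : Ω), R' a x y → R' (g • a) (g • x) (g • y) := by
    rintro g a x y ⟨h1, h2, h3⟩
    refine ⟨fun hc => h1 (smul_left_cancel g hc), fun hc => h2 (smul_left_cancel g hc), ?_⟩
    ext u
    have e : u = g * (g⁻¹ * u * g) * g⁻¹ := by group
    rw [e, ← hU.mem_sup_iff, ← hU.mem_sup_iff, h3]
  have hcl : ∀ a x, x ≠ a → {y | R' a x y}.ncard + 1 = (orb (U a ⊔ U x) a).ncard := by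
    intro a x hx
    rw [hR'set a x hx, Set.ncard_sdiff_singleton_add_one (hself _ _) (Set.toFinite _)]
  -- size of the classes
  have hpd : ∀ a x, x ≠ a → p ∣ {y | R' a x y}.ncard := by
    intro a x hx
    obtain ⟨w, hw, k, hk, hw1⟩ := helt a
    have h1 := (orb_mod (L := U a ⊔ U x) ((le_sup_left : U a ≤ _) hw) hk (hU.fix a w hw) hw1 a).1
      (hself _ _)
    rw [← hcl a x hx] at h1
    have h2 : {y | R' a x y}.ncard + 1 ≡ 0 + 1 [MOD p] := h1
    exact (Nat.modEq_zero_iff_dvd).1 (Nat.ModEq.add_right_cancel' 1 h2)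
  have hcd : ∀ a x, x ≠ a → {y | R' a x y}.ncard ∣ p ^ 2 := by
    intro a x hx
    let H : Subgroup G :=
      { carrier := {g | g • a = a ∧ R' a x (g • x)}
        one_mem' := ⟨one_smul _ _, by rw [one_smul]; exact ⟨hx, hx, rfl⟩⟩
        mul_mem' := fun {g₁ g₂} h₁ h₂ => ⟨by rw [mul_smul, h₂.1, h₁.1], by
          have h3 := hR'eq g₁ _ _ _ h₂.2
          rw [h₁.1] at h3
          rw [mul_smul]
          exact ⟨hx, h3.2.1, h₁.2.2.2.trans h3.2.2⟩⟩
        inv_mem' := fun {g} hg => by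
          have h1 : g⁻¹ • a = a := by rw [inv_smul_eq_iff, hg.1]
          refine ⟨h1, ?_⟩
          have h3 := hR'eq g⁻¹ _ _ _ hg.2
          rw [h1, inv_smul_smul] at h3
          exact ⟨h3.2.1, h3.1, h3.2.2.symm⟩ }
    have c1 := card_of_orbit H x {y | R' a x y} (fun g hg => hg.2) (fun y hy => by
      obtain ⟨g, hg1, hg2⟩ := h.two a x a y hx.symm hy.2.1.symm
      refine ⟨g, ⟨hg1, ?_⟩, hg2⟩
      rw [hg2]
      exact hy)
    have e1 : (H ⊓ stabilizer G x : Subgroup G) = stabilizer G a ⊓ stabilizer G x := by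
      apply le_antisymm
      · exact inf_le_inf_right _ (fun g hg => hg.1)
      · rintro k ⟨hk1, hk2⟩
        refine ⟨⟨hk1, ?_⟩, hk2⟩
        rw [mem_stabilizer_iff.1 hk2]
        exact ⟨hx, hx, rfl⟩
    rw [e1] at c1
    have c2 := h.card_stab hx
    have c3 : Nat.card H ∣ Nat.card (stabilizer G a) := Subgroup.card_dvd_of_le (fun g hg => hg.1)
    rw [c1, c2] at c3
    exact Nat.dvd_of_mul_dvd_mul_right Nat.card_pos c3
  have hcase : ∀ a x, x ≠ a → {y | R' a x y}.ncard = p ∨ {y | R' a x y}.ncard = p ^ 2 := by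
    intro a x hx
    obtain ⟨k, hk, hk2⟩ := (Nat.dvd_prime_pow hp.out).1 (hcd a x hx)
    have h1 := hpd a x hx
    rw [hk2] at h1 ⊢
    have : k ≠ 0 := by
      rintro rfl
      rw [pow_zero] at h1
      exact hp.out.one_lt.ne' (Nat.dvd_one.1 h1)
    have : k = 1 ∨ k = 2 := by omega
    rcases this with rfl | rfl
    · left; exact pow_one p
    · right; rfl
  have hconst : ∀ a x b y, x ≠ a → y ≠ b → {z | R' b y z}.ncard = {z | R' a x z}.ncard := by
    intro a x b y hx hy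
    obtain ⟨g, hg1, hg2⟩ := h.two a x b y hx.symm hy.symm
    have : {z | R' b y z} = (g • ·) '' {z | R' a x z} := by
      ext z
      constructor
      · intro hz
        refine ⟨g⁻¹ • z, ?_, smul_inv_smul _ _⟩
        have h3 := hR'eq g⁻¹ _ _ _ hz
        rw [← hg1, ← hg2, inv_smul_smul, inv_smul_smul] at h3
        exact h3
      · rintro ⟨w, hw, rfl⟩
        have h3 := hR'eq g _ _ _ hw
        rw [hg1, hg2] at h3
        exact h3
    rw [this, Set.ncard_image_of_injective _ (MulAction.injective g)]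
  rcases hcase a b hab with hc1 | hc1
  · exfalso
    have hSys : Sys G p R' :=
      { equiv := hR'eq
        refl := fun a x hx => ⟨hx, hx, rfl⟩
        symm := fun a x y hxy => ⟨hxy.2.1, hxy.1, hxy.2.2.symm⟩
        trans := fun a x y z hxy hyz => ⟨hxy.1, hyz.2.1, hxy.2.2.trans hyz.2.2⟩
        ne := fun a x y hxy => hxy.1
        card := fun c x hx => by rw [hconst a b c x hab hx, hc1] }
    obtain ⟨l, hl, hlb⟩ := hB a b
    have hset : ∀ y, (y = a ∨ R' a b y) ↔ y ∈ orb (U a ⊔ U b) a := by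
      intro y
      constructor
      · rintro (rfl | hy)
        · exact hself _ _
        · have : y ∈ {y | R' a b y} := hy
          rw [hR'set a b hab] at this
          exact this.1
      · intro hy
        by_cases hya : y = a
        · exact Or.inl hya
        · right
          have : y ∈ {y | R' a b y} := by
            rw [hR'set a b hab]
            exact ⟨hy, hya⟩
          exact this
    have h1 := h.fix hSys hab l (by
      intro y hy
      rw [hset] at hy ⊢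
      exact orb_smul hy hl)
    exact hab (hlb.symm.trans h1)
  · have hall : ∀ γ, γ ∈ orb (U a ⊔ U b) a := by
      have h1 := hcl a b hab
      rw [hc1] at h1
      have h2 : orb (U a ⊔ U b) a = Set.univ := by
        apply Set.eq_of_subset_of_ncard_le (Set.subset_univ _)
        rw [Set.ncard_univ, h.card, h1]
      intro γ
      rw [h2]
      trivial
    have hcL : ∀ u ∈ U a ⊔ U b, u * c = c * u := by
      have h1 : U a ⊔ U b ≤ centralizer ({c} : Set G) := by
        apply sup_le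
        · intro u hu
          rw [mem_centralizer_iff]
          rintro _ rfl
          exact (hca u hu).symm
        · intro u hu
          rw [mem_centralizer_iff]
          rintro _ rfl
          exact (hcb u hu).symm
      intro u hu
      exact (mem_centralizer_iff.1 (h1 hu) c rfl).symm
    apply eq_one_of_fix_all (Ω := Ω)
    intro γ
    obtain ⟨x, hx, k, hk, hx1⟩ := helt γ
    have h1 := hcL x (hC a b γ (hall γ) hx)
    apply hx1
    rw [smul_smul, h1, mul_smul, hU.fix γ x hx]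

end Cfsg.Agent.H15PSq
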