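import Cfsg.Agent.H15PSq.CaseA
import Cfsg.Agent.H70.Transv

/-!
# Simple case: the transfer argument (helper15)
-/

set_option autoImplicit false
set_option linter.style.haveILetI false
set_option linter.unusedSectionVars false

namespace Cfsg.Agent.H15PSq

open MulAction Subgroup

universe u v

variable {G : Type u} {Ω : Type v} [Group G] [Finite G] [MulAction G Ω]
variable [Finite Ω] {p : ℕ} [hp : Fact p.Prime] [FaithfulSMul G Ω]

namespace CA

variable {R : Ω → Ω → Ω → Prop} {a b : Ω} {P : Subgroup G} {x s : G}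

section

variable (D : CA G p R a b P x s)

include D

theorem not_comm : ¬ ∀ g k : G, g * k = k * g := by
  intro hc
  apply D.hx1
  apply eq_one_of_fix_all (Ω := Ω)
  intro z
  obtain ⟨g, rfl⟩ := D.h.exists_smul a z
  rw [smul_smul, hc, mul_smul, D.hP.le x D.hx]

theorem hom_trivial [IsSimpleGroup G] {A : Type*} [CommGroup A] (f : G →* A) (g : G) : f g = 1 := by
  rcases (inferInstance : f.ker.Normal).eq_bot_or_eq_top with h1 | h1
  · exfalso
    apply D.not_comm
    intro g k
    have hinj := (MonoidHom.ker_eq_bot_iff f).1 h1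
    apply hinj
    rw [map_mul, map_mul, mul_comm]
  · have : g ∈ f.ker := h1 ▸ mem_top g
    exact this

/-- elements of `G_a` are products of elements of `P` and of `G_ab`. -/
theorem decomp {w : G} (hw : w • a = a) : ∃ y ∈ P, ∃ e : G, e • a = a ∧ e • b = b ∧ w = y * e := by
  obtain ⟨y, hy, hyb⟩ := D.hP.trans b (w • b) D.hab (smul_ne hw D.hab)
  refine ⟨y, hy, y⁻¹ * w, ?_, ?_, by group⟩
  · rw [mul_smul, hw, inv_smul_eq_iff, D.hP.le y hy]
  · rw [mul_smul, ← hyb, inv_smul_smul]

theorem commutator_mem {w v : G} (hw : w • a = a) (hv : v • a = a) :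
    w * v * w⁻¹ * v⁻¹ ∈ P := by
  let N : Subgroup (stabilizer G a) := P.subgroupOf (stabilizer G a)
  haveI : N.Normal := ⟨fun n hn g => mem_subgroupOf.2 (D.P_norm g.2 (mem_subgroupOf.1 hn))⟩
  have key : ∀ w : stabilizer G a, ∃ e : stabilizer G a, e.1 • b = b ∧
      QuotientGroup.mk' N w = QuotientGroup.mk' N e := by
    intro w
    obtain ⟨y, hy, e, he1, he2, hw⟩ := D.decomp (mem_stabilizer_iff.1 w.2)
    refine ⟨⟨e, he1⟩, he2, ?_⟩
    have h1 : w = ⟨y, D.hP.le y hy⟩ * ⟨e, he1⟩ := Subtype.ext hw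
    have h2 : QuotientGroup.mk' N (⟨y, D.hP.le y hy⟩ : stabilizer G a) = 1 :=
      (QuotientGroup.eq_one_iff _).2 (mem_subgroupOf.2 hy)
    rw [h1, map_mul, h2, one_mul]
  obtain ⟨e, he, hwe⟩ := key ⟨w, hw⟩
  obtain ⟨f, hf, hvf⟩ := key ⟨v, hv⟩
  have hcomm : e * f = f * e := Subtype.ext (D.abel e.2 he f.2 hf)
  have h3 : QuotientGroup.mk' N ((⟨w, hw⟩ : stabilizer G a) * ⟨v, hv⟩ * ⟨w, hw⟩⁻¹ * ⟨v, hv⟩⁻¹) = 1 := by
    rw [map_mul, map_mul, map_mul, map_inv, map_inv, hwe, hvf, ← map_mul, hcomm, map_mul]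
    group
  have h4 := (QuotientGroup.eq_one_iff _).1 h3
  exact mem_subgroupOf.1 h4

theorem commutator_le : commutator (stabilizer G a) ≤ P.subgroupOf (stabilizer G a) := by
  rw [commutator_eq_closure, closure_le]
  rintro _ ⟨w, v, rfl⟩
  exact mem_subgroupOf.2 (D.commutator_mem w.2 v.2)

theorem eq_zpowers_of_fix {c : G} (hc1 : c ≠ 1) (hcb : c • b = b) (hcx : x * c = c * x) {g : G}
    (hg : g ∈ P) (hgc : c * g = g * c) : g ∈ zpowers x := by
  by_contra hgx
  have hca := D.fix_of_comm hcx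
  let Pc : Subgroup G := P ⊓ centralizer ({c} : Set G)
  have hmem : ∀ y, y ∈ Pc ↔ y ∈ P ∧ c * y = y * c := by
    intro y
    change y ∈ P ⊓ centralizer ({c} : Set G) ↔ _
    rw [mem_inf, mem_centralizer_iff]
    constructor
    · rintro ⟨h1, h2⟩
      exact ⟨h1, h2 c rfl⟩
    · rintro ⟨h1, h2⟩
      refine ⟨h1, ?_⟩
      rintro _ rfl
      exact h2
  have h1 : zpowers x ≤ Pc := by
    rw [zpowers_le, hmem]
    exact ⟨D.hx, hcx.symm⟩
  have h2 : Nat.card Pc ∣ p ^ 2 := by
    rw [← D.hP.card]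
    exact Subgroup.card_dvd_of_le inf_le_left
  obtain ⟨k, hk, hk2⟩ := (Nat.dvd_prime_pow hp.out).1 h2
  have h3 : p ∣ Nat.card Pc := by
    rw [← D.ordx, ← Nat.card_zpowers]
    exact Subgroup.card_dvd_of_le h1
  have hk0 : k ≠ 0 := by
    rintro rfl
    rw [hk2, pow_zero] at h3
    exact hp.out.one_lt.ne' (Nat.dvd_one.1 h3)
  have hk1 : k ≠ 1 := by
    rintro rfl
    have h4 : zpowers x = Pc := by
      apply Subgroup.eq_of_le_of_card_ge h1
      rw [hk2, pow_one, Nat.card_zpowers, D.ordx]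
    apply hgx
    rw [h4, hmem]
    exact ⟨hg, hgc⟩
  have hk3 : k = 2 := by omega
  have h5 : Pc = P := by
    apply Subgroup.eq_of_le_of_card_ge inf_le_left
    rw [hk2, hk3, D.hP.card]
  apply hc1
  apply eq_one_of_fix_all (Ω := Ω)
  intro z
  by_cases hz : z = a
  · rw [hz, hca]
  · obtain ⟨y, hy, rfl⟩ := D.hP.trans b z D.hab hz
    have h6 : y ∈ Pc := h5 ▸ hy
    rw [smul_smul, ((hmem y).1 h6).2, mul_smul, hcb]

theorem no_cent_prime [IsSimpleGroup G] {c : G} (hcr : (orderOf c).Prime) (hcb : c • b = b)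
    (hcx : x * c = c * x) : False := by
  classical
  have hc1 : c ≠ 1 := by
    rintro rfl
    rw [orderOf_one] at hcr
    exact Nat.not_prime_one hcr
  have hca := D.fix_of_comm hcx
  haveI : Fintype Ω := Fintype.ofFinite _
  haveI : Fintype (G ⧸ stabilizer G a) := Fintype.ofFinite _
  let φ : stabilizer G a →* Abelianization (stabilizer G a) := Abelianization.of
  have hτ := D.hom_trivial (MonoidHom.transfer φ) c
  rw [H70.transfer_eq_prod (stabilizer G a) φ c (by
    intro y m hm hmd _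
    have h1 : m = orderOf c := ((Nat.dvd_prime hcr).1 hmd).resolve_left hm.ne'
    rw [h1, pow_orderOf_eq_one, mul_one, inv_mul_cancel, H70.hext_of_mem φ (one_mem _)]
    exact map_one φ)] at hτ
  -- the set of fixed points
  let Ob : Finset Ω := Finset.univ.filter (fun ω => ∃ k ∈ zpowers x, k • b = ω)
  have hOb : ∀ ω, ω ∈ Ob ↔ ∃ k ∈ zpowers x, k • b = ω := fun ω => by simp [Ob]
  have haOb : a ∉ Ob := by
    rw [hOb]
    rintro ⟨k, hk, hkb⟩
    exact smul_ne (D.fixz hk) D.hab hkb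
  have hcardOb : Ob.card = p := by
    have c1 := card_of_orbit (zpowers x) b (Ob : Set Ω) (fun k hk => by
      rw [Finset.mem_coe, hOb]
      exact ⟨k, hk, rfl⟩) (fun y hy => by
      rw [Finset.mem_coe, hOb] at hy
      exact hy)
    have c2 : Nat.card (zpowers x ⊓ stabilizer G b : Subgroup G) = 1 := by
      rw [Subgroup.card_eq_one, eq_bot_iff]
      rintro k ⟨hk1, hk2⟩
      exact mem_bot.2 (D.hP.free k ((zpowers_le.2 D.hx) hk1) b D.hab hk2)
    rw [c2, mul_one, Nat.card_zpowers, D.ordx, Set.ncard_coe_finset] at c1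
    exact c1.symm
  have hsa' : s⁻¹ • a = b := by rw [inv_smul_eq_iff, D.hsb]
  let A := H70.hext (stabilizer G a) φ c
  let B := H70.hext (stabilizer G a) φ (s * c * s⁻¹)
  have hval : ∀ y : G ⧸ stabilizer G a, H70.hext (stabilizer G a) φ (y.out⁻¹ * c * y.out) =
      (fun ω : Ω => (if ω = a then A else 1) * (if ω ∈ Ob then B else 1)) (y.out • a) := by
    intro y
    simp only
    by_cases h1 : y.out • a = a
    · rw [if_pos h1, h1, if_neg haOb, mul_one]
      have h2 : y.out ∈ stabilizer G a := h1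
      rw [H70.hext_conj φ c h2]
    · rw [if_neg h1, one_mul]
      by_cases h2 : y.out • a ∈ Ob
      · rw [if_pos h2]
        obtain ⟨k, hk, hkb⟩ := (hOb _).1 h2
        have h3 : ((y.out : G) : G ⧸ stabilizer G a) = ((k * s⁻¹ : G) : G ⧸ stabilizer G a) := by
          rw [QuotientGroup.eq]
          change (y.out⁻¹ * (k * s⁻¹)) • a = a
          rw [mul_smul, mul_smul, hsa', hkb, inv_smul_smul]
        rw [H70.hext_conj_eq φ c h3]
        have e : (k * s⁻¹)⁻¹ * c * (k * s⁻¹) = s * c * s⁻¹ := by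
          have h4 := D.commz hk hcx
          calc (k * s⁻¹)⁻¹ * c * (k * s⁻¹) = s * (k⁻¹ * (c * k)) * s⁻¹ := by group
            _ = s * c * s⁻¹ := by rw [← h4, inv_mul_cancel_left]
        rw [e]
      · rw [if_neg h2]
        apply H70.hext_of_notMem
        intro h3
        apply h2
        have h4 : c • y.out • a = y.out • a := by
          have h5 : (y.out⁻¹ * c * y.out) • a = a := h3
          rw [mul_smul, mul_smul, inv_smul_eq_iff] at h5
          exact h5
        obtain ⟨g, hg, hgb⟩ := D.hP.trans b _ D.hab h1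
        rw [← hgb] at h4 ⊢
        rw [hOb]
        refine ⟨g, D.eq_zpowers_of_fix hc1 hcb hcx hg ?_, rfl⟩
        have h6 : g⁻¹ * (c * g * c⁻¹) ∈ P := mul_mem (inv_mem hg) (D.P_norm hca hg)
        have hcb' : c⁻¹ • b = b := by rw [inv_smul_eq_iff, hcb]
        have h7 : (g⁻¹ * (c * g * c⁻¹)) • b = b := by
          rw [mul_smul, mul_smul, mul_smul, hcb', h4, inv_smul_smul]
        have h8 := D.hP.free _ h6 b D.hab h7
        rw [inv_mul_eq_one] at h8
        rw [mul_inv_eq_iff_eq_mul.1 h8.symm]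
  rw [Finset.prod_congr rfl (fun y _ => hval y)] at hτ
  have hbij : Function.Bijective (fun y : G ⧸ stabilizer G a => y.out • a) := by
    constructor
    · intro y z hyz
      have h1 : ((y.out : G) : G ⧸ stabilizer G a) = ((z.out : G) : G ⧸ stabilizer G a) := by
        rw [QuotientGroup.eq]
        change (y.out⁻¹ * z.out) • a = a
        have hyz' : y.out • a = z.out • a := hyz
        rw [mul_smul, ← hyz', inv_smul_smul]
      rw [QuotientGroup.out_eq', QuotientGroup.out_eq'] at h1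
      exact h1
    · intro ω
      obtain ⟨g, rfl⟩ := D.h.exists_smul a ω
      refine ⟨(g : G ⧸ stabilizer G a), ?_⟩
      have h1 : (((g : G ⧸ stabilizer G a).out : G) : G ⧸ stabilizer G a) = (g : G ⧸ stabilizer G a) :=
        QuotientGroup.out_eq' _
      rw [QuotientGroup.eq] at h1
      have h2 : (((g : G ⧸ stabilizer G a).out)⁻¹ * g) • a = a := h1
      rw [mul_smul, inv_smul_eq_iff] at h2
      exact h2.symm
  rw [hbij.prod_comp (fun ω : Ω => (if ω = a then A else 1) * (if ω ∈ Ob then B else 1)),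
    Finset.prod_mul_distrib, Finset.prod_ite_eq' Finset.univ a, if_pos (Finset.mem_univ _),
    Finset.prod_ite_mem, Finset.univ_inter, Finset.prod_const, hcardOb] at hτ
  have hcs : s * c * s⁻¹ ∈ stabilizer G a := by
    change (s * c * s⁻¹) • a = a
    rw [mul_smul, mul_smul, hsa', hcb, D.hsb]
  have hA : A = φ ⟨c, hca⟩ := H70.hext_of_mem φ hca
  have hB : B = φ ⟨s * c * s⁻¹, hcs⟩ := H70.hext_of_mem φ hcs
  rw [hA, hB, ← map_pow, ← map_mul] at hτ
  have h5 : (⟨c, hca⟩ * ⟨s * c * s⁻¹, hcs⟩ ^ p : stabilizer G a) ∈ commutator (stabilizer G a) := by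
    rw [← Abelianization.ker_of]
    exact hτ
  have h6 : c * (s * c * s⁻¹) ^ p ∈ P := mem_subgroupOf.1 (D.commutator_le h5)
  have hscb : (s * c * s⁻¹) • b = b := by
    have hsb' : s⁻¹ • b = a := by rw [inv_smul_eq_iff, D.hsa]
    rw [mul_smul, mul_smul, hsb', hca, D.hsa]
  have h7 : (c * (s * c * s⁻¹) ^ p) • b = b := by
    have h8 : (s * c * s⁻¹) ^ p ∈ stabilizer G b := pow_mem hscb p
    rw [mul_smul, mem_stabilizer_iff.1 h8, hcb]
  have h8 := D.hP.free _ h6 b D.hab h7
  have h9 : c = ((s * c * s⁻¹) ^ p)⁻¹ := eq_inv_of_mul_eq_one_left h8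
  apply hc1
  apply D.cent hcx
  have h10 : Commute (s * x * s⁻¹) (s * c * s⁻¹) := by
    change (s * x * s⁻¹) * (s * c * s⁻¹) = (s * c * s⁻¹) * (s * x * s⁻¹)
    calc (s * x * s⁻¹) * (s * c * s⁻¹) = s * (x * c) * s⁻¹ := by group
      _ = s * (c * x) * s⁻¹ := by rw [hcx]
      _ = (s * c * s⁻¹) * (s * x * s⁻¹) := by group
  have h11 : Commute (s * x * s⁻¹) c := by
    rw [h9]
    exact (h10.pow_right p).inv_right
  exact h11

theorem no_cent [IsSimpleGroup G] {c : G} (hcb : c • b = b) (hcx : x * c = c * x) : c = 1 := by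
  by_contra hc1
  have hne : orderOf c ≠ 1 := fun h1 => hc1 (orderOf_eq_one_iff.1 h1)
  set r := (orderOf c).minFac with hr
  have hrp : r.Prime := Nat.minFac_prime hne
  have hrd : r ∣ orderOf c := Nat.minFac_dvd _
  obtain ⟨m, hm⟩ := hrd
  have hord : orderOf (c ^ m) = r := by
    rw [orderOf_pow, hm, Nat.gcd_eq_right (dvd_mul_left m r)]
    have : 0 < m := by
      rcases Nat.eq_zero_or_pos m with h1 | h1
      · rw [h1, mul_zero] at hm
        exact absurd hm (orderOf_pos c).ne'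
      · exact h1
    exact Nat.mul_div_cancel _ this
  apply D.no_cent_prime (c := c ^ m) (by rw [hord]; exact hrp)
  · have : c ∈ stabilizer G b := hcb
    exact pow_mem this m
  · exact (show Commute x c from hcx).pow_right m

end

end CA

end Cfsg.Agent.H15PSq
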