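import Cfsg.Agent.H15PSq.Basic

/-!
# The Sylow `p`-subgroup is regular on the remaining points (helper15)
-/

set_option autoImplicit false
set_option linter.style.haveILetI false
set_option linter.unusedSectionVars false

namespace Cfsg.Agent.H15PSq

open MulAction Subgroup

universe u v

variable {G : Type u} {Ω : Type v} [Group G] [Finite G] [MulAction G Ω]
variable [Finite Ω] {p : ℕ} [hp : Fact p.Prime]

/-- `P` is a Sylow `p`-subgroup of the stabilizer of `a`. -/
structure SylAt (p : ℕ) (a : Ω) (P : Subgroup G) : Prop where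
  le : P ≤ stabilizer G a
  card : Nat.card P = p ^ (Nat.card (stabilizer G a)).factorization p

theorem exists_sylAt (a : Ω) : ∃ P : Subgroup G, SylAt p a P := by
  obtain ⟨P⟩ : Nonempty (Sylow p (stabilizer G a)) := inferInstance
  refine ⟨(P : Subgroup (stabilizer G a)).map (stabilizer G a).subtype, ?_, ?_⟩
  · rintro _ ⟨x, -, rfl⟩
    exact x.2
  · rw [← P.card_eq_multiplicity]
    exact (Nat.card_congr ((P : Subgroup (stabilizer G a)).equivMapOfInjective _
      (stabilizer G a).subtype_injective).toEquiv).symm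

theorem SylAt.isPGroup {a : Ω} {P : Subgroup G} (hP : SylAt p a P) : IsPGroup p P :=
  IsPGroup.of_card hP.card

theorem factorization_stab (h : Hyp G Ω p) {a b : Ω} (hab : b ≠ a) :
    (Nat.card (stabilizer G a)).factorization p =
      2 + (Nat.card (stabilizer G a ⊓ stabilizer G b : Subgroup G)).factorization p := by
  rw [h.card_stab hab, Nat.factorization_mul (pow_ne_zero _ hp.out.ne_zero) Nat.card_pos.ne',
    Finsupp.add_apply, Nat.Prime.factorization_pow hp.out, Finsupp.single_eq_same]

/-- `P` is transitive on the other points and its point stabilizers are Sylow in `G_ab`. -/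
theorem SylAt.trans (h : Hyp G Ω p) {a : Ω} {P : Subgroup G} (hP : SylAt p a P) {x : Ω}
    (hx : x ≠ a) :
    (∀ y, y ≠ a → ∃ g ∈ P, g • x = y) ∧
      Nat.card (P ⊓ stabilizer G x : Subgroup G) =
        p ^ (Nat.card (stabilizer G a ⊓ stabilizer G x : Subgroup G)).factorization p := by
  have c1 := card_of_orbit P x {y | ∃ g ∈ P, g • x = y} (fun g hg => ⟨g, hg, rfl⟩) (fun y hy => hy)
  rw [hP.card, factorization_stab h hx] at c1
  set f := (Nat.card (stabilizer G a ⊓ stabilizer G x : Subgroup G)).factorization p with hf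
  have hle : (P ⊓ stabilizer G x : Subgroup G) ≤ stabilizer G a ⊓ stabilizer G x :=
    inf_le_inf_right _ hP.le
  obtain ⟨m, hm⟩ := (IsPGroup.iff_card (p := p) (G := (P ⊓ stabilizer G x : Subgroup G))).1
    (hP.isPGroup.to_inf_left)
  have hmf : m ≤ f := by
    rw [hf, ← hp.out.pow_dvd_iff_le_factorization Nat.card_pos.ne', ← hm]
    exact Subgroup.card_dvd_of_le hle
  have hdvd : {y | ∃ g ∈ P, g • x = y}.ncard ∣ p ^ (2 + f) := by
    rw [c1]
    exact dvd_mul_right _ _
  obtain ⟨k, hk, hk2⟩ := (Nat.dvd_prime_pow hp.out).1 hdvd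
  have hsub : {y | ∃ g ∈ P, g • x = y} ⊆ ({a}ᶜ : Set Ω) := by
    rintro _ ⟨g, hg, rfl⟩ hc
    apply hx
    rw [Set.mem_singleton_iff] at hc
    have h2 : g • x = g • a := by rw [hc]; exact (mem_stabilizer_iff.1 (hP.le hg)).symm
    exact smul_left_cancel g h2
  have hle2 : p ^ k ≤ p ^ 2 := by
    rw [← hk2, ← h.card_compl a]
    exact Set.ncard_le_ncard hsub (Set.toFinite _)
  have hk3 : k ≤ 2 := (Nat.pow_le_pow_iff_right hp.out.one_lt).1 hle2
  rw [hk2, hm, ← pow_add] at c1
  have hkm : 2 + f = k + m := Nat.pow_right_injective hp.out.two_le c1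
  have hk4 : k = 2 := by omega
  have hmf2 : m = f := by omega
  constructor
  · intro y hy
    have he : {y | ∃ g ∈ P, g • x = y} = ({a}ᶜ : Set Ω) := by
      apply Set.eq_of_subset_of_ncard_le hsub _ (Set.toFinite _)
      rw [hk2, hk4, h.card_compl]
    have : y ∈ ({a}ᶜ : Set Ω) := hy
    rw [← he] at this
    exact this
  · rw [hm, hmf2]

variable [FaithfulSMul G Ω]

theorem eq_one_of_fix_all {g : G} (hg : ∀ x : Ω, g • x = x) : g = 1 :=
  FaithfulSMul.eq_of_smul_eq_smul (α := Ω) (fun x => by rw [hg, one_smul])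

theorem not_dvd_card (h : Hyp G Ω p) {R : Ω → Ω → Ω → Prop} (hR : Sys G p R) {a b : Ω}
    (hab : b ≠ a) : ¬ p ∣ Nat.card (stabilizer G a ⊓ stabilizer G b : Subgroup G) := by
  intro hdvd
  obtain ⟨P, hP⟩ := exists_sylAt (G := G) (p := p) a
  set Q : Subgroup G := P ⊓ stabilizer G b with hQ
  have hQp : IsPGroup p Q := hP.isPGroup.to_inf_left
  have htr := (hP.trans h hab).1
  have hcQ := (hP.trans h hab).2
  have hPa : ∀ g ∈ P, g • a = a := fun g hg => hP.le hg
  -- conjugates of `Q`
  have hQall : ∀ x, x ≠ a → Nat.card (P ⊓ stabilizer G x : Subgroup G) = Nat.card Q := by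
    intro x hx
    obtain ⟨g, hg, rfl⟩ := htr x hx
    have : (P ⊓ stabilizer G (g • b) : Subgroup G) = Q.map (MulAut.conj g).toMonoidHom := by
      ext z
      simp only [mem_inf, mem_stabilizer_iff, mem_map]
      constructor
      · rintro ⟨h1, h2⟩
        refine ⟨g⁻¹ * z * g, mem_inf.2 ⟨mul_mem (mul_mem (inv_mem hg) h1) hg, ?_⟩, ?_⟩
        · rw [mem_stabilizer_iff, mul_smul, mul_smul, h2, inv_smul_smul]
        · simp [mul_assoc]
      · rintro ⟨w, ⟨h1, h2⟩, rfl⟩
        refine ⟨mul_mem (mul_mem hg h1) (inv_mem hg), ?_⟩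
        change (g * w * g⁻¹) • g • b = g • b
        rw [smul_smul, inv_mul_cancel_right, mul_smul, mem_stabilizer_iff.1 h2]
    rw [this]
    exact (Nat.card_congr (Q.equivMapOfInjective _ (MulEquiv.injective _)).toEquiv).symm
  have hfix1 : ∀ y, R a b y → ∀ q ∈ Q, q • y = y := by
    intro y hy
    by_cases hyb : y = b
    · intro q hq
      rw [hyb]
      exact hq.2
    · refine fixed_of_lt Q hQp ({y | R a b y} \ {b}) ?_ ?_ (x := y) ⟨hy, hyb⟩
      · rintro q hq x ⟨h1, h2⟩
        refine ⟨?_, ?_⟩
        · have := hR.equiv q a b x h1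
          rw [hPa q hq.1, mem_stabilizer_iff.1 hq.2] at this
          exact this
        · intro h3
          apply h2
          rw [Set.mem_singleton_iff] at h3 ⊢
          have h4 : q • x = q • b := by rw [h3]; exact (mem_stabilizer_iff.1 hq.2).symm
          exact smul_left_cancel q h4
      · have h5 : b ∈ {y | R a b y} := hR.refl a b hab
        rw [Set.ncard_sdiff_singleton_of_mem h5, hR.card a b hab]
        have := hp.out.pos
        omega
  have hnorm : ∀ x, x ≠ a → (∀ q ∈ Q, q • x = x) → (P ⊓ stabilizer G x : Subgroup G) = Q := by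
    intro x hx hq
    symm
    apply Subgroup.eq_of_le_of_card_ge
    · exact fun q hq' => ⟨hq'.1, hq q hq'⟩
    · rw [hQall x hx]
  have hconj : ∀ g ∈ P, (∀ q ∈ Q, q • g • b = g • b) → g ∈ normalizer (Q : Set G) := by
    intro g hg hq
    have hgb : g • b ≠ a := by
      intro hc
      apply hab
      have h2 : g • b = g • a := by rw [hc]; exact (hPa g hg).symm
      exact smul_left_cancel g h2
    have h1 := hnorm (g • b) hgb hq
    rw [mem_normalizer_iff]
    intro z
    constructor
    · intro hz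
      have : g * z * g⁻¹ ∈ (P ⊓ stabilizer G (g • b) : Subgroup G) := by
        refine mem_inf.2 ⟨mul_mem (mul_mem hg hz.1) (inv_mem hg), ?_⟩
        rw [mem_stabilizer_iff, smul_smul, inv_mul_cancel_right, mul_smul, mem_stabilizer_iff.1 hz.2]
      rw [h1] at this
      exact this
    · intro hz
      have h2 : g * z * g⁻¹ ∈ (P ⊓ stabilizer G (g • b) : Subgroup G) := by
        rw [h1]
        exact hz
      have h3 : z = g⁻¹ * (g * z * g⁻¹) * g := by group
      refine mem_inf.2 ⟨?_, ?_⟩
      · rw [h3]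
        exact mul_mem (mul_mem (inv_mem hg) h2.1) hg
      · change z ∈ stabilizer G b
        rw [mem_stabilizer_iff, h3, mul_smul, mul_smul, mem_stabilizer_iff.1 h2.2, inv_smul_smul]
  have hfix2 : ∀ y, y ≠ a → (∀ q ∈ Q, q • y = y) → R a b y := by
    intro y hy hq
    by_contra hRy
    obtain ⟨x, hx, rfl⟩ := htr y hy
    let RP : Subgroup G :=
      { carrier := {g | g ∈ P ∧ R a b (g • b)}
        one_mem' := ⟨one_mem _, by rw [one_smul]; exact hR.refl a b hab⟩
        mul_mem' := fun {g₁ g₂} h₁ h₂ => ⟨mul_mem h₁.1 h₂.1, by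
          have := hR.equiv g₁ a b _ h₂.2
          rw [hPa g₁ h₁.1] at this
          rw [mul_smul]
          exact hR.trans _ _ _ _ h₁.2 this⟩
        inv_mem' := fun {g₁} h₁ => ⟨inv_mem h₁.1, by
          have := hR.equiv g₁⁻¹ a b _ h₁.2
          rw [hPa g₁⁻¹ (inv_mem h₁.1), inv_smul_smul] at this
          exact hR.symm _ _ _ this⟩ }
    have c1 := card_of_orbit RP b {y | R a b y} (fun g hg => hg.2)
      (fun y hy => by
        have hya := hR.ne _ _ _ (hR.symm _ _ _ hy)
        obtain ⟨g, hg, rfl⟩ := htr y hya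
        exact ⟨g, ⟨hg, hy⟩, rfl⟩)
    rw [hR.card a b hab] at c1
    have e1 : (RP ⊓ stabilizer G b : Subgroup G) = Q := by
      apply le_antisymm
      · exact inf_le_inf_right _ (fun g hg => hg.1)
      · intro q hq
        refine ⟨⟨hq.1, ?_⟩, hq.2⟩
        rw [mem_stabilizer_iff.1 hq.2]
        exact hR.refl a b hab
    rw [e1] at c1
    have c2 := card_of_orbit P b {a}ᶜ (fun g hg => by
      intro hc
      apply hab
      rw [Set.mem_singleton_iff] at hc
      have h2 : g • b = g • a := by rw [hc]; exact (hPa g hg).symm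
      exact smul_left_cancel g h2) (fun y hy => htr y hy)
    rw [h.card_compl] at c2
    have hle1 : RP ≤ P ⊓ normalizer (Q : Set G) := fun g hg =>
      ⟨hg.1, hconj g hg.1 (fun q hq => hfix1 _ hg.2 q hq)⟩
    have hne : RP ≠ P ⊓ normalizer (Q : Set G) := by
      intro he
      apply hRy
      have : x ∈ (P ⊓ normalizer (Q : Set G) : Subgroup G) := ⟨hx, hconj x hx hq⟩
      rw [← he] at this
      exact this.2
    obtain ⟨m, hm⟩ := Subgroup.card_dvd_of_le hle1
    obtain ⟨l, hl⟩ := Subgroup.card_dvd_of_le (inf_le_left : P ⊓ normalizer (Q : Set G) ≤ P)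
    have hml : p = m * l := by
      have h1 : (p * Nat.card Q) * p = (p * Nat.card Q) * (m * l) := by
        calc (p * Nat.card Q) * p = p ^ 2 * Nat.card Q := by ring
          _ = Nat.card P := c2.symm
          _ = (Nat.card (P ⊓ normalizer (Q : Set G) : Subgroup G)) * l := hl
          _ = (p * Nat.card Q) * (m * l) := by rw [hm, c1]; ring
      exact Nat.eq_of_mul_eq_mul_left (Nat.mul_pos hp.out.pos Nat.card_pos) h1
    have hm1 : m ≠ 1 := by
      rintro rfl
      apply hne
      apply Subgroup.eq_of_le_of_card_ge hle1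
      rw [hm, mul_one]
    have hmp : m = p := by
      rcases (Nat.dvd_prime hp.out).1 (⟨l, hml⟩ : m ∣ p) with h1 | h1
      · exact absurd h1 hm1
      · exact h1
    have hl1 : l = 1 := by
      rw [hmp] at hml
      exact Nat.eq_of_mul_eq_mul_left hp.out.pos (by rw [mul_one]; exact hml.symm)
    have hPN : P ≤ normalizer (Q : Set G) := by
      have : (P ⊓ normalizer (Q : Set G) : Subgroup G) = P := by
        apply Subgroup.eq_of_le_of_card_ge inf_le_left
        rw [hl, hl1, mul_one]
      rw [← this]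
      exact inf_le_right
    -- so `Q` fixes everything
    have hQ1 : ∀ q ∈ Q, q = 1 := by
      intro q hq
      apply eq_one_of_fix_all (Ω := Ω)
      intro z
      by_cases hz : z = a
      · rw [hz]
        exact hPa q hq.1
      · obtain ⟨g, hg, rfl⟩ := htr z hz
        have h1 : g⁻¹ * q * g ∈ Q := by
          have h2 := (mem_normalizer_iff.1 (hPN (inv_mem hg)) q).1 hq
          rw [inv_inv] at h2
          exact h2
        have h2 : (g⁻¹ * q * g) • b = b := h1.2
        rw [mul_smul, mul_smul, inv_smul_eq_iff] at h2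
        exact h2
    have hQb : Nat.card Q = 1 := by
      rw [Subgroup.card_eq_one, eq_bot_iff]
      intro q hq
      exact mem_bot.2 (hQ1 q hq)
    rw [hcQ] at hQb
    have h5 : (Nat.card (stabilizer G a ⊓ stabilizer G b : Subgroup G)).factorization p = 0 := by
      rcases Nat.pow_eq_one.1 hQb with h6 | h6
      · exact absurd h6 hp.out.one_lt.ne'
      · exact h6
    have h6 := (hp.out.dvd_iff_one_le_factorization Nat.card_pos.ne').1 hdvd
    omega
  -- a swap normalizing `Q`
  obtain ⟨g, hga, hgb⟩ := h.two a b b a hab.symm hab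
  have hKK : ∀ z : G, z ∈ (stabilizer G a ⊓ stabilizer G b : Subgroup G) →
      g * z * g⁻¹ ∈ (stabilizer G a ⊓ stabilizer G b : Subgroup G) := by
    rintro z ⟨h1, h2⟩
    constructor
    · change g * z * g⁻¹ ∈ stabilizer G a
      rw [mem_stabilizer_iff, ← hgb, smul_smul, inv_mul_cancel_right, mul_smul,
        mem_stabilizer_iff.1 h2]
    · change g * z * g⁻¹ ∈ stabilizer G b
      rw [mem_stabilizer_iff, ← hga, smul_smul, inv_mul_cancel_right, mul_smul,
        mem_stabilizer_iff.1 h1]
  have hQle : Q ≤ stabilizer G a ⊓ stabilizer G b := inf_le_inf_right _ hP.le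
  obtain ⟨k, hk, hkQ⟩ := conj_sylow (p := p) (stabilizer G a ⊓ stabilizer G b)
    (Q.map (MulAut.conj g).toMonoidHom) Q (by
      rintro _ ⟨z, hz, rfl⟩
      exact hKK z (hQle hz)) hQle (by
      rw [← hcQ]
      exact (Nat.card_congr (Q.equivMapOfInjective _ (MulEquiv.injective _)).toEquiv).symm) hcQ
  have hkg : ∀ q ∈ Q, (k * g) * q * (k * g)⁻¹ ∈ Q := by
    intro q hq
    have := hkQ (g * q * g⁻¹) ⟨q, hq, rfl⟩
    have e : (k * g) * q * (k * g)⁻¹ = k * (g * q * g⁻¹) * k⁻¹ := by group
    rw [e]
    exact this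
  -- surjectivity on the finite group `Q`
  have hkg' : ∀ q ∈ Q, (k * g)⁻¹ * q * (k * g) ∈ Q := by
    intro q hq
    have h1 : Q.map (MulAut.conj (k * g)).toMonoidHom = Q := by
      apply Subgroup.eq_of_le_of_card_ge
      · rintro _ ⟨z, hz, rfl⟩
        exact hkg z hz
      · exact (Nat.card_congr (Q.equivMapOfInjective _ (MulEquiv.injective _)).toEquiv).le
    rw [← h1] at hq
    obtain ⟨z, hz, hzq⟩ := hq
    have : q = (k * g) * z * (k * g)⁻¹ := hzq.symm
    rw [this]
    have e : (k * g)⁻¹ * ((k * g) * z * (k * g)⁻¹) * (k * g) = z := by group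
    rw [e]
    exact hz
  have hfinal := h.fix hR hab (k * g) (by
    intro y hy
    have hfy : ∀ q ∈ Q, q • y = y := by
      rcases hy with rfl | hy
      · exact fun q hq => hPa q hq.1
      · exact hfix1 y hy
    have hfy2 : ∀ q ∈ Q, q • (k * g) • y = (k * g) • y := by
      intro q hq
      have h1 := hfy _ (hkg' q hq)
      rw [mul_smul, mul_smul, inv_smul_eq_iff] at h1
      exact h1
    by_cases hya : (k * g) • y = a
    · exact Or.inl hya
    · exact Or.inr (hfix2 _ hya hfy2))
  rw [mul_smul, hga] at hfinal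
  have hkb : k • b = b := hk.2
  rw [hkb] at hfinal
  exact hab hfinal

end Cfsg.Agent.H15PSq
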