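import Cfsg.Agent.H15PSq.NoCent

/-!
# Simple case: the two point stabilizer is cyclic and acts freely (helper15)
-/

set_option autoImplicit false
set_option linter.style.haveILetI false
set_option linter.unusedSectionVars false

namespace Cfsg.Agent.H15PSq

open MulAction Subgroup

universe u v

variable {G : Type u} {Ω : Type v} [Group G] [Finite G] [MulAction G Ω]
variable [Finite Ω] {p : ℕ} [hp : Fact p.Prime]

theorem sys_of_fam (h : Hyp G Ω p) {a : Ω} {U₀ : Subgroup G}
    (hU : ∀ g : G, g • a = a → ∀ u ∈ U₀, g * u * g⁻¹ ∈ U₀) (hfix : ∀ u ∈ U₀, u • a = a)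
    (hcard : Nat.card U₀ = p) (hfree : ∀ u ∈ U₀, ∀ z, z ≠ a → u • z = z → u = 1) :
    ∃ R : Ω → Ω → Ω → Prop, Sys G p R ∧ ∀ z z', R a z z' ↔ z ≠ a ∧ ∃ u ∈ U₀, u • z = z' := by
  obtain ⟨U, hUa, hUe⟩ := exists_family h a U₀ hU
  have hback : ∀ (s : G) (u : G), u ∈ U (s • a) → s⁻¹ * u * s ∈ U₀ := by
    intro s u hu
    have := hUe s⁻¹ _ u hu
    rw [inv_smul_smul, hUa, inv_inv] at this
    exact this
  have hfixU : ∀ γ, ∀ u ∈ U γ, u • γ = γ := by
    intro γ u hu
    obtain ⟨s, rfl⟩ := h.exists_smul a γ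
    have h2 := hfix _ (hback s u hu)
    rw [mul_smul, mul_smul, inv_smul_eq_iff] at h2
    exact h2
  have hfreeU : ∀ γ, ∀ u ∈ U γ, ∀ z, z ≠ γ → u • z = z → u = 1 := by
    intro γ u hu z hz huz
    obtain ⟨s, rfl⟩ := h.exists_smul a γ
    have h1 := hfree _ (hback s u hu) (s⁻¹ • z) (by
      intro hc
      apply hz
      rw [← hc, smul_inv_smul]) (by rw [mul_smul, mul_smul, smul_inv_smul, huz])
    have := congrArg (fun t => s * t * s⁻¹) h1
    simpa [mul_assoc] using this
  have hcardU : ∀ γ, Nat.card (U γ) = p := by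
    intro γ
    obtain ⟨s, rfl⟩ := h.exists_smul a γ
    rw [← hcard]
    have : U (s • a) = U₀.map (MulAut.conj s).toMonoidHom := by
      ext u
      constructor
      · intro hu
        refine ⟨_, hback s u hu, ?_⟩
        change s * (s⁻¹ * u * s) * s⁻¹ = u
        group
      · rintro ⟨w, hw, rfl⟩
        exact hUe s a w (hUa ▸ hw)
    rw [this]
    exact (Nat.card_congr (U₀.equivMapOfInjective _ (MulEquiv.injective _)).toEquiv).symm
  refine ⟨fun γ z z' => z ≠ γ ∧ ∃ u ∈ U γ, u • z = z', ?_, fun z z' => by simp only [hUa]⟩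
  exact
    { equiv := by
        rintro g γ z _ ⟨hz, u, hu, rfl⟩
        refine ⟨fun hc => hz (smul_left_cancel g hc), g * u * g⁻¹, hUe g γ u hu, ?_⟩
        rw [smul_smul, inv_mul_cancel_right, mul_smul]
      refl := fun γ z hz => ⟨hz, 1, one_mem _, one_smul _ _⟩
      symm := by
        rintro γ z _ ⟨hz, u, hu, rfl⟩
        exact ⟨smul_ne (hfixU γ u hu) hz, u⁻¹, inv_mem hu, inv_smul_smul _ _⟩
      trans := by
        rintro γ z _ _ ⟨hz, u, hu, rfl⟩ ⟨-, w, hw, rfl⟩
        exact ⟨hz, w * u, mul_mem hw hu, mul_smul _ _ _⟩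
      ne := fun γ z z' hz => hz.1
      card := by
        intro γ z hz
        have c1 := card_of_orbit (U γ) z {y | z ≠ γ ∧ ∃ u ∈ U γ, u • z = y}
          (fun u hu => ⟨hz, u, hu, rfl⟩) (fun y hy => hy.2)
        have c2 : Nat.card (U γ ⊓ stabilizer G z : Subgroup G) = 1 := by
          rw [Subgroup.card_eq_one, eq_bot_iff]
          rintro k ⟨hk1, hk2⟩
          exact mem_bot.2 (hfreeU γ k hk1 z hz hk2)
        rw [c2, mul_one, hcardU] at c1
        exact c1.symm }

variable [FaithfulSMul G Ω]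

namespace CA

variable {R : Ω → Ω → Ω → Prop} {a b : Ω} {P : Subgroup G} {x s : G}

section

variable (D : CA G p R a b P x s)

include D

theorem exists_T (w : (stabilizer G a ⊓ stabilizer G b : Subgroup G)) :
    ∃ t : ZMod p, w.1 * x * w.1⁻¹ = X p x t := by
  obtain ⟨k, hk⟩ := D.norm w.1 w.2.1
  have hk' : x ^ k = w.1 * x * w.1⁻¹ := hk
  refine ⟨((k % (p : ℤ)).toNat : ZMod p), ?_⟩
  rw [X_natCast D.hxp, ← hk', ← zpow_natCast, Int.toNat_of_nonneg (Int.emod_nonneg _
    (by exact_mod_cast hp.out.ne_zero))]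
  have : (p : ℤ) = (orderOf x : ℤ) := by rw [D.ordx]
  rw [this, zpow_mod_orderOf]

theorem exists_hom [IsSimpleGroup G] :
    ∃ f : (stabilizer G a ⊓ stabilizer G b : Subgroup G) →* ZMod p, Function.Injective f := by
  choose T hT using D.exists_T
  have hX1 : X p x (1 : ZMod p) = x := by
    have := X_natCast D.hxp 1
    rw [Nat.cast_one, pow_one] at this
    exact this
  refine ⟨⟨⟨T, ?_⟩, ?_⟩, ?_⟩
  · apply X_inj D.hxp D.hx1
    rw [← hT, hX1]
    change (1 : G) * x * (1 : G)⁻¹ = x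
    group
  · intro w v
    apply X_inj D.hxp D.hx1
    change X p x (T (w * v)) = X p x (T w * T v)
    rw [← hT]
    have h1 : (w * v).1 * x * (w * v).1⁻¹ = w.1 * (v.1 * x * v.1⁻¹) * w.1⁻¹ := by
      change (w.1 * v.1) * x * (w.1 * v.1)⁻¹ = _
      group
    rw [h1, hT v]
    have h2 : w.1 * X p x (T v) * w.1⁻¹ = (X p x (T w)) ^ (T v).val := by
      rw [← hT w, conj_pow]
      rfl
    rw [h2]
    unfold X
    rw [← pow_mul, ← X_natCast D.hxp, Nat.cast_mul, ZMod.natCast_zmod_val, ZMod.natCast_zmod_val]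
    rfl
  · intro w v hwv
    have hwv' : T w = T v := hwv
    have h1 : w.1 * x * w.1⁻¹ = v.1 * x * v.1⁻¹ := by rw [hT, hT, hwv']
    have h2 : v.1⁻¹ * w.1 = 1 := by
      apply D.no_cent
      · have : v⁻¹ * w ∈ (⊤ : Subgroup (stabilizer G a ⊓ stabilizer G b : Subgroup G)) := mem_top _
        exact (v⁻¹ * w).2.2
      · calc x * (v.1⁻¹ * w.1) = v.1⁻¹ * (v.1 * x * v.1⁻¹) * w.1 := by group
          _ = v.1⁻¹ * (w.1 * x * w.1⁻¹) * w.1 := by rw [h1]
          _ = v.1⁻¹ * w.1 * x := by group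
    rw [inv_mul_eq_one] at h2
    exact Subtype.ext h2.symm

theorem isCyclic_E [IsSimpleGroup G] : IsCyclic (stabilizer G a ⊓ stabilizer G b : Subgroup G) := by
  obtain ⟨f, hf⟩ := D.exists_hom
  exact isCyclic_of_injective_ringHom f hf

theorem card_E [IsSimpleGroup G] :
    Nat.card (stabilizer G a ⊓ stabilizer G b : Subgroup G) ≤ p - 1 := by
  obtain ⟨f, hf⟩ := D.exists_hom
  have hne : ∀ w, f w ∈ (Set.univ : Set (ZMod p)) \ {0} := by
    intro w
    refine ⟨trivial, ?_⟩
    intro hc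
    rw [Set.mem_singleton_iff] at hc
    have h1 : f w * f w⁻¹ = 1 := by rw [← map_mul, mul_inv_cancel, map_one]
    rw [hc, zero_mul] at h1
    exact zero_ne_one h1
  have h5 := Nat.card_le_card_of_injective
    (fun w => (⟨f w, hne w⟩ : ((Set.univ : Set (ZMod p)) \ {0} : Set (ZMod p))))
    (fun w v hwv => hf (congrArg Subtype.val hwv))
  rw [Nat.card_coe_set_eq, Set.ncard_sdiff_singleton_of_mem (Set.mem_univ _), Set.ncard_univ,
    Nat.card_zmod] at h5
  exact h5

theorem zpowers_eq [IsSimpleGroup G] {k l : G} (hka : k • a = a) (hkb : k • b = b)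
    (hla : l • a = a) (hlb : l • b = b) (hord : orderOf k = orderOf l) : zpowers k = zpowers l := by
  classical
  haveI := D.isCyclic_E
  haveI : Fintype (stabilizer G a ⊓ stabilizer G b : Subgroup G) := Fintype.ofFinite _
  let K : (stabilizer G a ⊓ stabilizer G b : Subgroup G) := ⟨k, hka, hkb⟩
  let L : (stabilizer G a ⊓ stabilizer G b : Subgroup G) := ⟨l, hla, hlb⟩
  have hn : 0 < orderOf L := orderOf_pos L
  have hK : orderOf K = orderOf L := by
    rw [← Subgroup.orderOf_coe, ← Subgroup.orderOf_coe]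
    exact hord
  have h1 := IsCyclic.card_pow_eq_one_le (α := (stabilizer G a ⊓ stabilizer G b : Subgroup G)) hn
  have key : ∀ M : (stabilizer G a ⊓ stabilizer G b : Subgroup G), orderOf M = orderOf L →
      ((zpowers M : Subgroup (stabilizer G a ⊓ stabilizer G b : Subgroup G)) :
        Set (stabilizer G a ⊓ stabilizer G b : Subgroup G)) =
      ({w | w ^ orderOf L = 1} : Set (stabilizer G a ⊓ stabilizer G b : Subgroup G)) := by
    intro M hM
    refine Set.eq_of_subset_of_ncard_le ?_ ?_ (Set.toFinite _)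
    · rintro _ ⟨j, rfl⟩
      change (M ^ j) ^ orderOf L = 1
      rw [← zpow_natCast, ← zpow_mul, mul_comm, zpow_mul, zpow_natCast, ← hM, pow_orderOf_eq_one,
        one_zpow]
    · have e1 : ((zpowers M : Subgroup (stabilizer G a ⊓ stabilizer G b : Subgroup G)) :
          Set (stabilizer G a ⊓ stabilizer G b : Subgroup G)).ncard = orderOf L := by
        rw [← Nat.card_coe_set_eq]
        change Nat.card (zpowers M) = _
        rw [Nat.card_zpowers, hM]
      rw [e1]
      have e2 : ({w | w ^ orderOf L = 1} : Set (stabilizer G a ⊓ stabilizer G b : Subgroup G)) =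
          ((Finset.univ.filter (fun w : (stabilizer G a ⊓ stabilizer G b : Subgroup G) =>
            w ^ orderOf L = 1) :
            Finset (stabilizer G a ⊓ stabilizer G b : Subgroup G)) : Set _) := by
        ext w
        simp
      rw [e2, Set.ncard_coe_finset]
      exact h1
  have h2 : zpowers K = zpowers L := SetLike.coe_injective ((key K hK).trans (key L rfl).symm)
  have h3 := congrArg (Subgroup.map (Subgroup.subtype _)) h2
  rw [MonoidHom.map_zpowers, MonoidHom.map_zpowers] at h3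
  exact h3

/-- elements of prime order of the two point stabilizer fix only two points. -/
theorem fix_two [IsSimpleGroup G] {k : G} (hka : k • a = a) (hkb : k • b = b)
    (hkp : (orderOf k).Prime) {z : Ω} (hz : k • z = z) : z = a ∨ z = b := by
  by_contra hcon
  push Not at hcon
  obtain ⟨hza, hzb⟩ := hcon
  have hk1 : k ≠ 1 := by
    rintro rfl
    rw [orderOf_one] at hkp
    exact Nat.not_prime_one hkp
  have hkb' : k⁻¹ • b = b := by rw [inv_smul_eq_iff, hkb]
  have hcomm : ∀ g ∈ P, k • g • b = g • b → k * g = g * k := by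
    intro g hg hgb
    have h6 : g⁻¹ * (k * g * k⁻¹) ∈ P := mul_mem (inv_mem hg) (D.P_norm hka hg)
    have h7 : (g⁻¹ * (k * g * k⁻¹)) • b = b := by
      rw [mul_smul, mul_smul, mul_smul, hkb', hgb, inv_smul_smul]
    have h8 := D.hP.free _ h6 b D.hab h7
    rw [inv_mul_eq_one] at h8
    rw [mul_inv_eq_iff_eq_mul.1 h8.symm]
  let P₁ : Subgroup G := P ⊓ centralizer ({k} : Set G)
  have hmem : ∀ y, y ∈ P₁ ↔ y ∈ P ∧ k * y = y * k := by
    intro y
    change y ∈ P ⊓ centralizer ({k} : Set G) ↔ _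
    rw [mem_inf, mem_centralizer_iff]
    constructor
    · rintro ⟨h1, h2⟩
      exact ⟨h1, h2 k rfl⟩
    · rintro ⟨h1, h2⟩
      refine ⟨h1, ?_⟩
      rintro _ rfl
      exact h2
  obtain ⟨g, hg, hgb⟩ := D.hP.trans b z D.hab hza
  have hgP₁ : g ∈ P₁ := (hmem g).2 ⟨hg, hcomm g hg (by rw [hgb, hz])⟩
  have hg1 : g ≠ 1 := by
    rintro rfl
    rw [one_smul] at hgb
    exact hzb hgb.symm
  have hcard : Nat.card P₁ = p := by
    have h2 : Nat.card P₁ ∣ p ^ 2 := by
      rw [← D.hP.card]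
      exact Subgroup.card_dvd_of_le inf_le_left
    obtain ⟨j, hj, hj2⟩ := (Nat.dvd_prime_pow hp.out).1 h2
    have hj0 : j ≠ 0 := by
      rintro rfl
      rw [pow_zero, Subgroup.card_eq_one] at hj2
      rw [hj2] at hgP₁
      exact hg1 (mem_bot.1 hgP₁)
    have hj2' : j ≠ 2 := by
      rintro rfl
      have h5 : P₁ = P := by
        apply Subgroup.eq_of_le_of_card_ge inf_le_left
        rw [hj2, D.hP.card]
      apply hk1
      apply eq_one_of_fix_all (Ω := Ω)
      intro z
      by_cases hz : z = a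
      · rw [hz, hka]
      · obtain ⟨y, hy, rfl⟩ := D.hP.trans b z D.hab hz
        have h6 : y ∈ P₁ := h5 ▸ hy
        rw [smul_smul, ((hmem y).1 h6).2, mul_smul, hkb]
    have : j = 1 := by omega
    rw [hj2, this, pow_one]
  have hnorm : ∀ w : G, w • a = a → ∀ u ∈ P₁, w * u * w⁻¹ ∈ P₁ := by
    intro w hw u hu
    rw [hmem] at hu
    obtain ⟨y, hy, e, he1, he2, rfl⟩ := D.decomp hw
    have h1 := D.P_norm he1 hu.1
    have h2 : (y * e) * u * (y * e)⁻¹ = e * u * e⁻¹ := by
      calc (y * e) * u * (y * e)⁻¹ = y * (e * u * e⁻¹) * y⁻¹ := by group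
        _ = e * u * e⁻¹ := by rw [D.hP.comm y hy _ h1, mul_inv_cancel_right]
    rw [h2, hmem]
    refine ⟨h1, ?_⟩
    have h3 := D.abel he1 he2 hka hkb
    have h3' : Commute k e := h3.symm
    have h4 : Commute k u := hu.2
    exact (h3'.mul_right h4).mul_right h3'.inv_right
  obtain ⟨R₁, hR₁, hR₁a⟩ := sys_of_fam D.h hnorm (fun u hu => D.hP.le u hu.1) hcard
    (fun u hu z hz huz => D.hP.free u hu.1 z hz huz)
  have hset : ∀ y, (y = a ∨ R₁ a b y) ↔ k • y = y := by
    intro y
    constructor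
    · rintro (rfl | hy)
      · exact hka
      · obtain ⟨-, u, hu, rfl⟩ := (hR₁a _ _).1 hy
        rw [smul_smul, ((hmem u).1 hu).2, mul_smul, hkb]
    · intro hy
      by_cases hya : y = a
      · exact Or.inl hya
      · right
        rw [hR₁a]
        refine ⟨D.hab, ?_⟩
        obtain ⟨u, hu, rfl⟩ := D.hP.trans b y D.hab hya
        exact ⟨u, (hmem u).2 ⟨hu, hcomm u hu hy⟩, rfl⟩
  have hsk : zpowers (s * k * s⁻¹) = zpowers k := by
    apply D.zpowers_eq _ _ hka hkb
    · have : s * k * s⁻¹ = MulAut.conj s k := rfl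
      rw [this]
      exact MulEquiv.orderOf_eq (MulAut.conj s) k
    · have : s⁻¹ • a = b := by rw [inv_smul_eq_iff, D.hsb]
      rw [mul_smul, mul_smul, this, hkb, D.hsb]
    · have : s⁻¹ • b = a := by rw [inv_smul_eq_iff, D.hsa]
      rw [mul_smul, mul_smul, this, hka, D.hsa]
  have hfin := D.h.fix hR₁ D.hab s (by
    intro y hy
    rw [hset] at hy ⊢
    have h1 : k ∈ zpowers (s * k * s⁻¹) := hsk ▸ mem_zpowers k
    have h2 : zpowers (s * k * s⁻¹) ≤ stabilizer G (s • y) := by
      rw [zpowers_le]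
      change (s * k * s⁻¹) • s • y = s • y
      rw [smul_smul, inv_mul_cancel_right, mul_smul, hy]
    exact h2 h1)
  rw [D.hsa] at hfin
  exact D.hab hfin

end

end CA

end Cfsg.Agent.H15PSq
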