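import Cfsg.Agent.H15PSq.Simple

/-!
# Simple case: counting involutions (helper15)
-/

set_option autoImplicit false
set_option linter.style.haveILetI false
set_option linter.unusedSectionVars false

namespace Cfsg.Agent.H15PSq

open MulAction Subgroup

universe u v

variable {G : Type u} {Ω : Type v} [Group G] [Finite G] [MulAction G Ω]
variable [Finite Ω] {p : ℕ} [hp : Fact p.Prime]

/-- a fixed point free involution is an odd permutation. -/
theorem sign_fpf (h : Hyp G Ω p) (hodd : p ≠ 2) [Fintype Ω] [DecidableEq Ω] {t : G}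
    (ht : t * t = 1) (hf : ∀ z : Ω, t • z ≠ z) :
    Equiv.Perm.sign (MulAction.toPermHom G Ω t) = -1 := by
  set f := MulAction.toPermHom G Ω t with hfdef
  have hf2 : f ^ 2 = 1 := by rw [pow_two, hfdef, ← map_mul, ht, map_one]
  have hct : f.cycleType = Multiset.replicate (Multiset.card f.cycleType) 2 := by
    rw [Multiset.eq_replicate]
    refine ⟨rfl, fun n hn => ?_⟩
    have h1 : n ∣ 2 := (Equiv.Perm.dvd_of_mem_cycleType hn).trans (orderOf_dvd_of_pow_eq_one hf2)
    have h2 := Equiv.Perm.two_le_of_mem_cycleType hn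
    exact le_antisymm (Nat.le_of_dvd two_pos h1) h2
  have hsupp : f.support = Finset.univ := by
    ext z
    simp [Equiv.Perm.mem_support, hfdef, hf z]
  have hsum : f.cycleType.sum = p ^ 2 + 1 := by
    rw [f.sum_cycleType, hsupp, Finset.card_univ, ← Nat.card_eq_fintype_card, h.card]
  have hsum2 : f.cycleType.sum = Multiset.card f.cycleType * 2 := by
    conv_lhs => rw [hct]
    rw [Multiset.sum_replicate, smul_eq_mul]
  obtain ⟨m, hm⟩ := hp.out.odd_of_ne_two hodd
  have hk : Multiset.card f.cycleType = 2 * (m ^ 2 + m) + 1 := by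
    have h1 : Multiset.card f.cycleType * 2 = p ^ 2 + 1 := by rw [← hsum2, hsum]
    rw [hm] at h1
    have h2 : (2 * m + 1) ^ 2 + 1 = (2 * (m ^ 2 + m) + 1) * 2 := by ring
    rw [h2] at h1
    exact Nat.eq_of_mul_eq_mul_right two_pos h1
  rw [Equiv.Perm.sign_of_cycleType, hsum2, hk]
  have : (2 * (m ^ 2 + m) + 1) * 2 + (2 * (m ^ 2 + m) + 1) = 2 * (3 * (m ^ 2 + m) + 1) + 1 := by
    ring
  rw [this, pow_succ, pow_mul]
  simp

/-- an involution fixing a point fixes another point. -/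
theorem exists_fix_two (h : Hyp G Ω p) (hodd : p ≠ 2) {t : G} (ht : t * t = 1) {a : Ω}
    (hta : t • a = a) : ∃ d, d ≠ a ∧ t • d = d := by
  haveI : Fact (Nat.Prime 2) := ⟨Nat.prime_two⟩
  have ht2 : t ^ 2 = 1 := by rw [pow_two, ht]
  have hQ : IsPGroup 2 (zpowers t) := by
    rintro ⟨_, j, rfl⟩
    refine ⟨1, Subtype.ext ?_⟩
    change (t ^ j) ^ 2 ^ 1 = 1
    rw [pow_one, ← zpow_natCast, ← zpow_mul, mul_comm, zpow_mul, zpow_natCast, ht2, one_zpow]
  have hfixa : ∀ q ∈ zpowers t, q • a = a := by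
    intro q hq
    have : zpowers t ≤ stabilizer G a := by
      rw [zpowers_le]
      exact hta
    exact this hq
  have h1 := ncard_modEq_fixed (Ω := Ω) (p := 2) (zpowers t) hQ {a}ᶜ (by
    intro q hq x hx
    exact smul_ne (hfixa q hq) hx)
  rw [h.card_compl] at h1
  obtain ⟨m, hm⟩ := hp.out.odd_of_ne_two hodd
  by_contra hcon
  have h2 : {x | x ∈ ({a}ᶜ : Set Ω) ∧ ∀ q ∈ zpowers t, q • x = x} = ∅ := by
    apply Set.eq_empty_of_forall_notMem
    rintro d ⟨hd1, hd2⟩
    exact hcon ⟨d, hd1, hd2 t (mem_zpowers t)⟩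
  rw [h2, Set.ncard_empty, hm] at h1
  have h3 : (2 * m + 1) ^ 2 = 2 * (2 * (m ^ 2 + m)) + 1 := by ring
  rw [h3] at h1
  have h4 : (2 * (2 * (m ^ 2 + m)) + 1) % 2 = 0 % 2 := h1
  omega

variable [FaithfulSMul G Ω]

namespace CA

variable {R : Ω → Ω → Ω → Prop} {a b : Ω} {P : Subgroup G} {x s : G}

variable (D : CA G p R a b P x s)

include D

theorem exists_involution [IsSimpleGroup G] (hodd : p ≠ 2) :
    ∃ z : G, z * z = 1 ∧ z ≠ 1 ∧ z • a = a ∧ z • b = b := by
  classical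
  haveI : Fintype Ω := Fintype.ofFinite Ω
  haveI : Fact (Nat.Prime 2) := ⟨Nat.prime_two⟩
  obtain ⟨m, hm⟩ := hp.out.odd_of_ne_two hodd
  have h2 : 2 ∣ Nat.card G := by
    rw [D.h.card_group a]
    apply dvd_mul_of_dvd_left
    rw [hm]
    exact ⟨2 * (m ^ 2 + m) + 1, by ring⟩
  obtain ⟨t, ht⟩ := exists_prime_orderOf_dvd_card' 2 h2
  have ht2 : t * t = 1 := by rw [← pow_two, ← ht, pow_orderOf_eq_one]
  have ht1 : t ≠ 1 := by
    rintro rfl
    rw [orderOf_one] at ht
    norm_num at ht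
  have h3 : ∃ c : Ω, t • c = c := by
    by_contra hcon
    push Not at hcon
    have h4 := sign_fpf D.h hodd ht2 hcon
    have h5 := D.hom_trivial ((Equiv.Perm.sign (α := Ω)).comp (MulAction.toPermHom G Ω)) t
    change Equiv.Perm.sign (MulAction.toPermHom G Ω t) = 1 at h5
    rw [h4] at h5
    exact absurd h5 (by decide)
  obtain ⟨c, hc⟩ := h3
  obtain ⟨d, hd, htd⟩ := exists_fix_two D.h hodd ht2 hc
  obtain ⟨g, hg1, hg2⟩ := D.h.two c d a b hd.symm D.hab.symm
  refine ⟨g * t * g⁻¹, ?_, ?_, ?_, ?_⟩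
  · calc g * t * g⁻¹ * (g * t * g⁻¹) = g * (t * t) * g⁻¹ := by group
      _ = 1 := by rw [ht2]; group
  · intro hc
    apply ht1
    have : t = g⁻¹ * (g * t * g⁻¹) * g := by group
    rw [this, hc]
    group
  · rw [mul_smul, mul_smul, ← hg1, inv_smul_smul, hc]
  · rw [mul_smul, mul_smul, ← hg2, inv_smul_smul, htd]

theorem no_simple [IsSimpleGroup G] (hodd : p ≠ 2) : False := by
  classical
  haveI : Fintype Ω := Fintype.ofFinite Ω
  haveI : Fintype G := Fintype.ofFinite G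
  obtain ⟨z, hz2, hz1, hza, hzb⟩ := D.exists_involution hodd
  have hzord : orderOf z = 2 := orderOf_eq_prime (by rw [pow_two, hz2]) hz1
  have hfix : ∀ y, z • y = y → y = a ∨ y = b := fun y hy =>
    D.fix_two hza hzb (by rw [hzord]; exact Nat.prime_two) hy
  have hex : ∀ q : Ω × Ω, ∃ t : G, q.1 ≠ q.2 →
      t * t = 1 ∧ t • q.1 = q.1 ∧ t • q.2 = q.2 ∧ ∀ y, t • y = y → y = q.1 ∨ y = q.2 := by
    rintro ⟨y₁, y₂⟩
    by_cases hy : y₁ = y₂
    · exact ⟨1, fun hc => absurd hy hc⟩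
    · obtain ⟨g, hg1, hg2⟩ := D.h.two a b y₁ y₂ D.hab.symm hy
      refine ⟨g * z * g⁻¹, fun _ => ⟨?_, ?_, ?_, ?_⟩⟩
      · calc g * z * g⁻¹ * (g * z * g⁻¹) = g * (z * z) * g⁻¹ := by group
          _ = 1 := by rw [hz2]; group
      · change (g * z * g⁻¹) • y₁ = y₁
        rw [mul_smul, mul_smul, ← hg1, inv_smul_smul, hza]
      · change (g * z * g⁻¹) • y₂ = y₂
        rw [mul_smul, mul_smul, ← hg2, inv_smul_smul, hzb]
      · intro y hy'
        change y = y₁ ∨ y = y₂
        have h1 : z • g⁻¹ • y = g⁻¹ • y := by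
          rw [eq_inv_smul_iff, smul_smul, smul_smul]
          exact hy'
        rcases hfix _ h1 with h2 | h2
        · left
          rw [← hg1, ← h2, smul_inv_smul]
        · right
          rw [← hg2, ← h2, smul_inv_smul]
  choose f hf using hex
  let S : Finset (Ω × Ω) := (Finset.univ.erase a).offDiag
  have hS : ∀ q, q ∈ S ↔ q.1 ≠ a ∧ q.2 ≠ a ∧ q.1 ≠ q.2 := by
    intro q
    simp [S, Finset.mem_offDiag]
  have hcardΩ : (Finset.univ.erase a : Finset Ω).card = p ^ 2 := by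
    rw [Finset.card_erase_of_mem (Finset.mem_univ _), Finset.card_univ,
      ← Nat.card_eq_fintype_card, D.h.card]
    omega
  have hScard : S.card = p ^ 2 * p ^ 2 - p ^ 2 := by
    rw [Finset.offDiag_card, hcardΩ]
  have c1 : S.card ≤ 2 * (S.image f).card := by
    apply Finset.card_le_mul_card_image
    intro t ht
    obtain ⟨q₀, hq₀, rfl⟩ := Finset.mem_image.1 ht
    refine le_trans (Finset.card_le_card (t := {q₀, (q₀.2, q₀.1)}) ?_) (Finset.card_le_two)
    intro q hq
    rw [Finset.mem_filter] at hq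
    obtain ⟨hq1, hq2⟩ := hq
    rw [hS] at hq1 hq₀
    have h1 := hf q hq1.2.2
    have h2 := hf q₀ hq₀.2.2
    rw [← hq2] at h2
    have h3 := h2.2.2.2 _ h1.2.1
    have h4 := h2.2.2.2 _ h1.2.2.1
    rw [Finset.mem_insert, Finset.mem_singleton]
    rcases h3 with h3 | h3 <;> rcases h4 with h4 | h4
    · exact absurd (h3.trans h4.symm) hq1.2.2
    · left
      exact Prod.ext h3 h4
    · right
      exact Prod.ext h3 h4
    · exact absurd (h3.trans h4.symm) hq1.2.2
  have hT : ∀ t ∈ S.image f, t * t = 1 ∧ t • a ≠ a := by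
    intro t ht
    obtain ⟨q₀, hq₀, rfl⟩ := Finset.mem_image.1 ht
    rw [hS] at hq₀
    have h2 := hf q₀ hq₀.2.2
    refine ⟨h2.1, fun hc => ?_⟩
    rcases h2.2.2.2 _ hc with h3 | h3
    · exact hq₀.1 h3.symm
    · exact hq₀.2.1 h3.symm
  have c2 : (S.image f).card ≤ Nat.card (stabilizer G a ⊓ stabilizer G b : Subgroup G) *
      ((S.image f).image (fun t => t • a)).card := by
    apply Finset.card_le_mul_card_image
    intro d hd
    obtain ⟨t₀, ht₀, rfl⟩ := Finset.mem_image.1 hd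
    have h1 := hT t₀ ht₀
    have e1 : Nat.card (stabilizer G a ⊓ stabilizer G b : Subgroup G) =
        Nat.card (stabilizer G a ⊓ stabilizer G (t₀ • a) : Subgroup G) := by
      have e2 := D.h.card_stab D.hab
      rw [D.h.card_stab h1.2] at e2
      exact (Nat.eq_of_mul_eq_mul_left (pow_pos hp.out.pos 2) e2).symm
    rw [e1, Nat.card_eq_fintype_card, ← Fintype.card_coe]
    refine Fintype.card_le_of_injective
      (fun t => (⟨t₀⁻¹ * t.1, ?_, ?_⟩ :
        (stabilizer G a ⊓ stabilizer G (t₀ • a) : Subgroup G))) ?_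
    · obtain ⟨t, ht⟩ := t
      rw [Finset.mem_filter] at ht
      change (t₀⁻¹ * t) • a = a
      rw [mul_smul, inv_smul_eq_iff]
      exact ht.2
    · obtain ⟨t, ht⟩ := t
      rw [Finset.mem_filter] at ht
      change (t₀⁻¹ * t) • t₀ • a = t₀ • a
      have h2 : t • a = t₀ • a := ht.2
      rw [← h2, smul_smul, mul_assoc, (hT t ht.1).1, mul_one, inv_smul_eq_iff, h2, smul_smul, h1.1,
        one_smul]
    · intro t t' htt
      have := congrArg Subtype.val htt
      exact Subtype.ext (mul_left_cancel this)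
  have c3 : ((S.image f).image (fun t => t • a)).card ≤ p ^ 2 := by
    rw [← hcardΩ]
    apply Finset.card_le_card
    intro d hd
    obtain ⟨t₀, ht₀, rfl⟩ := Finset.mem_image.1 hd
    rw [Finset.mem_erase]
    exact ⟨(hT t₀ ht₀).2, Finset.mem_univ _⟩
  have c4 := D.card_E
  have hp3 : 3 ≤ p := by
    have := hp.out.two_le
    omega
  have c5 : p ^ 2 * p ^ 2 - p ^ 2 ≤ 2 * ((p - 1) * p ^ 2) := by
    rw [← hScard]
    refine c1.trans (Nat.mul_le_mul_left 2 (c2.trans (Nat.mul_le_mul c4 c3)))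
  obtain ⟨q, rfl⟩ : ∃ q, p = q + 1 := ⟨p - 1, by omega⟩
  have c6 : (q + 1) ^ 2 * (q + 1) ^ 2 - (q + 1) ^ 2 = (q + 1) ^ 2 * (q * (q + 2)) := by
    rw [Nat.sub_eq_iff_eq_add]
    · ring
    · exact Nat.le_mul_of_pos_left _ (by positivity)
  rw [c6, Nat.add_sub_cancel] at c5
  have c7 : 2 * (q * (q + 1) ^ 2) = (q + 1) ^ 2 * (q * 2) := by ring
  rw [c7] at c5
  have c8 := Nat.le_of_mul_le_mul_left c5 (by positivity)
  have c9 := Nat.le_of_mul_le_mul_left c8 (by omega)
  omega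

end CA

end Cfsg.Agent.H15PSq
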